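import Cfsg.Agent.Fus.WN
import Cfsg.Agent.Fus.Cent

/-! Two-fusion systems of simple groups: definitions. -/

set_option autoImplicit false

namespace CF.Kf

open Subgroup Cfsg

variable {G : Type*} [Group G] {S T U P R R' : Subgroup G} {x y g : G}

/-- The 2-fusion system is simple or has a nontrivial normal subgroup. -/
def KF (Y : Type*) [Group Y] : Prop := ∀ S : Sylow 2 Y,
  (groupFusionSystem (S : Subgroup Y)).core ≠ ⊥ ∨ (groupFusionSystem (S : Subgroup Y)).IsSimple 2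

/-- Sylow 2-subgroups. -/
def Sy2 (S : Subgroup G) : Prop := IsPGroup 2 S ∧ ¬ 2 ∣ S.index

/-- `T` is strongly closed in `S`. -/
def Sc (S T : Subgroup G) : Prop :=
  T ≤ S ∧ ∀ x ∈ T, ∀ g : G, g * x * g⁻¹ ∈ S → g * x * g⁻¹ ∈ T

/-- `y` is conjugate to an element of `T`. -/
def Cj (T : Subgroup G) (y : G) : Prop := ∃ g : G, g * y * g⁻¹ ∈ T

/-- A property of the supports of normal subsystems. -/
def Tor (S T : Subgroup G) : Prop := ∀ U ≤ T, S ≤ normalizer (U : Set G) → ∀ s ∈ S,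
  s ∈ closure {y | Cj T y ∧ y ∈ normalizer (U : Set G)} ⊔ centralizer (U : Set G) →
    ∃ t ∈ T, t⁻¹ * s ∈ centralizer (U : Set G)

/-- The smallest nontrivial strongly closed subgroup. -/
structure Mn (S T : Subgroup G) : Prop where
  sc : Sc S T
  na : ¬ IsMulCommutative T
  aut : ∀ φ : MulAut G, ∀ y, Cj T y → Cj T (φ y)
  min : ∀ U, Sc S U → U ≠ ⊥ → T ≤ U

/-- No normal subsystem lives on a proper nontrivial subgroup. -/
def KA (S : Subgroup G) : Prop := ∀ T₀ T, Mn S T₀ → T₀ ≤ T → Sc S T → Tor S T → S ≤ T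

/-- Closure properties of the conjugation maps in a normal subsystem on `S`. -/
structure Cl2 (S : Subgroup G) (M : Subgroup G → G → Prop) : Prop where
  pelt : ∀ {R g} (k : ℕ), R ≤ S → g ∈ normalizer (R : Set G) → g ^ 2 ^ k = 1 → M R g
  cent : ∀ {R g}, R ≤ S → g ∈ centralizer (R : Set G) → M R g
  mul : ∀ {R g h}, M R g → M R h → h ∈ normalizer (R : Set G) → M R (g * h)
  mono : ∀ {R R' g}, M R g → R' ≤ R → M R' g
  ext : ∀ {R R' g}, M R g → R ≤ R' → R' ≤ S → (centralizer (R : Set G) ≤ R ∨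
    S ≤ normalizer (R : Set G) ∧ S ⊓ centralizer (R : Set G) ≤ R) →
    (∀ x ∈ R', g * x * g⁻¹ ∈ S) → M R' g

/-- No proper normal subsystem lives on `S`. -/
def KB (S : Subgroup G) : Prop := ∀ M, Cl2 S M → ∀ g ∈ normalizer (S : Set G), M S g

theorem Cj.of_mem (h : x ∈ T) : Cj T x := ⟨1, by simpa⟩

theorem Cj.conj (h : Cj T x) (g : G) : Cj T (g * x * g⁻¹) :=
  let ⟨k, hk⟩ := h; ⟨k * g⁻¹, by simpa [mul_assoc] using hk⟩

theorem Cj.of_conj (h : Cj T (g * x * g⁻¹)) : Cj T x := by simpa [mul_assoc] using h.conj g⁻¹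

theorem Cj.inv (h : Cj T x) : Cj T x⁻¹ :=
  let ⟨k, hk⟩ := h; ⟨k, by simpa [mul_assoc] using inv_mem hk⟩

theorem Cj.pow (h : Cj T x) (n : ℕ) : Cj T (x ^ n) :=
  let ⟨k, hk⟩ := h; ⟨k, by rw [← conj_pow]; exact pow_mem hk n⟩

theorem Cj.mono (h : Cj T x) (e : T ≤ U) : Cj U x := let ⟨k, hk⟩ := h; ⟨k, e hk⟩

theorem Sc.mem (h : Sc S T) (hx : Cj T x) (hS : x ∈ S) : x ∈ T := by
  obtain ⟨k, hk⟩ := hx
  simpa [mul_assoc] using h.2 _ hk k⁻¹ (by simpa [mul_assoc])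

theorem sy2_sylow [Finite G] (S : Sylow 2 G) : Sy2 (S : Subgroup G) :=
  ⟨S.isPGroup', S.not_dvd_index⟩

theorem Sy2.exists_sylow [Finite G] (h : Sy2 S) : ∃ S' : Sylow 2 G, (S' : Subgroup G) = S :=
  ⟨h.1.toSylow h.2, rfl⟩

theorem Sy2.into [Finite G] (h : Sy2 S) (hP : IsPGroup 2 P) : ∃ g : G, ∀ x ∈ P, g * x * g⁻¹ ∈ S := by
  obtain ⟨S, rfl⟩ := h.exists_sylow
  obtain ⟨Q, hQ⟩ := hP.exists_le_sylow
  obtain ⟨g, rfl⟩ := MulAction.exists_smul_eq G Q S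
  exact ⟨g, fun x hx => smul_mem_pointwise_smul _ (MulAut.conj g) _ (hQ hx)⟩

/-- The conjugates of `T` meet every 2-subgroup in a subgroup. -/
theorem Sc.mul [Finite G] (h : Sc S T) (hS : Sy2 S) (hP : IsPGroup 2 P) (hx : x ∈ P) (hy : y ∈ P)
    (h1 : Cj T x) (h2 : Cj T y) : Cj T (x * y) := by
  obtain ⟨g, hg⟩ := hS.into hP
  exact ⟨g, by simpa [mul_assoc] using
    (T.mul_mem (h.mem (h1.conj g) (hg x hx)) (h.mem (h2.conj g) (hg y hy)))⟩

theorem Sc.comm [Finite G] (h : Sc S T) (hS : Sy2 S) (hP : IsPGroup 2 P) (hx : x ∈ P)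
    (hy : g * x * g⁻¹ ∈ P) (h1 : Cj T x) : Cj T (x⁻¹ * (g * x * g⁻¹)) :=
  h.mul hS hP (inv_mem hx) hy h1.inv (h1.conj g)

theorem Sc.norm [Finite G] (h : Sc S T) (hU : U ≤ S) (hg : g ∈ normalizer (U : Set G)) :
    g ∈ normalizer ((T ⊓ U : Subgroup G) : Set G) :=
  mem_normalizer_fintype fun x hx => have := (hg x).1 hx.2; ⟨h.2 x hx.1 g (hU this), this⟩

theorem Sc.norm' [Finite G] (h : Sc S T) : normalizer (S : Set G) ≤ normalizer (T : Set G) :=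
  fun g hg => by simpa [inf_eq_left.2 h.1] using h.norm le_rfl hg

variable {M : Subgroup G → G → Prop}

theorem Cl2.jump (h : Cl2 S M) (h1 : M R g) (h2 : R ≤ S) (h3 : R' ≤ S)
    (h4 : centralizer (R : Set G) ≤ R ∨
      S ≤ normalizer (R : Set G) ∧ S ⊓ centralizer (R : Set G) ≤ R)
    (h5 : g ∈ normalizer (R : Set G)) (h6 : g ∈ normalizer (R' : Set G)) : M R' g :=
  h.mono (h.ext (R' := S ⊓ S.comap (MulAut.conj g).toMonoidHom) h1
    (fun x hx => ⟨h2 hx, h2 ((h5 x).1 hx)⟩) inf_le_left h4 fun _ hx => hx.2)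
    fun x hx => ⟨h3 hx, h3 ((h6 x).1 hx)⟩

/-- The elements normalizing `R` whose conjugation map is good. -/
def Cl2.sub [Finite G] (h : Cl2 S M) (hR : R ≤ S) : Subgroup G :=
  have m : ∀ {a b}, a ∈ normalizer (R : Set G) ∧ M R a → b ∈ normalizer (R : Set G) ∧ M R b →
      a * b ∈ normalizer (R : Set G) ∧ M R (a * b) := fun a b =>
    ⟨mul_mem a.1 b.1, h.mul a.2 b.2 b.1⟩
  subgroupOfIdempotent {g | g ∈ normalizer (R : Set G) ∧ M R g}
    ⟨1, one_mem _, h.cent hR (one_mem _)⟩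
    (Set.Subset.antisymm (by rintro _ ⟨a, ha, b, hb, rfl⟩; exact m ha hb) fun a ha =>
      ⟨a, ha, 1, ⟨one_mem _, h.cent hR (one_mem _)⟩, mul_one a⟩)

theorem Cl2.mem_sub [Finite G] (h : Cl2 S M) {hR : R ≤ S} :
    g ∈ h.sub hR ↔ g ∈ normalizer (R : Set G) ∧ M R g := Iff.rfl

theorem Cl2.pow_mem [Finite G] (h : Cl2 S M) (hR : R ≤ S) (k : ℕ) (h1 : g ∈ normalizer (R : Set G))
    (h2 : g ^ 2 ^ k = 1) : g ∈ h.sub hR := ⟨h1, h.pelt k hR h1 h2⟩

theorem Cl2.cent_le [Finite G] (h : Cl2 S M) (hR : R ≤ S) : centralizer (R : Set G) ≤ h.sub hR :=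
  fun _ hg => ⟨centralizer_le_normalizer _ hg, h.cent hR hg⟩

/-- One self-centralizing normal subgroup of `S` may suffice. -/
theorem kb_of [Finite G] (h1 : R ≤ S) (h2 : S ≤ normalizer (R : Set G))
    (h3 : S ⊓ centralizer (R : Set G) ≤ R) (h4 : normalizer (S : Set G) ≤
      closure {g | g ∈ normalizer (R : Set G) ∧ ∃ k : ℕ, g ^ 2 ^ k = 1} ⊔ centralizer (R : Set G)) :
    KB S := fun _ h _ hg =>
  h.ext ((sup_le ((closure_le _).2 fun _ a => a.2.elim fun k b => h.pow_mem h1 k a.1 b) (h.cent_le h1) :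
    _ ≤ h.sub h1) (h4 hg)).2 h1 le_rfl (.inr ⟨h2, h3⟩) fun x hx => (hg x).1 hx

theorem kb_self [Finite G] (hS : IsPGroup 2 S) (h : normalizer (S : Set G) ≤ S) : KB S :=
  kb_of le_rfl le_normalizer inf_le_left (h.trans (le_sup_of_le_left fun x hx => subset_closure
    ⟨le_normalizer hx, let ⟨k, hk⟩ := hS ⟨x, hx⟩; ⟨k, congrArg Subtype.val hk⟩⟩))

end CF.Kf
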