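import Cfsg.Agent.Kf.A

/-! Local data for the criteria on two-fusion systems. -/

set_option autoImplicit false

namespace CF.Kf

open Subgroup

variable {Y : Type*} [Group Y] {Q N : Subgroup Y}

/-- `N / Q` has a smallest normal subgroup of even order, `L / Q`, of index at most two. -/
structure Lc (Q L N : Subgroup Y) : Prop where
  pg : IsPGroup 2 Q
  QL : Q ≤ L
  LN : L ≤ N
  nrm : N ≤ normalizer (Q : Set Y)
  cen : N ⊓ centralizer (Q : Set Y) ≤ Q
  idx : L.relIndex N ∣ 2
  gen : ∀ X ≤ N, N ≤ normalizer (X : Set Y) → Q ≤ X → 2 ∣ Q.relIndex X → L ≤ X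

theorem Lc.of_simple {X : Type*} [Group X] [IsSimpleGroup X] (hQ : IsPGroup 2 Q) (h1 : Q ≤ N)
    (h2 : N ⊓ centralizer (Q : Set Y) ≤ Q) (π : N →* X) (h3 : Function.Surjective π)
    (h4 : π.ker = Q.subgroupOf N) : Lc Q N N := by
  refine ⟨hQ, h1, le_rfl, (normal_subgroupOf_iff_le_normalizer h1).1 (h4 ▸ inferInstance), h2,
    by simp, fun X a b c d => ?_⟩
  have := (normal_subgroupOf_iff_le_normalizer a).2 b
  rcases (this.map π h3).eq_bot_or_eq_top with e | e
  · rw [Subgroup.map_eq_bot_iff, h4] at e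
    rw [relIndex_eq_one.2 (show X ≤ Q from fun x hx => @e ⟨x, a hx⟩ hx)] at d
    exact absurd d (by decide)
  · have := comap_map_eq π (X.subgroupOf N)
    rw [e, comap_top, h4, sup_eq_left.2 (subgroupOf_mono N c)] at this
    exact fun x hx => this.le (mem_top (⟨x, hx⟩ : N))

end CF.Kf
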