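import Cfsg.Agent.Kf.OA
import Cfsg.Agent.BN.BaL
import Cfsg.Agent.BN.TwComb

/-! Twisting a Frobenius map by the longest element. -/

set_option autoImplicit false

namespace CF.Kf

open Subgroup CF.Chev CF.BN CF.KB CF.KI CF.TC

variable {B ι : Type} [Fintype B] [DecidableEq B] [Fintype ι] [DecidableEq ι]

theorem Tws.two {R : RootSys B ι} {S S' : Sym R} (h : Tws S S') (ha : S.π ∈ R.Aut)
    (h2 : ∀ j, S.p (S.p j) = j) (j : B) : S'.p (S'.p j) = j := by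
  obtain rfl | ⟨-, h⟩ := h
  · exact h2 j
  refine R.simple_injective ?_
  rw [← S'.π_simple, ← S'.π_simple, h, h, RootSys.neg_aut ha, RootSys.neg_aut (lg_mem_Aut _), R.neg_neg,
    ← Sym.apply_π S.stab_univ.lg_mem_Wf, lg_lg, S.π_simple, S.π_simple, h2]

theorem Tws.D4 {S S' : Sym cD4.toRootSys} (h : Tws S S') : S'.π = S.π ∧ S'.p = S.p := by
  obtain rfl | ⟨-, h⟩ := h
  · exact ⟨rfl, rfl⟩
  have e : S'.π = S.π := Equiv.ext fun r => by
    rw [h, lg_univ_eq_neg carD4' [1, 0, 2, 3, 1, 0, 2, 3, 1, 0, 2, 3] (by decide +kernel)]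
    exact cD4.neg_neg _
  exact ⟨e, Equiv.ext fun j => cD4.simple_injective (by rw [← S'.π_simple, e, S.π_simple])⟩

variable {C : ChevBasis B ι} {K : Type*} [Field K] [IsAlgClosed K] {G : Type*} [Group G]
  {ρ : StRep C K G} {h : ρ.IsAdj} {p : ℕ} [Fact p.Prime] [CharP K p] {F : MulAut G}
  {S : Sym C.toRootSys} {f : ℕ} {Y : Type*} [Group Y] {κ : Y →* G}

theorem twist [Nonempty B] (D : FD h p F S.π f) (hp : p ≠ 2) {k : ℕ} (hK : Big K k)
    (hk : Fintype.card ι + Fintype.card B ≤ k) (M : Md F κ) :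
    ∃ F' S', ∃ κ' : Y →* G, Tws S S' ∧ TZ h p F' S' f ∧ Md F' κ' := by
  by_cases c : p ^ f % 4 = 1
  · exact ⟨F, S, κ, .inl rfl, ⟨D.mon.1, _, D, .inl ⟨c, fun _ => rfl⟩⟩, M⟩
  have c' : p ^ f % 4 = 3 := by
    have := Nat.odd_iff.1 (((Fact.out : p.Prime).odd_of_ne_two hp).pow (n := f)); omega
  obtain ⟨l, e, -⟩ := C.exists_reduced (lg_mem_W (R := C.toRootSys) Set.univ)
  have h1 : ρ.NW (ρ.nw l) (lg C.toRootSys Set.univ) := ⟨1, one_mem _, l, (one_mul _).symm, e⟩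
  have h2 := nw_mem_Alg (h := h) (p := p) l
  obtain ⟨y, hy⟩ := D.fr.lang hK hk h2
  have r := Ba.rel_of_lang hy
  choose τ _ hτ using fun i => Ba.lg_simple (C := C) (Set.mem_univ i)
  have h0 := lg_mem_Aut (R := C.toRootSys) Set.univ
  have h3 : Function.Involutive τ := fun i => C.simple_injective (C.neg_injective ((hτ _).symm.trans (by
    rw [← C.neg_eq_iff, ← RootSys.neg_aut h0, ← hτ, lg_lg])))
  have h4 := mul_mem C.negPerm_mem_Aut (mul_mem h0 D.mon.1)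
  have h5 : ∀ i, (C.negPerm * (lg C.toRootSys Set.univ * S.π)) (C.simple i) = C.simple ((h3.toPerm * S.p) i) :=
    fun i => by simp [S.π_simple, hτ]
  refine ⟨_, ⟨_, _, h5, RootSys.neg_aut h4, fun i r => by
    rw [← C.refl_simple, C.refl_aut h4, h5, C.refl_simple]⟩, (MulAut.conj y).toMonoidHom.comp κ,
    .inr ⟨h4, fun _ => rfl⟩, ⟨h4, _, ⟨D.fr.conj h2, D.pos, D.mon.conj h1.acts⟩, .inr ⟨c', fun _ => by simp⟩⟩,
    (MulAut.conj y).injective.comp M.inj, ?_, fun g hg => ?_⟩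
  · rintro _ ⟨g, rfl⟩
    have := r (y * κ g * y⁻¹)
    rw [show y⁻¹ * (y * κ g * y⁻¹) * y⁻¹⁻¹ = κ g by group, show F (κ g) = κ g from M.le ⟨g, rfl⟩] at this
    exact (show _ = y * (y⁻¹ * _ * y⁻¹⁻¹) * y⁻¹ by simp [mul_assoc]).trans (congrArg (y * · * y⁻¹) this.symm)
  · obtain ⟨u, hu⟩ := M.cm (r.cm hg)
    exact ⟨u, by simp [hu, mul_assoc]⟩

end CF.Kf
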