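import Cfsg.Agent.Kf.O5a

/-! Normalizers of two-subgroups of the monomial group. -/

set_option autoImplicit false

namespace CF.Kf

open Subgroup CF.Chev CF.BN CF.KB CF.KI CF.TC
open scoped commutatorElement

variable {B ι : Type} [Fintype B] [DecidableEq B] [Fintype ι] [DecidableEq ι]
  {C : ChevBasis B ι} {K : Type*} [Field K] {G : Type*} [Group G] {ρ : StRep C K G}

namespace O2

variable (h : ρ.IsAdj) {D : Subgroup G} (hD : D ≤ ρ.H)
include h hD

theorem exists_c : ∃ c : D → B → Kˣ, (∀ z, h.r3.tor (c z) = z) ∧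
    ∀ s, s ∈ {s | ∀ z ∈ D, rt ρ z s = 1} ↔ ∀ z, rv C (c z) s = 1 := by
  choose c hc using fun z : D => h.r3.range_tor.ge (hD z.2)
  exact ⟨c, hc, fun s => by simp [← rt_tor h.faithful h.r3, hc]⟩

theorem sy : Sy C {s | ∀ z ∈ D, rt ρ z s = 1} := let ⟨_, _, k⟩ := exists_c h hD; Ba.sy_of k

theorem dec {g : G} (hg : ∀ z ∈ D, g⁻¹ * z * g ∈ ρ.H) :
    ∃ l ∈ ρ.U {s | ∀ z ∈ D, rt ρ z s = 1}, ∃ n w, ρ.NW n w ∧ g = l * n := by
  obtain ⟨c, a, b⟩ := exists_c h hD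
  choose c' hc using fun z : D => h.r3.range_tor.ge (hg z z.2)
  obtain ⟨l, u, n, w, v, -, e⟩ := Ba.conj_decomp' (h := h) (g := g) (c' := c') b fun z => by
    rw [hc, a]; group
  exact ⟨l, u, n, w, v, e⟩

end O2

theorem core (h : ρ.IsAdj) (h3 : T3 C) {P : Subgroup G} [Finite P] (hP : IsPGroup 2 P)
    (hN : P ≤ ρ.N) (hU : SepU ρ P) {g : G} (hg : g ∈ normalizer (P : Set G)) : g ∈ ρ.N := by
  let D : Subgroup G := ⨅ k ∈ normalizer (P : Set G), (P ⊓ ρ.H).comap (MulAut.conj k).toMonoidHom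
  have mD : ∀ z, z ∈ D ↔ ∀ k ∈ normalizer (P : Set G), k * z * k⁻¹ ∈ P ⊓ ρ.H := fun z => by
    simp [D, mem_iInf]
  let R : Subgroup G := ⨆ k ∈ normalizer (P : Set G), (P ⊓ ρ.H).comap (MulAut.conj k).toMonoidHom
  have RP : R ≤ P := iSup₂_le fun k hk y hy => (hk y).2 hy.1
  have mR : ∀ k ∈ normalizer (P : Set G), ∀ y, k * y * k⁻¹ ∈ P ⊓ ρ.H → y ∈ R := fun k hk y hy =>
    (le_iSup₂_of_le k hk le_rfl : _ ≤ R) hy
  have AR : P ⊓ ρ.H ≤ R := fun y hy => mR 1 (one_mem _) y (by simpa using hy)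
  have DA : D ≤ P ⊓ ρ.H := fun z hz => by simpa using (mD z).1 hz 1 (one_mem _)
  have DH := DA.trans inf_le_right
  have nD : ∀ k ∈ normalizer (P : Set G), ∀ z ∈ D, k * z * k⁻¹ ∈ D := fun k hk z hz =>
    (mD _).2 fun m hm => by simpa [mul_assoc] using (mD z).1 hz _ (mul_mem hm hk)
  have nR : ∀ k ∈ normalizer (P : Set G), ∀ z ∈ R, k * z * k⁻¹ ∈ R := fun k hk =>
    (iSup₂_le fun m hm y hy => mR (m * k⁻¹) (mul_mem hm (inv_mem hk)) _ (by
      simpa [mul_assoc] using hy) : R ≤ R.comap (MulAut.conj k).toMonoidHom)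
  have RL : R ≤ Ba.LS ρ {s | ∀ z ∈ D, rt ρ z s = 1} := iSup₂_le fun k hk y hy => by
    obtain ⟨l, a, n, w, b, e⟩ := O2.dec h DH (g := k⁻¹) fun z hz => by
      simpa using DH (nD k hk z hz)
    have := mul_mem (mul_mem (mem_sup_left a) (mem_sup_right (b.acts.conj_mem_H hy.2)))
      (inv_mem (mem_sup_left a) : l⁻¹ ∈ Ba.LS ρ _)
    rwa [show l * (n * (MulAut.conj k).toMonoidHom y * n⁻¹) * l⁻¹ = l * n * (k * y * k⁻¹) * (l * n)⁻¹ by
      simp [mul_assoc], ← e, show k⁻¹ * (k * y * k⁻¹) * k⁻¹⁻¹ = y by group] at this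
  have ZA : ∀ y ∈ R, (∀ x ∈ R, ⁅y, x⁆ ∈ D) → y ∈ ρ.H := fun y hy k => by
    obtain ⟨w, hw⟩ := StRep.exists_nW_of_mem_N (hN (RP hy))
    have t : ∀ r, C.Pos r → (∀ z ∈ D, rt ρ z (w r) = 1) → C.Pos (w r) := fun r a b => by
      by_contra c
      obtain ⟨z, u, v, e⟩ := hU.exists h a c
      have := b _ (k z (AR ⟨u, v⟩))
      rw [commutatorElement_def, rt_mul h.faithful (hw.acts.conj_mem_H v) (inv_mem v),
        rt_conj h.faithful hw.acts v, rt_inv h.faithful v, mul_inv_eq_one] at this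
      exact e this
    suffices w = 1 from (this ▸ hw).mem_H
    by_cases n : Ba.N3 C {s | ∀ z ∈ D, rt ρ z s = 1}
    · have := Ba.mem_WS h.faithful (O2.sy h DH) n hw (RL hy)
      exact Ba.ws_eq_one h.faithful (O2.sy h DH) n this fun r a b =>
        t r b (((O2.sy h DH).ws_iff this r).2 a)
    simp only [Ba.N3, not_forall, not_not] at n
    obtain ⟨r, a, s, b, e⟩ := n
    refine C.eq_one_of_simple_pos hw.mem_W fun j => t _ (C.pos_simple j) fun z hz => ?_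
    obtain ⟨c, rfl⟩ := h.r3.range_tor.ge (DH hz)
    rw [rt_tor h.faithful]
    by_contra c'
    exact h3.ne c' r ((rt_tor h.faithful h.r3 c r).symm.trans (a _ hz)) s
      ((rt_tor h.faithful h.r3 c s).symm.trans (b _ hz)) e
  have RD : R ≤ D := by
    by_contra e
    haveI := Finite.of_injective _ (inclusion_injective RP)
    haveI : (D.subgroupOf R).Normal := ⟨fun z hz k => nD k (le_normalizer (RP k.2)) _ hz⟩
    haveI : Nontrivial (R ⧸ D.subgroupOf R) := QuotientGroup.nontrivial_iff.2 fun c =>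
      e (subgroupOf_eq_top.1 c)
    haveI := ((hP.to_le RP).to_quotient (D.subgroupOf R)).center_nontrivial
    obtain ⟨⟨y, a⟩, b⟩ := exists_ne (1 : center (R ⧸ D.subgroupOf R))
    obtain ⟨y, rfl⟩ := QuotientGroup.mk_surjective y
    refine b (Subtype.ext ((QuotientGroup.eq_one_iff y).2 ((mD _).2 fun k hk =>
      ⟨RP (nR k hk _ y.2), ZA _ (nR k hk _ y.2) fun x hx => ?_⟩)))
    have := nD k hk _ ((QuotientGroup.eq_one_iff (N := D.subgroupOf R) ⁅y, ⟨_, nR _ (inv_mem hk) x hx⟩⁆).1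
      ((map_commutatorElement (QuotientGroup.mk' _) _ _).trans
        (commutatorElement_eq_one_iff_mul_comm.2 (mem_center_iff.1 a _).symm)))
    simpa [commutatorElement_def, mul_assoc] using this
  obtain ⟨l, a, n, w, b, e⟩ := O2.dec h (D := P ⊓ ρ.H) inf_le_right (g := g) fun z hz => by
    simpa using DH (nD _ (inv_mem hg) z (RD (AR hz)))
  have : l ∈ ρ.U ∅ := ρ.U_mono (fun s hs => by
    have k : ∀ r, C.Pos r → ¬ ∀ z ∈ P ⊓ ρ.H, rt ρ z r = 1 := fun r c d =>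
      let ⟨z, u, v, e⟩ := hU r r c c; e (by simp [d z ⟨u, v⟩])
    by_cases c : C.Pos s
    · exact k s c hs
    · exact k _ ((C.pos_neg_iff s).2 c) fun z hz => by rw [rt_neg, hs z hz, inv_one]) a
  rw [ρ.U_empty, mem_bot] at this
  rw [e, this, one_mul]
  exact b.mem_N

end CF.Kf
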