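import Cfsg.Agent.Kf.OA

/-! The roots attached to the orbits of nodes. -/

set_option autoImplicit false

namespace CF.Kf

open CF.Chev CF.BN

variable {B ι : Type} [Fintype B] [DecidableEq B] [Fintype ι] [DecidableEq ι]
  {R : RootSys B ι} {S : Sym R}

theorem aj_pos (j : B) : R.Pos (aj S j) := by
  unfold aj; split_ifs with h
  · rw [R.refl_simple]
    exact (R.pos_simple _).sref fun e => by rw [R.simple_injective e, R.car_self] at h; omega
  · exact R.pos_simple j

theorem O3.p_mem (j : B) : S.p j ∈ S.orb j := (S.stab_orb j j).2 (S.mem_orb_self j)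

theorem aj_sub (j : B) : R.InSub (S.orb j) (aj S j) := by
  unfold aj; split_ifs with h
  · rw [R.refl_simple, R.inSub_WJ (R.sref_mem_WJ (S.mem_orb_self j)), R.inSub_simple]
    exact O3.p_mem j
  · exact R.inSub_simple.2 (S.mem_orb_self j)

theorem aj_coord (j : B) : R.vec (aj S j) j = 1 := by
  unfold aj; split_ifs with h
  · have : j ≠ S.p j := fun e => by rw [← e, R.car_self] at h; omega
    simp [R.vec_sref, R.A_simple_simple, h, R.vec_simple, this]
  · simp [R.vec_simple]

theorem O3.orb_two (h : ∀ j, S.p (S.p j) = j) {j k : B} : k ∈ S.orb j ↔ k = j ∨ k = S.p j :=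
  ⟨S.orb_induction (q := fun k => k = j ∨ k = S.p j) (.inl rfl) (by
    rintro _ (rfl | rfl); exacts [.inr rfl, .inl (h _)]), by
    rintro (rfl | rfl); exacts [S.mem_orb_self _, O3.p_mem j]⟩

theorem orb_cases (ha : S.π ∈ R.Aut) (ho : Orb S) (j : B) :
    (S.π (aj S j) = aj S j ∧ S.orb j = {j, S.p j} ∧ R.car j (S.p j) = -1 ∧
      ∀ r, fo S j r = R.A (aj S j) r) ∨
    (aj S j = R.simple j ∧ ∀ k ∈ S.orb j, ∀ l ∈ S.orb j, k ≠ l → R.car k l = 0) := by
  have l := R.len_aut ha (R.simple j)
  rw [S.π_simple] at l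
  have s := RootSys.A_symm_of_len l
  rw [R.A_simple_simple, R.A_simple_simple] at s
  by_cases h : R.car j (S.p j) = -1
  · have n : j ≠ S.p j := fun e => by rw [← e, R.car_self] at h; omega
    have ho := ho.resolve_right fun k => by have := k j j (S.mem_orb_self j) _ (O3.p_mem j) n; omega
    refine .inl ⟨?_, Set.ext fun k => O3.orb_two ho, h, fun r => ?_⟩
    · rw [aj, if_pos h, R.refl_aut ha, S.π_simple, S.π_simple, ho]
      refine R.vec_inj ?_
      rw [R.vec_refl, R.vec_refl, R.A_simple_simple, R.A_simple_simple, s, h]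
      simp [add_comm]
    · rw [aj, if_pos h, RootSys.A_refl_left, R.A_refl_right, R.A_simple_simple, s, h, fo,
        Finset.sum_eq_add_of_mem j (S.p j) (by simpa using S.mem_orb_self j) (by simpa using O3.p_mem j)
          n fun c a b => ((O3.orb_two ho).1 (by simpa using a)).elim (b.1 · |>.elim) (b.2 · |>.elim)]
      ring
  refine .inr ⟨if_neg h, ho.elim (fun ho => ?_) fun k => k j⟩
  have k : j ≠ S.p j → R.car j (S.p j) = 0 := fun n => by
    have := RootSys.abs_A_le_of_len l.symm (R.simple_injective.ne n.symm) (R.simple_ne_neg _ _)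
    rw [R.A_simple_simple] at this
    have := R.car_nonpos n
    omega
  intro a ha b hb n
  rcases (O3.orb_two ho).1 ha with rfl | rfl <;> rcases (O3.orb_two ho).1 hb with rfl | rfl
  exacts [(n rfl).elim, k n, s ▸ k n.symm, (n rfl).elim]

theorem fo_aj (ha : S.π ∈ R.Aut) (ho : Orb S) (j : B) : fo S j (aj S j) = 2 := by
  rcases orb_cases ha ho j with ⟨-, -, -, h⟩ | ⟨h, k⟩
  · rw [h, R.A_self]
  rw [h, fo, Finset.sum_eq_single_of_mem j (by simpa using S.mem_orb_self j) fun b c d => by
    rw [R.A_simple_simple, k b (by simpa using c) j (S.mem_orb_self j) d], R.A_self]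

theorem O3.exists_refl (T : Finset B) (h : ∀ k ∈ T, ∀ l ∈ T, k ≠ l → R.car k l = 0) (a : ι) :
    ∃ u, R.len u = R.len a ∧ (∀ l ∉ T, R.vec u l = R.vec a l) ∧
      ∀ r, R.A r u = R.A r a - ∑ k ∈ T, R.A (R.simple k) a * R.A r (R.simple k) := by
  induction' T using Finset.induction_on with k T hk ih
  · exact ⟨a, rfl, fun _ _ => rfl, by simp⟩
  obtain ⟨u, h1, h2, h3⟩ := ih fun a b c d => h a (by simp [b]) c (by simp [d])
  refine ⟨R.refl (R.simple k) u, (RootSys.len_refl ..).trans h1, fun l hl => ?_, fun r => ?_⟩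
  · rw [Finset.mem_insert, not_or] at hl
    rw [R.refl_simple, R.vec_sref_of_ne _ _ hl.1, h2 l hl.2]
  rw [R.A_refl_right, h3, h3, Finset.sum_insert hk, Finset.sum_eq_zero (s := T)
    (f := fun l => R.A (R.simple l) a * R.A (R.simple k) (R.simple l)) fun l hl => by
      rw [R.A_simple_simple, h k (by simp) l (by simp [hl]) (by rintro rfl; exact hk hl), mul_zero]]
  ring

theorem spread (ha : S.π ∈ R.Aut) (ho : Orb S) {j l : B} (h : R.car j l ≠ 0) :
    ¬ 4 ∣ fo S j (aj S l) := by
  classical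
  by_cases e : l ∈ S.orb j
  · rw [show fo S j = fo S l by funext r; rw [fo, fo, S.orb_eq_of_mem e], fo_aj ha ho]; decide
  have n : ∀ k ∈ S.orb j, ∀ m, R.car k m * R.vec (aj S l) m ≤ 0 := fun k hk m => by
    by_cases c : R.vec (aj S l) m = 0
    · simp [c]
    refine mul_nonpos_of_nonpos_of_nonneg (R.car_nonpos ?_) (aj_pos l m)
    rintro rfl
    exact e (S.orb_eq_of_mem hk ▸ S.orb_eq_of_mem ((aj_sub l).mem c) ▸ S.mem_orb_self l)
  have n1 : ∀ k ∈ S.orb j, R.A (R.simple k) (aj S l) ≤ 0 := fun k hk => by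
    rw [R.A_simple, R.sp_apply]; exact Finset.sum_nonpos fun m _ => n k hk m
  have n2 : fo S j (aj S l) < 0 := Finset.sum_neg' (fun k hk => n1 k (by simpa using hk)) ⟨j, by
    simpa using S.mem_orb_self j, by
      rw [R.A_simple, R.sp_apply]
      exact Finset.sum_neg' (fun m _ => n j (S.mem_orb_self j) m) ⟨l, by simp, by
        simpa [aj_coord] using (R.car_nonpos (by rintro rfl; exact e (S.mem_orb_self _))).lt_of_ne h⟩⟩
  suffices -3 ≤ fo S j (aj S l) by omega
  rcases orb_cases ha ho j with ⟨-, -, -, k⟩ | ⟨-, k⟩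
  · exact k _ ▸ R.neg_three_le_A _ _
  obtain ⟨u, u1, u2, u3⟩ := O3.exists_refl {k | k ∈ S.orb j} (by simpa using k) (aj S l)
  have u4 : u ≠ R.neg (aj S l) := fun c => by
    simpa [c, R.vec_neg, aj_coord] using u2 l (by simpa using e)
  have u5 : -1 ≤ R.A (aj S l) u := by
    by_cases c : u = aj S l
    · simp [c]
    · exact (RootSys.abs_A_le_of_len u1.symm c u4).1
  rw [u3, R.A_self] at u5
  have : - fo S j (aj S l) ≤ ∑ k with k ∈ S.orb j, R.A (R.simple k) (aj S l) *
      R.A (aj S l) (R.simple k) := by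
    rw [fo, ← Finset.sum_neg_distrib]
    refine (le_of_eq (by congr)).trans (Finset.sum_le_sum fun k hk => ?_)
    rcases (n1 k (by simpa using hk)).eq_or_lt with c | c
    · simp [c]
    · have := (R.A_neg_iff _ _).1 c; nlinarith
  omega

end CF.Kf
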