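import Cfsg.Agent.Kf.OA

/-! Separation of roots by the two-part of the torus. -/

set_option autoImplicit false

namespace CF.Kf

open Subgroup CF.Chev CF.BN CF.KB CF.KI CF.TC

variable {B ι : Type} [Fintype B] [DecidableEq B] [Fintype ι] [DecidableEq ι]
  {C : ChevBasis B ι} {K : Type*} [Field K] [IsAlgClosed K] {G : Type*} [Group G]
  {ρ : StRep C K G} {h : ρ.IsAdj} {p : ℕ} [Fact p.Prime] [CharP K p] {F : MulAut G}
  {S : Sym C.toRootSys} {f : ℕ}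

theorem TZ.mem_Wf (D : TZ h p F S f) {n : G} {w : Equiv.Perm ι} (hn : ρ.NW n w) (e : F n = n) :
    w ∈ S.Wf := by
  obtain ⟨π, d, k⟩ := D.fd
  obtain ⟨-, c, -, h1⟩ := d.mon
  obtain ⟨-, c', -, h2⟩ := hn.acts
  have h3 : ∀ r, w (π r) = π (w r) := fun r => by
    have := congrArg F (h2 r 1)
    rw [map_mul, map_mul, map_inv, e] at this
    exact Tw.eq_of_x_eq h.faithful (by simp) ((h2 _ _).symm.trans
      ((congrArg (n * · * n⁻¹) (h1 r 1)).symm.trans (this.trans (h1 _ _))))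
  refine Sym.mem_Wf.2 ⟨hn.mem_W, mul_inv_eq_iff_eq_mul.2 (Equiv.ext fun r => ?_)⟩
  rcases k with ⟨-, k⟩ | ⟨-, k⟩
  · simpa [k] using (h3 r).symm
  · simpa [k, RootSys.neg_aut hn.mem_Aut] using (h3 r).symm

omit [Fact p.Prime] in
theorem O5a.exists_zeta (hp : p ≠ 2) : ∃ ζ : Kˣ, orderOf ζ = 8 := by
  obtain ⟨i, -, h1⟩ := exists_i (K := K) hp
  obtain ⟨z, hz⟩ := IsAlgClosed.exists_pow_nat_eq (i : K) two_pos
  have h0 : z ≠ 0 := by rintro rfl; simpa using hz.symm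
  have h2 : Units.mk0 z h0 ^ 2 = i := Units.ext hz
  refine ⟨Units.mk0 z h0, orderOf_eq_prime_pow (p := 2) (n := 2) (fun e => ?_) ?_⟩
  · rw [show 2 ^ 2 = 2 * 2 from rfl, pow_mul, h2, ← orderOf_dvd_iff_pow_eq_one, h1] at e
    exact absurd e (by decide)
  · rw [show 2 ^ (2 + 1) = 2 * 4 from rfl, pow_mul, h2, ← h1, pow_orderOf_eq_one]

theorem sepU_of (D : TZ h p F S f) (hp : p ≠ 2) (hS : Sep S (sq (p ^ f))) {i : Kˣ} (hi : i ^ 2 = -1)
    {U : Subgroup G} (hx : ∀ j, ∃ x ∈ U, x ∈ ρ.H ∧ ∀ r, rt ρ x r = i ^ fo S j r)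
    (hc : ∀ z ∈ ρ.H, F z = z → z ^ 8 = 1 → ∀ w ∈ S.Wf, ∃ n, ρ.NW n w ∧ n * z * n⁻¹ * z⁻¹ ∈ U) :
    SepU ρ U := fun r s hr hs => by
  by_contra! k
  have o : orderOf i = 4 := orderOf_eq_prime_pow (p := 2) (n := 1) (fun e => by
    have := ord_neg (Ring.two_ne_zero (ringChar.eq K p ▸ hp) : (2 : K) ≠ 0)
    rw [pow_one, hi] at e; simp [e] at this) (by
      rw [show 2 ^ (1 + 1) = 2 * 2 from rfl, pow_mul, hi]; simp)
  refine hS r s hr hs (fun j => ?_) fun d hd w hw => ?_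
  · obtain ⟨x, a, b, c⟩ := hx j
    have := k x a b
    rwa [c, c, ← zpow_add, ← orderOf_dvd_iff_zpow_eq_one, o] at this
  obtain ⟨ζ, hζ⟩ := O5a.exists_zeta (K := K) hp
  have m : ∀ a b : ℤ, ζ ^ a = ζ ^ b ↔ (a : ZMod 8) = b := fun a b => by
    rw [zpow_eq_zpow_iff_modEq, hζ]; exact (ZMod.intCast_eq_intCast_iff a b 8).symm
  have v : ∀ r, ∃ a : ℤ, (a : ZMod 8) = e8 C.toRootSys d r ∧
      rt ρ (tA h fun j => ζ ^ (d j).val) r = ζ ^ a := fun r =>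
    ⟨∑ j, (d j).val * C.vec r j, by simp [e8, mul_comm], by
      simp only [rt_tA, ← zpow_natCast, ← zpow_mul]
      exact (map_sum (zpowersHom _ ζ).toAdditiveRight _ _).symm⟩
  have z := tA_mem h fun j => ζ ^ (d j).val
  generalize tA h (fun j => ζ ^ (d j).val) = z' at v z
  choose a v1 v2 using v
  have u : ∀ j, e8 C.toRootSys d (C.simple j) = d j := fun j => by
    simp [e8, C.vec_simple, Pi.single_apply]
  obtain ⟨n, c1, c2⟩ := hc z' z (rt_ext h (D.mem_H z) z fun j => by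
    obtain ⟨j, rfl⟩ := S.p.surjective j
    rw [← S.π_simple, D.rt z, v2, v2, ← zpow_mul, m]
    simp [v1, S.π_simple, u, hd, mul_comm]) (rt_ext h (pow_mem z 8) (one_mem _) fun j => by
      rw [rt_pow h.faithful z, rt_one h.faithful, v2, ← zpow_natCast, ← zpow_mul, mul_comm, zpow_mul,
        zpow_natCast, ← hζ, pow_orderOf_eq_one, one_zpow]) _ (inv_mem hw)
  have y := c1.acts.conj_mem_H z
  have q : ∀ r, rt ρ (n * z' * n⁻¹ * z'⁻¹) r = ζ ^ (a (w r) - a r) := fun r => by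
    rw [rt_mul h.faithful y (inv_mem z), rt_inv h.faithful z, zpow_sub, ← v2, ← v2,
      ← rt_conj h.faithful c1.acts z (w r)]
    simp
  have := k _ c2 (mul_mem y (inv_mem z))
  rw [q, q, ← zpow_add, ← zpow_zero ζ, m] at this
  simp only [← v1]
  push_cast at this
  linear_combination this

omit [IsAlgClosed K] in
theorem O5a.exists_neg {w : Equiv.Perm ι} (hw : w ∈ C.W) (h1 : w ≠ 1) :
    ∃ j, ¬ C.Pos (w (C.simple j)) := by
  by_contra! k
  exact h1 (C.eq_one_of_simple_pos hw k)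

omit [IsAlgClosed K] in
theorem SepU.exists (h : ρ.IsAdj) {U : Subgroup G} (hU : SepU ρ U) {r s : ι} (hr : C.Pos r)
    (hs : ¬ C.Pos s) : ∃ z ∈ U, z ∈ ρ.H ∧ rt ρ z r ≠ rt ρ z s :=
  let ⟨z, a, b, c⟩ := hU r _ hr ((C.pos_neg_iff s).2 hs)
  ⟨z, a, b, fun e => c (by rw [rt_neg, e, mul_inv_cancel])⟩

theorem cent_H (h : ρ.IsAdj) {U : Subgroup G} (hU : SepU ρ U) {n : G} (hn : n ∈ ρ.N)
    (hc : n ∈ centralizer (U : Set G)) : n ∈ ρ.H := by
  obtain ⟨w, hw⟩ := StRep.exists_nW_of_mem_N hn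
  by_cases e : w = 1
  · exact (e ▸ hw).mem_H
  obtain ⟨j, hj⟩ := O5a.exists_neg hw.mem_W e
  obtain ⟨z, a, b, c⟩ := hU.exists h (C.pos_simple j) hj
  exact (c (by rw [← rt_conj h.faithful hw.acts b, ← hc z a, mul_inv_cancel_right])).elim

end CF.Kf
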