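import Cfsg.Agent.Kf.O3
import Cfsg.Agent.Kf.O5a

/-! The fundamental quaternion groups. -/

set_option autoImplicit false

namespace CF.Kf

open Subgroup CF.Chev CF.BN CF.KB CF.KI CF.TC
open scoped commutatorElement MatrixGroups

variable {B ι : Type} [Fintype B] [DecidableEq B] [Fintype ι] [DecidableEq ι]
  {C : ChevBasis B ι} {K : Type*} [Field K] {G : Type*} [Group G] {ρ : StRep C K G}

namespace O3b

theorem so_comm {a b : ι} (h0 : C.A a b = 0) (h1 : ∀ v, C.vec v ≠ C.vec a - C.vec b) :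
    Lr ρ a ≤ centralizer (Lr ρ b) := by
  have h2 : ∀ v, C.vec v ≠ C.vec a + C.vec b := fun v hv => h1 (C.neg (C.refl a v)) (by
    rw [C.vec_neg, C.vec_refl, C.A_add hv, h0, C.A_self, hv]; module)
  refine ρ.U_le_iff.2 fun r hr t z hz => mem_centralizer_singleton_iff.1 (ρ.U_le_iff.2 ?_ hz)
  refine fun s hs u => mem_centralizer_singleton_iff.2 (ρ.commute_of_none ?_ (fun v hv => ?_) t u).symm
  · have h3 : C.A r s = 0 := by
      rcases hr with rfl | rfl <;> rcases hs with rfl | rfl <;> simp [h0]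
    exact fun e => by simp [e] at h3
  rcases hr with rfl | rfl <;> rcases hs with rfl | rfl
  · exact h2 v (hv.trans (add_comm ..))
  · exact h1 v (by rw [hv, C.vec_neg]; module)
  · exact h1 (C.neg v) (by rw [C.vec_neg, hv, C.vec_neg]; module)
  · exact h2 (C.neg v) (by rw [C.vec_neg, hv, C.vec_neg, C.vec_neg]; module)

theorem nc_ind {O : Finset ι} {f : ι → G} (c : (O : Set ι).Pairwise (Function.onFun Commute f))
    {P : Finset ι → G → Prop} (h0 : P ∅ 1) (hs : ∀ a ∈ O, ∀ T g, a ∉ T → P T g →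
      P (insert a T) (f a * g)) : P O (O.noncommProd f c) := by
  suffices ∀ T (h : T ⊆ O), P T (T.noncommProd f (c.mono h)) from this O subset_rfl
  intro T h
  induction' T using Finset.induction_on with a T ha ih
  · exact h0
  · rw [Finset.noncommProd_insert_of_notMem _ _ _ _ ha]
    exact hs a (h (by simp)) _ _ ha (ih ((Finset.subset_insert ..).trans h))

theorem exists_tau [IsAlgClosed K] (γ : Equiv.Perm ι) (c : ι → Kˣ) {e : ℤ} (he : 2 ≤ |e|) :
    ∃ σ : ι → Kˣ, ∀ b, σ (γ b) ^ 2 = c b * (σ b ^ 2) ^ e := by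
  obtain ⟨N, hN⟩ : ∃ N, orderOf γ = N + 1 := ⟨_, (Nat.sub_add_cancel (orderOf_pos γ)).symm⟩
  have h0 : 2 * (1 - e ^ (N + 1)) ≠ 0 := fun k => by
    have := congrArg abs (show e ^ (N + 1) = 1 by omega)
    rw [abs_pow, abs_one] at this
    exact (one_lt_pow₀ (by omega) N.succ_ne_zero).ne' this
  have : ∀ b, ∃ s : Kˣ, s ^ (2 * (1 - e ^ (N + 1))) = c b := fun b => by
    obtain ⟨s, hs⟩ := IsAlgClosed.exists_pow_nat_eq (c b : K) (Int.natAbs_pos.2 h0)
    have h1 : s ≠ 0 := by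
      rintro rfl; rw [zero_pow (Int.natAbs_pos.2 h0).ne'] at hs; exact Units.ne_zero _ hs.symm
    have h2 : Units.mk0 s h1 ^ (_ : ℕ) = c b := Units.ext hs
    rcases Int.natAbs_eq (2 * (1 - e ^ (N + 1))) with k | k
    · exact ⟨_, by rw [k, zpow_natCast, h2]⟩
    · exact ⟨(Units.mk0 s h1)⁻¹, by rw [k, zpow_neg, inv_zpow, inv_inv, zpow_natCast, h2]⟩
  choose s hs using this
  have h1 : γ⁻¹ ^ (N + 1) = 1 := by rw [← hN, inv_pow, pow_orderOf_eq_one, inv_one]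
  have k : ∀ b, ∏ k ∈ Finset.range (N + 1), s ((γ⁻¹ ^ (k + 1)) (γ b)) ^ e ^ k = s b ^ (1 - e ^ (N + 1)) *
      (∏ k ∈ Finset.range (N + 1), s ((γ⁻¹ ^ (k + 1)) b) ^ e ^ k) ^ e := fun b => by
    rw [← Finset.prod_zpow, Finset.prod_range_succ', Finset.prod_range_succ, h1]
    have h2 : ∀ m, (γ⁻¹ ^ (m + 1)) (γ b) = (γ⁻¹ ^ m) b := fun m => by simp [pow_succ]
    simp only [h2, ← zpow_mul, ← pow_succ, pow_zero, zpow_one, Equiv.Perm.one_apply]
    rw [mul_left_comm, ← zpow_add, sub_add_cancel, zpow_one]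
  refine ⟨fun b => ∏ k ∈ Finset.range (N + 1), s ((γ⁻¹ ^ (k + 1)) b) ^ e ^ k,
    fun b => (congrArg (· ^ 2) (k b)).trans ?_⟩
  rw [← hs, mul_pow, ← zpow_natCast, ← zpow_natCast, ← zpow_natCast, ← zpow_mul, ← zpow_mul,
    ← zpow_mul, mul_comm e, mul_comm _ ((2 : ℕ) : ℤ)]
  rfl

theorem exists_u {i : Kˣ} (hi : i ^ 2 = -1) (h2 : (2 : K) ≠ 0) {x y : SL(2, K)}
    (hx : x = (sl2Rep K).h true i) (hy : y = (sl2Rep K).n true 1) : ∃ u : SL(2, K),
    y ^ 4 = 1 ∧ y * x * y⁻¹ = x⁻¹ ∧ u * x * u⁻¹ = y ∧ u * y * u⁻¹ = x * y ∧ ∀ φ : K →+* K,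
    (φ i = i → Matrix.SpecialLinearGroup.map φ x = x ∧ Matrix.SpecialLinearGroup.map φ u = u) ∧
    (φ i = -i → y * Matrix.SpecialLinearGroup.map φ x * y⁻¹ = x ∧
      y * Matrix.SpecialLinearGroup.map φ u * y⁻¹ = u) := by
  replace hi : (i : K) ^ 2 = -1 := by simpa using congrArg Units.val hi
  have h3 : ((i⁻¹ : Kˣ) : K) = -i := by
    rw [Units.val_inv_eq_inv_val]; exact inv_eq_of_mul_eq_one_right (by linear_combination -hi)
  replace hx : x.1 = !![(i : K), 0; 0, -i] := by rw [hx, val_sl2_h_true, h3]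
  replace hy : y.1 = !![0, 1; -1, 0] := hy ▸ (val_sl2_n_true (1 : Kˣ)).trans (by simp)
  obtain ⟨u, hu⟩ : ∃ u : SL(2, K), u.1 =
      !![(1 + (i : K)) / 2, (1 + (i : K)) / 2; (-1 + (i : K)) / 2, (1 - (i : K)) / 2] :=
    ⟨⟨_, by rw [Matrix.det_fin_two_of]; field_simp; linear_combination (-2) * hi⟩, rfl⟩
  refine ⟨u, Subtype.ext ?_, mul_inv_eq_iff_eq_mul.2 (eq_inv_mul_iff_mul_eq.2 (Subtype.ext ?_)),
    mul_inv_eq_iff_eq_mul.2 (Subtype.ext ?_), mul_inv_eq_iff_eq_mul.2 (Subtype.ext ?_), fun φ =>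
    ⟨fun e => ⟨Subtype.ext ?_, Subtype.ext ?_⟩, fun e => ⟨mul_inv_eq_iff_eq_mul.2 (Subtype.ext ?_),
      mul_inv_eq_iff_eq_mul.2 (Subtype.ext ?_)⟩⟩⟩ <;>
  · ext r s
    fin_cases r <;> fin_cases s <;> simp [Matrix.mul_apply, Fin.sum_univ_two, pow_succ, map_ofNat, *] <;>
      (try field_simp) <;> first | linear_combination hi | linear_combination -hi | ring

theorem exists_orb {S : Sym C.toRootSys} (ha : S.π ∈ C.Aut) (ho : Orb S) (j : B) : ∃ O : Finset ι,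
    aj S j ∈ O ∧ O.map S.π.toEmbedding = O ∧ (∀ r, ∑ b ∈ O, C.A b r = fo S j r) ∧
    (∀ b ∈ O, C.InSub (S.orb j) b) ∧ (∀ a ∈ O, ∀ b ∈ O, a ≠ b → C.A a b = 0 ∧
      ∀ v, C.vec v ≠ C.vec a - C.vec b) ∧
    ∀ P : ι → Prop, P (aj S j) → (∀ r, P r → P (S.π r)) → ∀ b ∈ O, P b := by
  classical
  rcases orb_cases ha ho j with ⟨h1, -, -, h2⟩ | ⟨h1, h2⟩
  · exact ⟨{aj S j}, by simp, by simp [h1], by simp [h2], by simpa using aj_sub j, by simp, by
      simp +contextual⟩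
  have inj : Function.Injective C.simple := C.simple_injective
  refine ⟨(Finset.univ.filter (· ∈ S.orb j)).image C.simple, by simp [h1, inj.eq_iff, S.mem_orb_self],
    Finset.eq_of_subset_of_card_le (fun b hb => ?_) (by simp), fun r => ?_, ?_, ?_, fun P h3 h4 => ?_⟩
  · simp only [Finset.mem_map, Finset.mem_image, Finset.mem_filter] at hb ⊢
    obtain ⟨_, ⟨l, hl, rfl⟩, rfl⟩ := hb
    exact ⟨S.p l, ⟨by simp, (S.stab_orb j l).2 hl.2⟩, (S.π_simple l).symm⟩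
  · rw [Finset.sum_image fun _ _ _ _ e => inj e, fo]
  · simp [C.inSub_simple]
  · simp only [Finset.mem_image, Finset.mem_filter]
    rintro _ ⟨k, hk, rfl⟩ _ ⟨l, hl, rfl⟩ e
    replace e : k ≠ l := fun h => e (h ▸ rfl)
    refine ⟨(C.A_simple_simple k l).trans (h2 k hk.2 l hl.2 e), fun v hv => ?_⟩
    rcases C.pos_or_neg v with h | h
    · simpa [hv, C.vec_simple, e, e.symm] using h l
    · simpa [hv, C.vec_neg, C.vec_simple, e, e.symm] using h k
  · simp only [Finset.mem_image, Finset.mem_filter]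
    rintro _ ⟨l, hl, rfl⟩
    obtain ⟨k, -, rfl⟩ := Equiv.Perm.SameCycle.exists_pow_eq' hl.2
    clear hl
    induction' k with k ih
    · exact h1 ▸ h3
    · rw [pow_succ', Equiv.Perm.mul_apply, ← S.π_simple]; exact h4 _ ih

variable [IsAlgClosed K] {h : ρ.IsAdj} {p : ℕ} [Fact p.Prime] [CharP K p] {F : MulAut G}
  {S : Sym C.toRootSys} {f : ℕ}

theorem exists_phi (D : TZ h p F S f) (hp : p ≠ 2) {i : Kˣ} (hi : i ^ 2 = -1) :
    ∃ (φ : ι → SL(2, K) →* G) (θ : SL(2, K) →* SL(2, K)) (x y u : SL(2, K)),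
    y ^ 4 = 1 ∧ y * x * y⁻¹ = x⁻¹ ∧ u * x * u⁻¹ = y ∧ u * y * u⁻¹ = x * y ∧ θ x = x ∧ θ u = u ∧
    (∀ b z, φ b z ∈ Lr ρ b) ∧ (∀ b, φ b x = ρ.h b i) ∧ (∀ b, ρ.NW (φ b y) (C.refl b)) ∧
    ∀ b z, F (φ b z) = φ (S.π b) (θ z) := by
  obtain ⟨u, h1, h2, h3, h4, h5⟩ := exists_u hi (Ring.two_ne_zero (ringChar.eq K p ▸ hp)) rfl rfl
  choose φ k1 k2 k3 k4 k5 using h.r3.exists_hom_sl2
  have hm : ∀ (j : K →+* K) r t, Matrix.SpecialLinearGroup.map j (sl2x _ r t) = sl2x _ r (j t) :=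
    fun j r t => Subtype.ext (by
      cases r <;> ext u v <;> fin_cases u <;> fin_cases v <;> simp [val_sl2x_true, val_sl2x_false])
  suffices ∃ (σ : ι → Kˣ) (θ : SL(2, K) →* SL(2, K)), θ ((sl2Rep K).h true i) = (sl2Rep K).h true i ∧
      θ u = u ∧ ∀ b r t, F (ρ.h b (σ b) * φ b (sl2x K r t) * (ρ.h b (σ b))⁻¹) =
        ρ.h (S.π b) (σ (S.π b)) * φ (S.π b) (θ (sl2x K r t)) * (ρ.h (S.π b) (σ (S.π b)))⁻¹ by
    obtain ⟨σ, θ, h6, h7, h8⟩ := this
    refine ⟨fun b => (MulAut.conj (ρ.h b (σ b))).toMonoidHom.comp (φ b), θ, _, _, u, h1, h2, h3, h4, h6, h7,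
      fun b z => ?_, fun b => ?_, fun b => ?_, fun b => DFunLike.congr_fun
        (StRep.hom_ext (sl2Rep_Gp K) (f := F.toMonoidHom.comp (.comp (MulAut.conj (ρ.h b (σ b))).toMonoidHom
          (φ b))) (g := .comp (.comp (MulAut.conj (ρ.h _ (σ _))).toMonoidHom (φ (S.π b))) θ) (h8 b))⟩
    · have hs := ρ.h_mem_U (S := {b, C.neg b}) (r := b) (by simp) (by simp) (σ b)
      refine mul_mem (mul_mem hs ?_) (inv_mem hs)
      rw [Lr, ← Set.singleton_union, ρ.U_union, ρ.U_singleton, ρ.U_singleton, ← k1]; exact ⟨z, rfl⟩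
    · exact mul_inv_eq_iff_eq_mul.2 (by rw [k5, h.r3, h.r3, mul_comm])
    · change ρ.NW (_ * _ * _) _
      rw [k4, ρ.h_conj_n]; exact StRep.nW_n ..
  have hq : 1 < p ^ f := Nat.one_lt_pow D.fd.choose_spec.1.pos.ne' (Fact.out : p.Prime).one_lt
  have h6 : (i : K) ^ 2 = -1 := by simpa using congrArg Units.val hi
  have h7 : (i : K) ^ p ^ f = i ^ (p ^ f % 4) := pow_eq_pow_mod _ (by linear_combination (i ^ 2 - 1) * h6)
  obtain ⟨π, ⟨-, -, hπ, c, h8, h9⟩, ⟨e, h10⟩ | ⟨e, h10⟩⟩ := D.fd <;>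
    replace h9 : ∀ r t, F (ρ.x r t) = ρ.x (π r) (c r * t ^ p ^ f) := h9
  · obtain ⟨σ, hσ⟩ := exists_tau S.π c (e := (p ^ f : ℕ)) (by rw [Nat.abs_cast]; exact_mod_cast hq)
    obtain ⟨h11, h12⟩ := (h5 (iterateFrobenius K p f)).1 (by rw [iterateFrobenius_def, h7, e, pow_one])
    refine ⟨σ, _, h11, h12, fun b r t => ?_⟩
    have k := congrArg Units.val (hσ b)
    rw [zpow_natCast] at k
    cases r <;> simp only [hm, k2, k3, ρ.h_conj_x, h9, h10, S.π_neg, h8, mul_pow, iterateFrobenius_def] <;>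
      congr 1 <;> rw [← mul_assoc] <;> congr 1
    · simpa [zpow_ofNat, mul_comm] using congrArg (·⁻¹) k.symm
    · simpa [zpow_ofNat] using k.symm
  · obtain ⟨σ, hσ⟩ := exists_tau S.π (fun b => -(c b)⁻¹) (e := -(p ^ f : ℕ)) (by
      rw [abs_neg, Nat.abs_cast]; exact_mod_cast hq)
    obtain ⟨h11, h12⟩ := (h5 (iterateFrobenius K p f)).2 (by
      rw [iterateFrobenius_def, h7, e]; linear_combination i * h6)
    refine ⟨σ, (MulAut.conj ((sl2Rep K).n true 1)).toMonoidHom.comp (Matrix.SpecialLinearGroup.map _),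
      h11, h12, fun b r t => ?_⟩
    have k := congrArg Units.val (hσ b)
    have h13 : ∀ r t, (sl2Rep K).n true 1 * sl2x K r t * ((sl2Rep K).n true 1)⁻¹ = sl2x K (!r) (-t) :=
      fun r t => mul_inv_eq_iff_eq_mul.2 (Subtype.ext (by
        have := val_sl2_n_true (1 : Kˣ)
        change ((sl2Rep K).n true 1).1 = _ at this
        cases r <;> simp [this, val_sl2x_true, val_sl2x_false]))
    rw [zpow_neg, zpow_natCast] at k
    cases r <;> simp only [MonoidHom.comp_apply, MulEquiv.coe_toMonoidHom, MulAut.conj_apply, h13, hm, k2,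
      k3, ρ.h_conj_x, h9, h10, S.π_neg, h8, mul_pow, iterateFrobenius_def, Bool.not_true, Bool.not_false,
      C.neg_neg] <;> congr 1 <;> rw [← mul_assoc, mul_neg, ← neg_mul] <;> congr 1
    · simpa [zpow_ofNat, mul_comm] using (congrArg (-·) k).symm
    · simpa [zpow_ofNat, mul_comm] using congrArg (-·⁻¹) k.symm

end O3b

variable [IsAlgClosed K] {h : ρ.IsAdj} {p : ℕ} [Fact p.Prime] [CharP K p] {F : MulAut G}
  {S : Sym C.toRootSys} {f : ℕ}

theorem exists_jd (D : TZ h p F S f) (hp : p ≠ 2) (ho : Orb S) {i : Kˣ} (hi : i ^ 2 = -1) (j : B) :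
    ∃ x y u, JD ρ F S i j x y u := by
  obtain ⟨φ, θ, x, y, u, h1, h2, h3, h4, h5, h6, h7, h8, h9, h10⟩ := O3b.exists_phi D hp hi
  obtain ⟨O, k1, k2, k3, k4, k5, k6⟩ := O3b.exists_orb D.aut ho j
  have c : ∀ z w, (O : Set ι).Pairwise fun a b => Commute (φ a z) (φ b w) := fun z w a ha b hb e =>
    (O3b.so_comm (k5 a ha b hb e).1 (k5 a ha b hb e).2 (h7 a z) _ (h7 b w)).symm
  let N : SL(2, K) →* G := .mk' (fun z => O.noncommProd (φ · z) (c z z)) fun z w => by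
    rw [← Finset.noncommProd_mul_distrib _ _ (c z z) (c w w) (c w z)]
    exact Finset.noncommProd_congr rfl (fun _ _ => map_mul ..) _
  have k7 : ∀ z, θ z = z → N z ∈ Fx F := fun z hz => by
    refine (Finset.map_noncommProd _ _ (c z z) F).trans ?_
    change _ = O.noncommProd (φ · z) (c z z)
    unfold Finset.noncommProd
    congr 1
    conv_rhs => rw [← k2]
    simp [h10, hz]
  have k8 : θ y = y := by rw [← h3, map_mul, map_mul, map_inv, h5, h6]
  have k9 : N x ∈ ⁅Fx F, Fx F⁆ := by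
    convert commutator_mem_commutator (k7 u h6) (k7 y k8)
    rw [← map_commutatorElement, commutatorElement_def, h4, mul_inv_cancel_right]
  have k10 : N x ∈ ρ.H ∧ ∀ r, rt ρ (N x) r = i ^ ∑ b ∈ O, C.A b r :=
    O3b.nc_ind (c x x) (P := fun T g => g ∈ ρ.H ∧ ∀ r, rt ρ g r = i ^ ∑ b ∈ T, C.A b r)
      ⟨one_mem _, by simp [rt_one h.faithful]⟩ fun a _ T g ha k => by
        rw [h8]
        exact ⟨mul_mem (ρ.h_mem_H a i) k.1, fun r => by
          rw [rt_mul h.faithful (ρ.h_mem_H a i) k.1, rt_h h.faithful, k.2, Finset.sum_insert ha, zpow_add]⟩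
  obtain ⟨w, k11, k12, k13⟩ := O3b.nc_ind (c y y) (P := fun T g => ∃ w ∈ C.WJ (S.orb j), ρ.NW g w ∧
      w (aj S j) = if aj S j ∈ T then C.neg (aj S j) else aj S j) ⟨1, one_mem _, StRep.nW_one, rfl⟩
    fun a ha T g h11 ⟨w, k, k', e⟩ => ⟨_, mul_mem (C.refl_mem_WJ (k4 a ha)) k, (h9 a).mul k', by
      rw [Equiv.Perm.mul_apply, e]
      rcases eq_or_ne a (aj S j) with rfl | e'
      · simp [h11]
      · simp only [Finset.mem_insert, e'.symm, false_or]
        exact C.refl_of_A_eq_zero (by split_ifs <;> simp [(k5 a ha _ k1 e').1])⟩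
  have k14 : ∀ z ∈ ρ.H, F z = z → rt ρ z (aj S j) = 1 → ∀ v, Commute z (N v) := fun z hz e e' v =>
    Finset.noncommProd_commute _ _ (c v v) _ fun b hb => (mem_centralizer_singleton_iff.1 (commute_of_rt hz
      (k6 (rt ρ z · = 1) e' (fun r hr => by rw [← e, D.rt hz, hr, one_zpow]) b hb) (h7 b v))).symm
  refine ⟨N x, N y, N u, k10.1, fun r => k3 r ▸ k10.2 r, k9, ?_, k7 u h6, ?_, ?_, ?_, ?_, ?_,
    fun z hz e e' => ⟨k14 z hz e e' _, k14 z hz e e' _⟩⟩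
  · rw [← h3, map_mul, map_mul, map_inv]
    convert mul_mem (commutator_mem_commutator (k7 u h6) (k7 x h5)) k9 using 1
    rw [commutatorElement_def, inv_mul_cancel_right]
  · refine (S.eq_one_or_eq_s (D.mem_Wf k12 (k7 y k8)) k11).resolve_left (fun e => ?_) ▸ k12
    rw [e, if_pos k1] at k13
    exact C.neg_ne_self _ k13.symm
  · rw [← map_pow, h1, map_one]
  · rw [← map_inv, ← map_mul, ← map_mul, h2, map_inv]
  · rw [← map_inv, ← map_mul, ← map_mul, h3]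
  · rw [← map_inv, ← map_mul, ← map_mul, h4, map_mul]

end CF.Kf
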