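import Cfsg.Agent.Kf.O3
import Cfsg.Agent.BN.TwComb

/-! Sums of two positive roots are seen by the 2-part of the torus. -/

set_option autoImplicit false
set_option linter.unusedVariables false

namespace CF.Kf

open CF.Chev CF.BN

variable {B ι : Type} [Fintype B] [DecidableEq B] [Fintype ι] [DecidableEq ι]
  {R : RootSys B ι} {S : Sym R} {r s : ι}

namespace O4

theorem eq_of (hr : R.Pos r) (hs : R.Pos s) (h1 : 4 ∣ 2 + R.A r s) (h2 : 4 ∣ 2 + R.A s r) : s = r := by
  have := R.A_le_three r s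
  have := R.neg_three_le_A r s
  have := R.A_le_three s r
  have := R.neg_three_le_A s r
  have := R.A_pos_iff r s
  by_cases c : 0 < R.A r s
  · exact RootSys.eq_of_A_two (R := R) (by omega) (by omega)
  · exact (hr.ne_neg hs (RootSys.eq_of_A_two (R := R) (by rw [R.A_neg_left]; omega)
      (by rw [R.A_neg_right]; omega))).elim

theorem triv (h : S.p = 1) (hr : R.Pos r) (hs : R.Pos s) (h1 : ∀ j, 4 ∣ fo S j r + fo S j s) :
    s = r ∧ ∀ a, 4 ∣ R.A a r + R.A a s := by
  have e : ∀ j r, fo S j r = R.sp j (R.vec r) := fun j r => by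
    rw [fo, Finset.sum_eq_single_of_mem j (by simpa using S.mem_orb_self j) fun b c d =>
      (d (by simpa [Sym.orb, h, eq_comm] using c)).elim, R.A_simple]
  have k : ∀ a, 4 ∣ R.A a r + R.A a s := fun a => by
    rw [R.A_def, R.A_def, R.cor_apply, R.cor_apply, ← Finset.sum_add_distrib]
    exact Finset.dvd_sum fun j _ => by rw [← mul_add, ← e, ← e]; exact (h1 j).mul_left _
  exact ⟨eq_of hr hs (by simpa using k r) (by simpa [add_comm] using k s), k⟩

theorem e8_refl (d : B → ZMod 8) (a r : ι) : e8 R d (R.refl a r) = e8 R d r - R.A a r * e8 R d a := by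
  simp [e8, R.vec_refl, sub_mul, Finset.mul_sum, mul_assoc]

theorem e8_single (j : B) (c : ZMod 8) (r : ι) : e8 R (Pi.single j c) r = R.vec r j * c := by
  simp [e8, Pi.single_apply]

theorem vec_π (ha : S.π ∈ R.Aut) (r : ι) (i : B) : R.vec (S.π r) (S.p i) = R.vec r i := by
  simp [RootSys.vec_aut ha, R.lin_apply, S.π_simple, R.vec_simple, Pi.single_apply]

theorem e8_π (ha : S.π ∈ R.Aut) {d : B → ZMod 8} {e : ZMod 8} (h : ∀ j, d (S.p j) = e * d j) (r : ι) :
    e8 R d (S.π r) = e * e8 R d r := by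
  rw [e8, ← Equiv.sum_comp S.p, e8, Finset.mul_sum]
  exact Finset.sum_congr rfl fun i _ => by rw [vec_π ha, h, mul_left_comm]

theorem cov_eq (hl : R.SameLen) (r : ι) (i : B) : R.cov r i = R.vec r i :=
  mul_right_cancel₀ (R.len_ne_zero r) (by rw [R.cov_len, hl r (R.simple i)])

theorem even (hl : R.SameLen) (β : B → ℤ) : 2 ∣ ∑ i, β i * R.sp i β := by
  refine (ZMod.intCast_zmod_eq_zero_iff_dvd _ 2).1 ?_
  simp only [R.sp_apply, Finset.mul_sum]
  rw [← Finset.sum_product', Int.cast_sum]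
  refine Finset.sum_involution (fun x _ => x.swap) (fun x _ => ?_) (fun x _ h e => h ?_) (by simp) (by simp)
  · have := RootSys.A_symm_of_len (hl (R.simple x.1) (R.simple x.2))
    rw [R.A_simple_simple, R.A_simple_simple] at this
    rw [Prod.fst_swap, Prod.snd_swap, ← this, show β x.2 * (R.car x.1 x.2 * β x.1) =
      β x.1 * (R.car x.1 x.2 * β x.2) by ring, CharTwo.add_self_eq_zero]
  · rw [show x.1 = x.2 from congrArg Prod.snd e, R.car_self]
    exact (ZMod.intCast_zmod_eq_zero_iff_dvd _ 2).2 ⟨β x.2 * β x.2, by push_cast; ring⟩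

theorem exists_one (hl : R.SameLen) (hC : R.Conn) (h3 : 3 ≤ Fintype.card B) (r : ι) : ∃ a, R.A a r = 1 := by
  obtain ⟨w, hw, j, rfl⟩ := R.exists_W_simple r
  obtain ⟨k, hk⟩ := Fintype.exists_ne_of_one_lt_card (by omega) j
  obtain ⟨_, rfl, l, h1, h2⟩ := hC {j} ⟨j, rfl⟩ ⟨k, hk⟩
  refine ⟨R.neg (w (R.simple l)), ?_⟩
  have := RootSys.abs_A_le_of_len (hl _ _) (R.simple_injective.ne h1) (R.simple_ne_neg _ _)
  have := R.car_nonpos (Ne.symm h1)
  rw [R.A_neg_left, RootSys.A_aut (R.W_le_Aut hw), RootSys.A_symm_of_len (hl _ _)]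
  rw [R.A_simple_simple] at *
  omega

end O4

open O4

theorem sep_triv (h : S.p = 1) (h1 : ∀ r, ∃ a, Odd (R.A a r)) (e : ZMod 8) : Sep S e := fun r s hr hs c _ => by
  obtain ⟨rfl, k⟩ := triv h hr hs c
  obtain ⟨a, b, e⟩ := h1 s
  have := k a
  omega

theorem sep_one (h : S.p = 1) : Sep S 1 := fun r s hr hs c c' => by
  obtain ⟨rfl, -⟩ := triv h hr hs c
  obtain ⟨φ, hφ⟩ := R.exists_dual s
  have w : R.refl s ∈ S.Wf := by
    obtain ⟨l, e, -⟩ := R.exists_reduced (R.refl_mem_W s)
    exact Sym.mem_Wf.2 ⟨R.refl_mem_W s, by rw [e, S.conj_wp, h]; simp⟩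
  have e : ∀ i, 2 ∣ R.vec s i := fun i => by
    have := c' (Pi.single i 1) (fun j => by rw [h, one_mul]; rfl) _ w
    rw [e8_refl, e8_single, R.A_self] at this
    have := (ZMod.intCast_zmod_eq_zero_iff_dvd (4 * R.vec s i) 8).1 (by push_cast at this ⊢; linear_combination -this)
    omega
  choose β hβ using e
  rw [show R.vec s = (2 : ℤ) • β from funext hβ, map_smul, smul_eq_mul] at hφ
  omega

theorem sep_two (hl : R.SameLen) (ha : S.π ∈ R.Aut) (h2 : ∀ j, S.p (S.p j) = j) (hC : R.Conn)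
    (h3 : 3 ≤ Fintype.card B) {e : ZMod 8} (he : e = 1 ∨ e = 5) : Sep S e := fun r s hr hs c c' => by
  have v1 : ∀ r i, R.vec (S.π r) i = R.vec r (S.p i) := fun r i => by rw [← vec_π ha r, h2]
  have gg : ∀ r, S.π (S.π r) = r := fun r => R.vec_inj (funext fun i => by rw [v1, v1, h2])
  have sy : ∀ a b, R.A a b = R.A b a := fun a b => RootSys.A_symm_of_len (hl a b)
  have iv : ∀ a b, R.A (S.π a) (S.π b) = R.A a b := RootSys.A_aut ha
  have i2 : ∀ a b, R.A (S.π a) b = R.A a (S.π b) := fun a b => by rw [← iv a, gg]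
  have H : ∀ x : B → ℤ, (∀ i, x (S.p i) = x i) → 4 ∣ ∑ i, x i * (R.sp i (R.vec r) + R.sp i (R.vec s)) := fun x hx => by
    refine (ZMod.intCast_zmod_eq_zero_iff_dvd _ 4).1 ?_
    rw [Int.cast_sum]
    have f : ∀ j, fo S j r + fo S j s = ∑ l ∈ {j, S.p j}, (R.sp l (R.vec r) + R.sp l (R.vec s)) := fun j => by
      rw [fo, fo, ← Finset.sum_add_distrib]
      exact Finset.sum_congr (by ext; simp [O3.orb_two h2]) fun l _ => by rw [R.A_simple, R.A_simple]
    have f1 : ∀ j, S.p j = j → ((x j * (R.sp j (R.vec r) + R.sp j (R.vec s)) : ℤ) : ZMod 4) = 0 := fun j e =>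
      (ZMod.intCast_zmod_eq_zero_iff_dvd _ 4).2 (Dvd.dvd.mul_left (by simpa [f, e] using c j) _)
    refine Finset.sum_involution (fun j _ => S.p j) (fun j _ => ?_) (fun j _ h e => h (f1 j e)) (by simp) (by simpa)
    by_cases e : S.p j = j
    · rw [e, f1 j e, add_zero]
    · rw [← Int.cast_add, hx, ← mul_add]
      exact (ZMod.intCast_zmod_eq_zero_iff_dvd _ 4).2 (Dvd.dvd.mul_left (by
        simpa [f, Finset.sum_pair (Ne.symm e)] using c j) _)
  have A0 : ∀ a v, R.cor a v = ∑ i, R.vec a i * R.sp i v := fun a v => by simp only [R.cor_apply, cov_eq hl]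
  have H1 : ∀ a, S.π a = a → 4 ∣ R.A a r + R.A a s := fun a e => by
    simpa only [R.A_def, A0, mul_add, Finset.sum_add_distrib] using H (R.vec a) fun i => by rw [← v1, e]
  have H2 : ∀ a, 4 ∣ R.A a r + R.A (S.π a) r + (R.A a s + R.A (S.π a) s) := fun a => by
    simpa only [R.A_def, A0, mul_add, add_mul, Pi.add_apply, Finset.sum_add_distrib] using
      H (R.vec a + R.vec (S.π a)) fun i => by simp only [Pi.add_apply, v1, h2, add_comm]
  have bd : ∀ a b, b = a ∨ b = R.neg a ∨ -1 ≤ R.A a b ∧ R.A a b ≤ 1 := fun a b => by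
    by_contra h
    rw [not_or, not_or] at h
    exact h.2.2 (RootSys.abs_A_le_of_len (hl a b) h.1 h.2.1)
  have np : ∀ u, S.π u ≠ R.neg u := fun u e => by
    have := S.pos_π_iff (r := u); rw [e, R.pos_neg_iff] at this; tauto
  have K1 : ∀ u, -1 ≤ R.A u (S.π u) := fun u => by
    rcases bd u (S.π u) with h | h | h
    exacts [by rw [h, R.A_self]; omega, (np u h).elim, h.1]
  have Q : ∀ a b, R.A (R.refl b a) (S.π (R.refl b a)) = R.A a (S.π a) - 2 * R.A a b * R.A a (S.π b) +
      R.A a b * R.A a b * R.A b (S.π b) := fun a b => by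
    rw [R.refl_aut ha, R.A_refl_right, sy _ (S.π a), sy _ (S.π b), R.A_refl_right, R.A_refl_right, iv, i2 a, i2 a,
      i2 b, i2 b, sy b a, sy b (S.π a), i2 a]
    ring
  have K2 : ∀ u, S.π u = u ∨ R.A u (S.π u) = 0 ∨ R.A u (S.π u) = -1 := fun u => by
    have h1 := K1 (R.refl (S.π u) u)
    have h2 := K1 u
    rw [Q, gg, sy (S.π u), R.A_self] at h1
    rcases bd u (S.π u) with h | h | h
    exacts [.inl h, (np u h).elim, .inr (by_contra fun c => by rw [show R.A u (S.π u) = 1 by omega] at h1; omega)]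
  have pr := S.pos_π_iff.2 hr
  have T : ∀ u x, R.A u (S.π u) = -1 → R.A x (R.refl u (S.π u)) = R.A x u + R.A x (S.π u) := fun u x h => by
    rw [R.A_refl_right, h]; ring
  have TP : ∀ u, R.Pos u → R.A u (S.π u) = -1 → R.Pos (R.refl u (S.π u)) := fun u hu h =>
    hu.of_add (S.pos_π_iff.2 hu) (i := 1) (j := 1) (by rw [R.vec_refl, h]; simp [add_comm])
  have a1 := H2 r
  have a2 := H2 s
  rw [R.A_self, i2, i2] at a1 a2
  rw [sy s r, sy s (S.π r), i2] at a2
  have m : (S.π r = r ∨ R.A r (S.π r) = 0) ∧ (s = r ∨ s = S.π r) := by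
    rcases K2 r with b1 | b1
    · have := H1 r b1
      rw [R.A_self] at this
      exact ⟨.inl b1, .inl (eq_of hr hs this (sy r s ▸ this))⟩
    rcases K2 s with b2 | b2
    · have := H1 s b2
      rw [R.A_self, add_comm] at this
      obtain rfl := eq_of hs hr this (sy s r ▸ this)
      exact ⟨.inl b2, .inl rfl⟩
    rcases b1 with b1 | b1
    · refine ⟨.inr b1, by_contra fun n => ?_⟩
      rw [not_or] at n
      have b3 := ((bd r s).resolve_left n.1).resolve_left (hr.ne_neg hs)
      have b4 := ((bd _ s).resolve_left n.2).resolve_left (pr.ne_neg hs)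
      have b5 := K1 (R.refl s r)
      rw [i2] at b4
      rw [Q, b1, show R.A s (S.π s) = 0 by omega] at b5
      rcases (show R.A r s = 1 ∧ R.A r (S.π s) = 1 ∨ R.A r s = -1 ∧ R.A r (S.π s) = -1 by omega) with h | h <;>
        rw [h.1, h.2] at b5 <;> omega
    · have b2 : R.A s (S.π s) = -1 := by omega
      have b3 := T r s b1
      have b4 := T r (S.π s) b1
      have b5 := T s (R.refl r (S.π r)) b2
      rw [iv, sy _ r] at b4
      rw [sy _ s, sy _ (S.π s), b4, b3, ← i2 s r, sy _ r, sy _ r] at b5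
      rcases bd (R.refl r (S.π r)) (R.refl s (S.π s)) with h | h | h
      · rw [h, R.A_self] at b5; omega
      · exact ((TP r hr b1).ne_neg (TP s hs b2) h).elim
      · omega
  have E1 : ∀ a, S.π a = a → 2 ∣ R.A a r := fun a e => by
    have := H1 a e
    rcases m.2 with h | h
    · rw [h] at this; omega
    · rw [h, ← i2, e] at this; omega
  have E2 : ∀ a, 2 ∣ R.A a r + R.A a (S.π r) := fun a => by
    have := H2 a
    rcases m.2 with h | h
    · rw [h, i2] at this; omega
    · rw [h, iv, i2] at this; omega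
  obtain ⟨a, a3⟩ := exists_one hl hC h3 r
  rcases m.1 with b1 | b1
  swap
  · have b2 := E2 a
    have b3 := K2 (R.refl r a)
    have b4 := (K2 a).resolve_left fun c => by have := E1 a c; omega
    have b5 := bd a (S.π r)
    rw [Q, a3, b1] at b3
    rcases b3 with h | h
    · have := E1 _ h
      rw [sy, R.A_refl_right, sy r a, a3, R.A_self] at this
      omega
    · omega
  have sr : s = r := m.2.elim id fun h => h.trans b1
  have F : ∀ a, R.A a r = 1 → R.A a (S.π a) = -1 := fun a a3 => by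
    refine (((K2 a).resolve_left fun c => by have := E1 a c; omega).resolve_left fun b2 => ?_)
    have w : R.refl a * R.refl (S.π a) ∈ S.Wf := Sym.mem_Wf.2 ⟨mul_mem (R.refl_mem_W _) (R.refl_mem_W _), by
      have := R.conj_refl (R.refl_mem_Aut a) (S.π a)
      rw [R.refl_of_A_eq_zero b2, mul_inv_eq_iff_eq_mul] at this
      rw [← MulAut.conj_apply, map_mul, MulAut.conj_apply, MulAut.conj_apply, R.conj_refl ha, R.conj_refl ha, gg,
        this]⟩
    have ee : e * e = 1 := by rcases he with rfl | rfl <;> decide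
    have b3 : ∀ j, 2 ∣ R.vec a j - R.vec (S.π a) j := fun j => by
      have hd : ∀ i, (Pi.single j 1 + Pi.single (S.p j) e : B → ZMod 8) (S.p i) =
          e * (Pi.single j 1 + Pi.single (S.p j) e : B → ZMod 8) i := fun i => by
        have : S.p i = j ↔ i = S.p j := ⟨fun h => by rw [← h, h2], fun h => by rw [h, h2]⟩
        simp [Pi.single_apply, this, mul_add, ee, add_comm]
      have := c' _ hd _ w
      rw [sr, Equiv.Perm.mul_apply, e8_refl, e8_refl, e8_π ha hd, R.A_refl_right, b2, i2, b1, a3,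
        show e8 R (Pi.single j 1 + Pi.single (S.p j) e) a = e8 R (Pi.single j 1) a + e8 R (Pi.single (S.p j) e) a by
          simp only [e8, Pi.add_apply, mul_add, Finset.sum_add_distrib], e8_single, e8_single] at this
      have := (ZMod.intCast_zmod_eq_zero_iff_dvd (4 * (R.vec a j + R.vec a (S.p j))) 8).1 (by
        push_cast at this ⊢
        have h8 : (8 : ZMod 8) = 0 := rfl
        rcases he with rfl | rfl
        · linear_combination -this
        · linear_combination -this - (R.vec a j + 7 * R.vec a (S.p j) : ZMod 8) * h8)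
      rw [v1]; omega
    choose β hβ using b3
    have b4 := even hl β
    have b5 : R.cor a (R.vec a - R.vec (S.π a)) - R.cor (S.π a) (R.vec a - R.vec (S.π a)) =
        4 * ∑ i, β i * R.sp i β := by
      rw [A0, A0, ← Finset.sum_sub_distrib, Finset.mul_sum, show R.vec a - R.vec (S.π a) = (2 : ℤ) • β from funext hβ]
      exact Finset.sum_congr rfl fun i _ => by rw [← sub_mul, hβ, map_smul, smul_eq_mul]; ring
    rw [map_sub, map_sub, ← R.A_def, ← R.A_def, ← R.A_def, ← R.A_def, R.A_self, R.A_self, i2, b2] at b5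
    omega
  obtain ⟨g, g1, g2⟩ := RootSys.s4_of_rank hC hl.n3 h3 r a (by rw [sy r, a3]; rfl)
  obtain ⟨b, b2, b3⟩ : ∃ b, R.A b a = 0 ∧ R.A b r = 1 := by
    rcases bd g r with h | h | h
    · rw [← h, sy, a3] at g1; omega
    · rw [R.eq_neg_comm.1 h, R.A_neg_left, sy, a3] at g1; omega
    · by_cases c : R.A g r = 1
      exacts [⟨g, g1, c⟩, ⟨R.neg g, by rw [R.A_neg_left, g1]; rfl, by rw [R.A_neg_left]; omega⟩]
  have b4 := T b a (F b b3)
  rw [RootSys.eq_of_A_two_len (r := r) (s := R.refl b (S.π b)) (by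
    rw [T b r (F b b3), ← i2, b1, sy, b3]; rfl) (hl _ _), a3, sy a b, b2] at b4
  have b5 := K1 (R.refl (S.π b) a)
  rw [Q, gg, sy (S.π b), sy a b, b2, F a a3, F b b3, show R.A a (S.π b) = 1 by omega] at b5
  omega

theorem sep_D4 {S : Sym cD4.toRootSys} (ha : S.π ∈ cD4.Aut) (h : S.p = pD4) (e : ZMod 8) :
    Orb S ∧ Sep S e := by
  have o : ∀ j k, k ∈ S.orb j ↔ (k = 1 ↔ j = 1) := fun j k => by
    rw [Sym.orb, h, Set.mem_ofPred_eq]
    revert j k
    decide
  refine ⟨.inr fun j k hk l hl => ?_, fun r s hr hs c c' => ?_⟩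
  · rw [o] at hk hl
    rw [carD4']
    revert j k l
    decide
  have c0 := c 0
  have c1 := c 1
  simp only [fo, o, RootSys.A_simple, RootSys.sp_apply, carD4', Finset.sum_filter] at c0 c1
  clear c c'
  revert r s
  decide +kernel

end CF.Kf
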