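import Cfsg.Agent.Kf.A
import Cfsg.Agent.TC.C
import Cfsg.Agent.BN.BaB

/-! Two-fusion systems of groups of Lie type in odd characteristic: definitions. -/

set_option autoImplicit false

namespace CF.Kf

open Subgroup CF.Chev CF.BN CF.KB CF.KI CF.TC
open scoped commutatorElement

variable {B ι : Type} [Fintype B] [DecidableEq B] [Fintype ι] [DecidableEq ι]

section Comb

variable {R : RootSys B ι} (S : Sym R)

open scoped _root_.Classical in
/-- Pairing with the sum of the simple coroots of an orbit. -/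
noncomputable def fo (j : B) (r : ι) : ℤ := ∑ l with l ∈ S.orb j, R.A (R.simple l) r

/-- The root attached to an orbit of nodes. -/
noncomputable def aj (j : B) : ι :=
  if R.car j (S.p j) = -1 then R.refl (R.simple j) (R.simple (S.p j)) else R.simple j

variable (R) in
/-- Evaluation of a character of order dividing eight. -/
def e8 (d : B → ZMod 8) (r : ι) : ZMod 8 := ∑ i, (R.vec r i : ZMod 8) * d i

/-- The symmetry has order at most two, or its orbits consist of orthogonal nodes. -/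
def Orb : Prop := (∀ j, S.p (S.p j) = j) ∨ ∀ j, ∀ k ∈ S.orb j, ∀ l ∈ S.orb j, k ≠ l → R.car k l = 0

/-- Sums of two positive roots are seen by the 2-part of the torus. -/
def Sep (e : ZMod 8) : Prop := ∀ r s, R.Pos r → R.Pos s → (∀ j, 4 ∣ fo S j r + fo S j s) →
  (∀ d : B → ZMod 8, (∀ j, d (S.p j) = e * d j) → ∀ w ∈ S.Wf,
    e8 R d (w r) + e8 R d (w s) = e8 R d r + e8 R d s) → False

/-- `q` or `-q`, whichever is one modulo four. -/
def sq (q : ℕ) : ℤ := if q % 4 = 1 then q else -q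

/-- The symmetry obtained by twisting with the longest element. -/
def Tws (S' : Sym R) : Prop :=
  S' = S ∨ S'.π ∈ R.Aut ∧ ∀ r, S'.π r = R.neg (lg R Set.univ (S.π r))

end Comb

variable {C : ChevBasis B ι} {K : Type*} [Field K] {G : Type*} [Group G] {ρ : StRep C K G}
  {z z' n : G} {r s u : ι} {w : Equiv.Perm ι}

variable (ρ) in
open scoped _root_.Classical in
/-- The value of a root on an element of the torus. -/
noncomputable def rt (z : G) (r : ι) : Kˣ :=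
  if hz : z ∈ ρ.H then (StRep.exists_actsT_of_mem_H hz).choose.ev (C.vec r) else 1

theorem rt_of (hρ : ρ.Faithful) (hz : z ∈ ρ.H) {χ : Char B K} (h : ρ.ActsT z χ) (r : ι) :
    rt ρ z r = χ.ev (C.vec r) := by
  rw [rt, dif_pos hz, (StRep.exists_actsT_of_mem_H hz).choose_spec.2.1.eq hρ h]

theorem rt_spec (hz : z ∈ ρ.H) (r : ι) (t : K) : z * ρ.x r t * z⁻¹ = ρ.x r (rt ρ z r * t) := by
  rw [rt, dif_pos hz]; exact (StRep.exists_actsT_of_mem_H hz).choose_spec.2.1 r t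

theorem rt_eq (hρ : ρ.Faithful) (hz : z ∈ ρ.H) {c : Kˣ} {t : K} (ht : t ≠ 0)
    (h : z * ρ.x r t * z⁻¹ = ρ.x r (c * t)) : rt ρ z r = c :=
  Units.ext (mul_right_cancel₀ ht (x_inj hρ ((rt_spec hz r t).symm.trans h)))

theorem rt_one (hρ : ρ.Faithful) (r : ι) : rt ρ 1 r = 1 :=
  rt_eq hρ (one_mem _) one_ne_zero (by simp)

theorem rt_mul (hρ : ρ.Faithful) (hz : z ∈ ρ.H) (hz' : z' ∈ ρ.H) (r : ι) :
    rt ρ (z * z') r = rt ρ z r * rt ρ z' r :=
  rt_eq hρ (mul_mem hz hz') one_ne_zero (by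
    rw [Units.val_mul, mul_assoc (rt ρ z r : K), ← rt_spec hz, ← rt_spec hz']; group)

theorem rt_inv (hρ : ρ.Faithful) (hz : z ∈ ρ.H) (r : ι) : rt ρ z⁻¹ r = (rt ρ z r)⁻¹ :=
  eq_inv_of_mul_eq_one_left (by rw [← rt_mul hρ (inv_mem hz) hz, inv_mul_cancel, rt_one hρ])

theorem rt_pow (hρ : ρ.Faithful) (hz : z ∈ ρ.H) (r : ι) (k : ℕ) :
    rt ρ (z ^ k) r = rt ρ z r ^ k := by
  induction' k with k ih
  · simp [rt_one hρ]
  · rw [pow_succ, pow_succ, rt_mul hρ (pow_mem hz k) hz, ih]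

theorem rt_neg (r : ι) : rt ρ z (C.neg r) = (rt ρ z r)⁻¹ := by
  unfold rt; split_ifs <;> simp [C.vec_neg, Char.ev_neg]

theorem rt_add (h : C.vec u = C.vec r + C.vec s) : rt ρ z u = rt ρ z r * rt ρ z s := by
  unfold rt; split_ifs <;> simp [h, Char.ev_add]

theorem rt_h (hρ : ρ.Faithful) (a : ι) (t : Kˣ) (r : ι) : rt ρ (ρ.h a t) r = t ^ C.A a r :=
  rt_eq hρ (ρ.h_mem_H _ _) one_ne_zero (ρ.h_conj_x a t r 1)

theorem rt_tor (hρ : ρ.Faithful) (h : ρ.R3) (c : B → Kˣ) (r : ι) : rt ρ (h.tor c) r = rv C c r :=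
  rt_of hρ (tor_mem_H h c) (h.actsT_tor c) r

theorem rt_conj (hρ : ρ.Faithful) (hn : ρ.Acts n w) (hz : z ∈ ρ.H) (r : ι) :
    rt ρ (n * z * n⁻¹) (w r) = rt ρ z r := by
  have h0 := hn.conj_mem_H hz
  obtain ⟨-, c, -, h⟩ := hn
  refine rt_eq hρ h0 (t := c r * 1) (by simp) ?_
  rw [← h, mul_left_comm, ← h, ← rt_spec hz]; group

theorem rt_ext (h : ρ.IsAdj) (hz : z ∈ ρ.H) (hz' : z' ∈ ρ.H)
    (e : ∀ i, rt ρ z (C.simple i) = rt ρ z' (C.simple i)) : z = z' := by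
  obtain ⟨χ, -, h1, -⟩ := StRep.exists_actsT_of_mem_H (mul_mem hz (inv_mem hz'))
  refine mul_inv_eq_one.1 (h.eq_one_of_actsT (C.char_eq_one_of_simple (χ := χ) (fun i => ?_) ▸ h1))
  rw [← rt_of h.faithful (mul_mem hz (inv_mem hz')) h1, rt_mul h.faithful hz (inv_mem hz'),
    rt_inv h.faithful hz', e, mul_inv_cancel]

theorem commute_of_rt (hz : z ∈ ρ.H) (h : rt ρ z r = 1) : Lr ρ r ≤ centralizer {z} :=
  ρ.U_le_iff.2 fun s hs t => by
    rw [mem_centralizer_singleton_iff, eq_comm, ← mul_inv_eq_iff_eq_mul, rt_spec hz]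
    rcases hs with rfl | rfl <;> simp [rt_neg, h]

theorem rt_mon (hρ : ρ.Faithful) {θ : G →* G} {π : Equiv.Perm ι} {φ : K →+* K} (h : Mon ρ θ π φ)
    (hz : z ∈ ρ.H) (r : ι) : rt ρ (θ z) (π r) = um φ (rt ρ z r) := by
  have h0 := h.mem_H hz
  obtain ⟨-, d, -, h⟩ := h
  refine rt_eq hρ h0 (t := d r * φ 1) (by simp) ?_
  rw [← h, ← map_inv, ← map_mul, ← map_mul, rt_spec hz, h]
  simp [mul_comm]

variable (ρ) in
/-- Sums of two positive roots are nontrivial on the toral part of `U`. -/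
def SepU (U : Subgroup G) : Prop := ∀ r s, C.Pos r → C.Pos s →
  ∃ z ∈ U, z ∈ ρ.H ∧ rt ρ z r * rt ρ z s ≠ 1

variable [IsAlgClosed K] (h : ρ.IsAdj)

theorem rt_tA (c : B → Kˣ) (r : ι) : rt ρ (tA h c) r = ∏ i, c i ^ C.vec r i :=
  rt_of h.faithful (tA_mem h c) (actsT_tA h c) r

variable (p : ℕ) [Fact p.Prime] [CharP K p]

/-- A Frobenius map fixing a torus whose normalizer contains a Sylow 2-subgroup. -/
structure TZ (F : MulAut G) (S : Sym C.toRootSys) (f : ℕ) : Prop where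
  aut : S.π ∈ C.Aut
  fd : ∃ π, FD h p F π f ∧ (p ^ f % 4 = 1 ∧ (∀ r, π r = S.π r) ∨
    p ^ f % 4 = 3 ∧ ∀ r, π r = C.neg (S.π r))

variable (ρ) in
/-- The fundamental quaternion group attached to an orbit of nodes. -/
structure JD (F : MulAut G) (S : Sym C.toRootSys) (i : Kˣ) (j : B) (x y u : G) : Prop where
  xH : x ∈ ρ.H
  xv : ∀ r, rt ρ x r = i ^ fo S j r
  xm : x ∈ ⁅Fx F, Fx F⁆
  ym : y ∈ ⁅Fx F, Fx F⁆
  um : u ∈ Fx F
  yN : ρ.NW y (S.s j)
  y4 : y ^ 4 = 1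
  yx : y * x * y⁻¹ = x⁻¹
  ux : u * x * u⁻¹ = y
  uy : u * y * u⁻¹ = x * y
  cen : ∀ z ∈ ρ.H, F z = z → rt ρ z (aj S j) = 1 → Commute z y ∧ Commute z u

variable {h p} {F : MulAut G} {S : Sym C.toRootSys} {f : ℕ}

theorem TZ.mem_H (D : TZ h p F S f) (hz : z ∈ ρ.H) : F z ∈ ρ.H :=
  let ⟨_, d, _⟩ := D.fd; d.mon.mem_H hz

theorem TZ.rt (D : TZ h p F S f) (hz : z ∈ ρ.H) (r : ι) :
    rt ρ (F z) (S.π r) = rt ρ z r ^ sq (p ^ f) := by
  obtain ⟨π, d, ⟨h1, h2⟩ | ⟨h1, h2⟩⟩ := D.fd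
  · rw [sq, if_pos h1, ← h2, zpow_natCast]
    exact (rt_mon h.faithful d.mon hz r).trans (Units.ext rfl)
  · rw [sq, if_neg (by omega), zpow_neg, zpow_natCast, ← C.neg_neg (S.π r), ← h2, rt_neg]
    exact congrArg _ ((rt_mon h.faithful d.mon hz r).trans (Units.ext rfl))

theorem TZ.sq_mod (D : TZ h p F S f) : sq (p ^ f) % 4 = 1 := by
  obtain ⟨π, d, ⟨h1, h2⟩ | ⟨h1, h2⟩⟩ := D.fd <;> unfold sq <;> split_ifs <;> omega

theorem TZ.finite (D : TZ h p F S f) : Finite (Fx F) :=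
  let ⟨_, d, _⟩ := D.fd; d.fr.finite

end CF.Kf
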