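import Mathlib

/-! The symplectic group as a quaternionic unitary group. -/

set_option autoImplicit false

namespace CF.Kf.P2

open Matrix Quaternion

variable {F : Type*} [Field F] {m : Type*} [Fintype m] [DecidableEq m]

/-- The splitting of the quaternion algebra. -/
def psi (s t : F) (h : s ^ 2 + t ^ 2 = -1) : ℍ[F] →+* Matrix (Fin 2) (Fin 2) F where
  toFun x := !![x.re + s * x.imI - t * x.imK, t * x.imI + x.imJ + s * x.imK;
    t * x.imI - x.imJ + s * x.imK, x.re - s * x.imI + t * x.imK]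
  map_one' := by ext i j; fin_cases i <;> fin_cases j <;> simp
  map_zero' := by ext i j; fin_cases i <;> fin_cases j <;> simp
  map_add' x y := by ext i j; fin_cases i <;> fin_cases j <;> simp <;> ring
  map_mul' x y := by
    ext i j
    fin_cases i <;> fin_cases j <;> simp [Matrix.mul_apply, Fin.sum_univ_two] <;> grind

variable {s t : F} {h : s ^ 2 + t ^ 2 = -1}

theorem psi_apply (x : ℍ[F]) : psi s t h x =
    !![x.re + s * x.imI - t * x.imK, t * x.imI + x.imJ + s * x.imK;
    t * x.imI - x.imJ + s * x.imK, x.re - s * x.imI + t * x.imK] := rfl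

theorem psi_inj (h2 : (2 : F) ≠ 0) : Function.Injective (psi s t h) := by
  rw [injective_iff_map_eq_zero]
  intro x hx
  have e00 := congrFun (congrFun hx 0) 0
  have e01 := congrFun (congrFun hx 0) 1
  have e10 := congrFun (congrFun hx 1) 0
  have e11 := congrFun (congrFun hx 1) 1
  simp [psi_apply] at e00 e01 e10 e11
  ext <;> simp <;> apply mul_left_cancel₀ h2 <;> grind

theorem psi_surj (h2 : (2 : F) ≠ 0) : Function.Surjective (psi s t h) := by
  intro X
  refine ⟨⟨(X 0 0 + X 1 1) / 2, -(s * (X 0 0 - X 1 1) / 2 + t * (X 0 1 + X 1 0) / 2),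
    (X 0 1 - X 1 0) / 2, t * (X 0 0 - X 1 1) / 2 - s * (X 0 1 + X 1 0) / 2⟩,
    (psi_apply _).trans ?_⟩
  ext i j
  fin_cases i <;> fin_cases j <;> simp <;> field_simp <;> grind

/-- Quaternionic matrices as block matrices. -/
def Phi (s t : F) (h : s ^ 2 + t ^ 2 = -1) : Matrix m m ℍ[F] →* Matrix (m ⊕ m) (m ⊕ m) F where
  toFun A := fromBlocks (of fun p q => psi s t h (A p q) 0 0) (of fun p q => psi s t h (A p q) 0 1)
    (of fun p q => psi s t h (A p q) 1 0) (of fun p q => psi s t h (A p q) 1 1)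
  map_one' := by
    ext (p | p) (q | q) <;> by_cases e : p = q <;> simp [one_apply, e]
  map_mul' A B := by
    ext (p | p) (q | q) <;>
      simp [Matrix.mul_apply, Fintype.sum_sum_type, map_sum, Matrix.sum_apply, Fin.sum_univ_two,
        Finset.sum_add_distrib]

theorem Phi_apply (A : Matrix m m ℍ[F]) : Phi s t h A =
    fromBlocks (of fun p q => psi s t h (A p q) 0 0) (of fun p q => psi s t h (A p q) 0 1)
    (of fun p q => psi s t h (A p q) 1 0) (of fun p q => psi s t h (A p q) 1 1) := rfl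

theorem Phi_inj (h2 : (2 : F) ≠ 0) : Function.Injective (Phi (m := m) s t h) := by
  intro A B e
  rw [Phi_apply, Phi_apply, fromBlocks_inj] at e
  obtain ⟨e1, e2, e3, e4⟩ := e
  refine Matrix.ext fun p q => psi_inj (h := h) h2 ?_
  ext i j
  fin_cases i <;> fin_cases j
  exacts [congrFun (congrFun e1 p) q, congrFun (congrFun e2 p) q, congrFun (congrFun e3 p) q,
    congrFun (congrFun e4 p) q]

theorem Phi_surj (h2 : (2 : F) ≠ 0) : Function.Surjective (Phi (m := m) s t h) := by
  intro X
  choose f hf using psi_surj (h := h) h2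
  refine ⟨of fun p q => f !![X (.inl p) (.inl q), X (.inl p) (.inr q);
    X (.inr p) (.inl q), X (.inr p) (.inr q)], ?_⟩
  ext (p | p) (q | q) <;> simp [Phi_apply, hf]

theorem Phi_star (A : Matrix m m ℍ[F]) : J m F * (Phi s t h A)ᵀ = Phi s t h (star A) * J m F := by
  rw [Phi_apply, Phi_apply, J, fromBlocks_transpose, fromBlocks_multiply, fromBlocks_multiply]
  ext (p | p) (q | q) <;> simp [psi_apply, star_apply] <;> ring

theorem Phi_mem (h2 : (2 : F) ≠ 0) (A : Matrix m m ℍ[F]) :
    Phi s t h A ∈ symplecticGroup m F ↔ A ∈ unitary (Matrix m m ℍ[F]) := by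
  have hJ : J m F * -J m F = 1 := by rw [mul_neg, J_squared, neg_neg]
  rw [SymplecticGroup.mem_iff, mul_assoc, Phi_star, ← mul_assoc, ← map_mul, Unitary.mem_iff]
  constructor
  · intro e
    have e1 : Phi s t h (A * star A) = 1 := by
      have := congrArg (· * -J m F) e
      simpa only [mul_assoc, hJ, mul_one] using this
    have e2 : Phi s t h (star A * A) = 1 := by
      rw [map_mul] at e1 ⊢
      exact mul_eq_one_comm.1 e1
    exact ⟨Phi_inj h2 (e2.trans (map_one _).symm), Phi_inj h2 (e1.trans (map_one _).symm)⟩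
  · intro e
    rw [e.2, map_one, one_mul]

theorem exists_equiv [Finite F] (h2 : (2 : F) ≠ 0) :
    Nonempty (unitary (Matrix m m ℍ[F]) ≃* symplecticGroup m F) := by
  obtain ⟨s, t, h⟩ : ∃ s t : F, s ^ 2 + t ^ 2 = -1 := by
    obtain ⟨p, hp⟩ := CharP.exists F
    haveI := Fintype.ofFinite F
    obtain ⟨_, hpp, _⟩ := FiniteField.card F p
    haveI := Fact.mk hpp
    obtain ⟨a, b, hab⟩ := ZMod.sq_add_sq p (-1)
    refine ⟨ZMod.castHom (dvd_refl p) F a, ZMod.castHom (dvd_refl p) F b, ?_⟩
    rw [← map_pow, ← map_pow, ← map_add, hab, map_neg, map_one]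
  let f : unitary (Matrix m m ℍ[F]) →* symplecticGroup m F :=
    { toFun := fun A => ⟨Phi s t h A.1, (Phi_mem (h := h) h2 A.1).2 A.2⟩
      map_one' := Subtype.ext (map_one (Phi s t h))
      map_mul' := fun A B => Subtype.ext (map_mul (Phi s t h) A.1 B.1) }
  refine ⟨MulEquiv.ofBijective f ⟨fun A B e => Subtype.ext (Phi_inj (h := h) h2
    (congrArg Subtype.val e)), fun X => ?_⟩⟩
  obtain ⟨A, hA⟩ := Phi_surj (h := h) h2 X.1
  exact ⟨⟨A, (Phi_mem (h := h) h2 A).1 (by rw [hA]; exact X.2)⟩, Subtype.ext hA⟩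

end CF.Kf.P2
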