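import Cfsg.Agent.Kf.P2c

/-! The upper left block of size two. -/

set_option autoImplicit false

namespace CF.Kf.P2

open Quaternion Subgroup Matrix Equiv
open scoped commutatorElement

variable {F : Type*} [Field F] {n : ℕ}

theorem fin_ind {P : Fin (n + 3) → Prop} (h0 : P 0) (h1 : P 1)
    (h2 : ∀ p : Fin (n + 1), P p.succ.succ) (p : Fin (n + 3)) : P p :=
  Fin.cases h0 (fun p => Fin.cases (by simpa using h1) h2 p) p

theorem ss0 (p : Fin (n + 1)) : (p.succ.succ : Fin (n + 3)) ≠ 0 := Fin.succ_ne_zero _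

theorem ss1 (p : Fin (n + 1)) : (p.succ.succ : Fin (n + 3)) ≠ 1 := by
  rw [← Fin.succ_zero_eq_one]
  exact fun h => Fin.succ_ne_zero _ (Fin.succ_injective _ h)

theorem third (k l : Fin (n + 3)) : ∃ r, r ≠ k ∧ r ≠ l := by
  by_contra h
  push Not at h
  have : (Finset.univ : Finset (Fin (n + 3))) ⊆ {k, l} := fun r _ => by
    by_cases e : r = k
    · simp [e]
    · simp [h r e]
  have h1 := Finset.card_le_card this
  have h2 := Finset.card_le_two (a := k) (b := l)
  simp at h1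
  omega

/-- block matrices -/
def blk (n : ℕ) (A : Matrix (Fin 2) (Fin 2) ℍ[F]) : Matrix (Fin (n + 3)) (Fin (n + 3)) ℍ[F] :=
  of (vecCons (vecCons (A 0 0) (vecCons (A 0 1) 0)) (vecCons (vecCons (A 1 0) (vecCons (A 1 1) 0))
    fun p => vecCons 0 (vecCons 0 ((1 : Matrix (Fin (n + 1)) (Fin (n + 1)) ℍ[F]) p))))

variable (A B : Matrix (Fin 2) (Fin 2) ℍ[F]) (p q : Fin (n + 1))

@[simp] theorem blk00 : blk n A 0 0 = A 0 0 := rfl
@[simp] theorem blk01 : blk n A 0 1 = A 0 1 := by simp [blk]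
@[simp] theorem blk10 : blk n A 1 0 = A 1 0 := by simp [blk]
@[simp] theorem blk11 : blk n A 1 1 = A 1 1 := by simp [blk]
@[simp] theorem blk0s : blk n A 0 q.succ.succ = 0 := rfl
@[simp] theorem blk1s : blk n A 1 q.succ.succ = 0 := by simp [blk]
@[simp] theorem blks0 : blk n A p.succ.succ 0 = 0 := rfl
@[simp] theorem blks1 : blk n A p.succ.succ 1 = 0 := by simp [blk]
@[simp] theorem blkss : blk n A p.succ.succ q.succ.succ = if p = q then 1 else 0 := rfl

theorem sum3 {M : Type*} [AddCommMonoid M] (f : Fin (n + 3) → M) :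
    ∑ i, f i = f 0 + f 1 + ∑ p : Fin (n + 1), f p.succ.succ := by
  rw [Fin.sum_univ_succ, Fin.sum_univ_succ, ← add_assoc (f 0)]
  simp only [Fin.succ_zero_eq_one]

theorem blk_mul : blk n A * blk n B = blk n (A * B) := by
  refine Matrix.ext fun p q => ?_
  rw [Matrix.mul_apply, sum3]
  induction p using fin_ind <;> induction q using fin_ind <;>
    simp [Matrix.mul_apply, Fin.sum_univ_two]

theorem blk_star : star (blk n A) = blk n (star A) := by
  refine Matrix.ext fun p q => ?_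
  rw [star_apply]
  induction p using fin_ind <;> induction q using fin_ind <;> simp [star_apply, eq_comm]
  split_ifs <;> simp

theorem blk_one : blk n (1 : Matrix (Fin 2) (Fin 2) ℍ[F]) = 1 := by
  refine Matrix.ext fun p q => ?_
  induction p using fin_ind <;> induction q using fin_ind <;>
    simp [Matrix.one_apply, ss0, ss1, (ss0 _).symm, (ss1 _).symm]

/-- the block embedding -/
def bl (n : ℕ) : unitary (Matrix (Fin 2) (Fin 2) ℍ[F]) →*
    unitary (Matrix (Fin (n + 3)) (Fin (n + 3)) ℍ[F]) where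
  toFun A := ⟨blk n A, by
    rw [Unitary.mem_iff, blk_star, blk_mul, blk_mul, A.2.1, A.2.2, blk_one]; exact ⟨rfl, rfl⟩⟩
  map_one' := Subtype.ext blk_one
  map_mul' A B := Subtype.ext (blk_mul _ _).symm

theorem bl_dg0 (x : unitary ℍ[F]) : bl n (dg (Pi.mulSingle 0 x)) = dg (Pi.mulSingle 0 x) := by
  refine Subtype.ext (Matrix.ext fun p q => ?_)
  show blk n (mm _ 1) p q = mm _ 1 p q
  induction p using fin_ind <;> induction q using fin_ind <;>
    simp [mm_apply, ss0, ss1, (ss0 _).symm, (ss1 _).symm]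

theorem bl_dg1 (x : unitary ℍ[F]) : bl n (dg (Pi.mulSingle 1 x)) = dg (Pi.mulSingle 1 x) := by
  refine Subtype.ext (Matrix.ext fun p q => ?_)
  show blk n (mm _ 1) p q = mm _ 1 p q
  induction p using fin_ind <;> induction q using fin_ind <;>
    simp [mm_apply, ss0, ss1, (ss0 _).symm, (ss1 _).symm]

theorem bl_pm : bl (F := F) n (pm (swap 0 1)) = pm (swap 0 1) := by
  refine Subtype.ext (Matrix.ext fun p q => ?_)
  show blk n (mm _ _) p q = mm _ _ p q
  induction p using fin_ind <;> induction q using fin_ind <;>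
    simp [mm_apply, ss0, ss1, (ss0 _).symm, (ss1 _).symm, swap_apply_of_ne_of_ne]

theorem bl_comm (g : unitary (Matrix (Fin 2) (Fin 2) ℍ[F])) {k : Fin (n + 3)} (h0 : k ≠ 0)
    (h1 : k ≠ 1) (x : unitary ℍ[F]) : Commute (bl n g) (dg (Pi.mulSingle k x)) := by
  apply Subtype.ext
  show blk n g.1 * mm (Pi.mulSingle k x) 1 = mm (Pi.mulSingle k x) 1 * blk n g.1
  refine Matrix.ext fun p q => ?_
  rw [mul_mm, mm_mul]
  induction p using fin_ind <;> induction q using fin_ind <;>
    simp [Pi.mulSingle_eq_of_ne h0.symm, Pi.mulSingle_eq_of_ne h1.symm]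
  split_ifs with h
  · rw [h]
  · rfl

variable [h2 : NeZero (2 : F)]

/-- the first exceptional element -/
def e0 : unitary (Matrix (Fin 2) (Fin 2) ℍ[F]) := ⟨!![qC, qC; qC, -qC], by
  have := half (F := F)
  constructor <;> refine Matrix.ext fun p q => ?_ <;> fin_cases p <;> fin_cases q <;>
    simp [Matrix.mul_apply, star_apply] <;> ext <;> simp <;> grind⟩

/-- the second exceptional element -/
def e1 : unitary (Matrix (Fin 2) (Fin 2) ℍ[F]) := ⟨!![qC, -qC; qC, qC], by
  have := half (F := F)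
  constructor <;> refine Matrix.ext fun p q => ?_ <;> fin_cases p <;> fin_cases q <;>
    simp [Matrix.mul_apply, star_apply] <;> ext <;> simp <;> grind⟩

theorem coe_e0 : (e0 (F := F)).1 = !![qC, qC; qC, -qC] := rfl
theorem coe_e1 : (e1 (F := F)).1 = !![qC, -qC; qC, qC] := rfl

theorem dg0 (x : unitary ℍ[F]) :
    (dg (Pi.mulSingle (0 : Fin 2) x)).1 = !![(x : ℍ[F]), 0; 0, 1] := by
  refine Matrix.ext fun p q => ?_
  show mm _ 1 p q = _
  fin_cases p <;> fin_cases q <;> simp [mm_apply]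

theorem dg1 (x : unitary ℍ[F]) :
    (dg (Pi.mulSingle (1 : Fin 2) x)).1 = !![1, 0; 0, (x : ℍ[F])] := by
  refine Matrix.ext fun p q => ?_
  show mm _ 1 p q = _
  fin_cases p <;> fin_cases q <;> simp [mm_apply]

theorem pm01 : (pm (F := F) (swap (0 : Fin 2) 1)).1 = !![0, 1; 1, 0] := by
  refine Matrix.ext fun p q => ?_
  show mm _ _ p q = _
  fin_cases p <;> fin_cases q <;> simp [mm_apply]

theorem r1 : e0 (F := F) * dg (Pi.mulSingle 1 (-1)) = pm (swap 0 1) * e0 := by
  apply Subtype.ext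
  simp [coe_e0, dg1, pm01]

theorem r3a : e1 (F := F) * (dg (Pi.mulSingle 0 ua) * dg (Pi.mulSingle 1 ua)) =
    (dg (Pi.mulSingle 0 ua) * dg (Pi.mulSingle 1 ua)) * e1 := by
  apply Subtype.ext
  have : (qC : ℍ[F]) * qI = qI * qC := by ext <;> simp
  simp [coe_e1, dg0, dg1, this]

theorem r3b : e1 (F := F) * (dg (Pi.mulSingle 0 ub) * dg (Pi.mulSingle 1 ub)) =
    (dg (Pi.mulSingle 0 ua) * dg (Pi.mulSingle 1 ua)) *
      (dg (Pi.mulSingle 0 ub) * dg (Pi.mulSingle 1 ub)) * e1 := by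
  apply Subtype.ext
  have : (qC : ℍ[F]) * qJ = qI * qJ * qC := by ext <;> simp
  simp [coe_e1, dg0, dg1, this]

theorem r3c : e1 (F := F) * dg (Pi.mulSingle 0 (-1)) =
    (dg (Pi.mulSingle 0 ua) * dg (Pi.mulSingle 1 ua)) ^ 2 * pm (swap 0 1) * e1 := by
  apply Subtype.ext
  simp [coe_e1, dg0, dg1, pm01, pow_two, II]

theorem r3d : e1 (F := F) * pm (swap 0 1) = dg (Pi.mulSingle 0 (-1)) * e1 := by
  apply Subtype.ext
  simp [coe_e1, dg0, pm01]

theorem r4 : e1 (F := F) ^ 4 = 1 := by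
  have := half (F := F)
  have h : e1 (F := F) ^ 2 * e1 ^ 2 = 1 := by
    apply Subtype.ext
    have c : (qC : ℍ[F]) * qC + qC * qC = qI := by ext <;> simp <;> grind
    have c' : -((qC : ℍ[F]) * qC) + -(qC * qC) = -qI := by rw [← c]; abel
    simp [coe_e1, pow_two, c, c', II, one_fin_two]
  rw [← pow_add] at h
  exact h

theorem r5 : (dg (Pi.mulSingle 0 ua) * dg (Pi.mulSingle 1 ua)) *
      (dg (Pi.mulSingle 0 ub) * dg (Pi.mulSingle 1 ub)) *
      ((dg (Pi.mulSingle 0 uu) * dg (Pi.mulSingle 1 uu)) *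
        (dg (Pi.mulSingle 0 uu) * dg (Pi.mulSingle 1 uu))) * e1 (F := F) =
    e1 * (dg (Pi.mulSingle 0 uu) * dg (Pi.mulSingle 1 uu)) := by
  have := half (F := F)
  apply Subtype.ext
  have c : (qI : ℍ[F]) * qJ * (qU * qU) * qC = qC * qU := by ext <;> simp <;> grind
  simp [coe_e1, dg0, dg1, c]

end CF.Kf.P2
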