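import Cfsg.Agent.Kf.PA
import Cfsg.Agent.Kf.P2a
import Cfsg.Agent.Kf.P2d
import Cfsg.Prelude.Def_Classical

/-! The quaternion frame in `PSp (2 n + 6) q`, `q ≡ ± 3 mod 8`. -/

set_option autoImplicit false

namespace CF.Kf

open Quaternion Subgroup Matrix Equiv
open scoped commutatorElement

namespace P2

theorem sy2_of {Y : Type*} [Group Y] [Finite Y] {S : Subgroup Y} (hS : IsPGroup 2 S)
    (h : ∀ T : Subgroup Y, IsPGroup 2 T → S ≤ T → ∀ g ∈ T, g ∈ normalizer (S : Set Y) → g ∈ S) :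
    Sy2 S := by
  obtain ⟨T, hT⟩ := hS.exists_le_sylow
  suffices S = T from this ▸ sy2_sylow T
  by_contra hne
  haveI := T.isPGroup'.isNilpotent
  have h1 : S.subgroupOf T < ⊤ := lt_top_iff_ne_top.2 fun e =>
    hne (le_antisymm hT (subgroupOf_eq_top.1 e))
  obtain ⟨g, hg, hg'⟩ := SetLike.exists_of_lt (normalizerCondition_of_isNilpotent _ h1)
  refine hg' (h T T.isPGroup' hT g g.2 (mem_normalizer_fintype fun x hx => ?_))
  exact (hg ⟨x, hT hx⟩).1 hx

variable {F : Type*} [Field F]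

section Gen
variable {m : Type*} [Fintype m] [DecidableEq m]

/-- monomial groups -/
def MW (B : Subgroup (unitary ℍ[F])) (P : Subgroup (Perm m)) :
    Subgroup (unitary (Matrix m m ℍ[F])) where
  carrier := {g | ∃ d σ, (∀ p, d p ∈ B) ∧ σ ∈ P ∧ g = mon d σ}
  one_mem' := ⟨1, 1, fun _ => one_mem _, one_mem _, mon_one.symm⟩
  mul_mem' := by
    rintro _ _ ⟨d, σ, h1, h2, rfl⟩ ⟨e, ρ, h3, h4, rfl⟩
    exact ⟨_, _, fun p => mul_mem (h1 _) (h3 _), mul_mem h2 h4, mon_mul _ _ _ _⟩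
  inv_mem' := by
    rintro _ ⟨d, σ, h1, h2, rfl⟩
    exact ⟨_, _, fun p => inv_mem (h1 _), inv_mem h2, mon_inv _ _⟩

theorem mon_pow {B : Subgroup (unitary ℍ[F])} {d : m → unitary ℍ[F]} (hd : ∀ p, d p ∈ B)
    (σ : Perm m) (k : ℕ) : ∃ e, (∀ p, e p ∈ B) ∧ mon d σ ^ k = mon e (σ ^ k) := by
  induction k with
  | zero => exact ⟨1, fun _ => one_mem _, by simp [mon_one]⟩
  | succ k ih =>
    obtain ⟨e, h1, h2⟩ := ih
    exact ⟨_, fun p => mul_mem (h1 _) (hd _), by rw [pow_succ, h2, mon_mul, pow_succ]⟩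

end Gen

variable [NeZero (2 : F)] {n : ℕ} {Y : Type*} [Group Y]
  {π : unitary (Matrix (Fin (n + 3)) (Fin (n + 3)) ℍ[F]) →* Y}

/-- the embeddings of the norm one quaternions -/
def io (π : unitary (Matrix (Fin (n + 3)) (Fin (n + 3)) ℍ[F]) →* Y) (k : Fin (n + 3)) :
    unitary ℍ[F] →* Y := π.comp (dg.comp (MonoidHom.mulSingle (fun _ => unitary ℍ[F]) k))

theorem io_apply (k : Fin (n + 3)) (x : unitary ℍ[F]) : io π k x = π (dg (Pi.mulSingle k x)) := rfl

theorem dg_mem {X : Subgroup Y} {d : Fin (n + 3) → unitary ℍ[F]} (h : ∀ k, io π k (d k) ∈ X) :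
    π (dg d) ∈ X :=
  pi_mem_of_mulSingle_mem (H := X.comap (π.comp dg)) d h

theorem io_mem {J : Set (Fin (n + 3))} {k : Fin (n + 3)} (hk : k ∈ J) {x : unitary ℍ[F]}
    (hx : x ∈ closure ({ua, ub} : Set (unitary ℍ[F]))) : io π k x ∈ RQ (io π) ua ub J :=
  mem_iSup_of_mem k (mem_iSup_of_mem hk (mem_map_of_mem _ hx))

theorem pm_mem {x : unitary ℍ[F]} (h : x = 1 ∨ x = -1) :
    x ∈ closure ({ua, ub} : Set (unitary ℍ[F])) := by
  rcases h with rfl | rfl
  exacts [one_mem _, neg_mem_Q (one_mem _)]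

theorem S_le (P : Subgroup (Perm (Fin (n + 3)))) :
    RQ (io π) ua ub Set.univ ⊔ P.map (π.comp pm) ≤ (MW (closure {ua, ub}) P).map π := by
  refine sup_le (iSup₂_le fun k _ => ?_) ?_
  · rintro _ ⟨x, hx, rfl⟩
    refine ⟨_, ⟨Pi.mulSingle k x, 1, fun p => ?_, one_mem _, rfl⟩, rfl⟩
    by_cases e : p = k
    · rw [e, Pi.mulSingle_eq_same]; exact hx
    · rw [Pi.mulSingle_eq_of_ne e]; exact one_mem _
  · rintro _ ⟨σ, hσ, rfl⟩
    exact ⟨_, ⟨1, σ, fun _ => one_mem _, hσ, rfl⟩, rfl⟩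

variable (hπ : Function.Surjective π) (hk : ∀ g, π g = 1 ↔ g = 1 ∨ g = -1)
include hk

theorem peq {x y : unitary (Matrix (Fin (n + 3)) (Fin (n + 3)) ℍ[F])} (h : π x = π y) :
    x = y ∨ x = -y := by
  rw [← mul_inv_eq_one, ← map_inv, ← map_mul, hk, mul_inv_eq_one, mul_inv_eq_iff_eq_mul,
    neg_one_mul] at h
  exact h

theorem sc_of {x y : unitary (Matrix (Fin (n + 3)) (Fin (n + 3)) ℍ[F])}
    (h : π y * π x = π x * π y) : SC x y :=
  peq hk (by rw [map_mul, map_mul, h])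

theorem pmon {d : Fin (n + 3) → unitary ℍ[F]} {σ : Perm (Fin (n + 3))} (h : π (mon d σ) = 1) :
    σ = 1 ∧ ((∀ p, d p = 1) ∨ ∀ p, d p = -1) := by
  rcases (hk _).1 h with h | h
  · rw [← mon_one] at h
    exact ⟨(mon_inj h).2, .inl (congrFun (mon_inj h).1)⟩
  · rw [← mon_one, neg_mon] at h
    exact ⟨(mon_inj h).2, .inr (congrFun (mon_inj h).1)⟩

theorem S_pg {P : Subgroup (Perm (Fin (n + 3)))} (hP : IsPGroup 2 P) :
    IsPGroup 2 (RQ (io π) ua ub Set.univ ⊔ P.map (π.comp pm) : Subgroup Y) := by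
  rintro ⟨g, hg⟩
  obtain ⟨_, ⟨d, σ, h1, h2, rfl⟩, rfl⟩ := S_le P hg
  obtain ⟨k, hk⟩ := hP ⟨σ, h2⟩
  obtain ⟨e, h3, h4⟩ := mon_pow h1 σ (2 ^ k)
  refine ⟨k + 2, Subtype.ext ?_⟩
  have : σ ^ 2 ^ k = 1 := congrArg Subtype.val hk
  have h5 : e ^ 4 = 1 := funext fun p => Subtype.ext (q8_of_mem (h3 p)).pow_four
  show π (mon d σ) ^ 2 ^ (k + 2) = 1
  rw [← map_pow, pow_add, pow_mul, h4, this, ← dg_apply, ← map_pow]
  norm_num [h5]

include hπ

theorem nrm' (hs : ¬ IsSquare (2 : F)) {P : Subgroup (Perm (Fin (n + 3)))} {g : Y}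
    (hg : g ∈ normalizer ((RQ (io π) ua ub Set.univ ⊔ P.map (π.comp pm) : Subgroup Y) : Set Y)) :
    ∃ d σ, (∀ p, ∃ q ∈ closure ({ua, ub} : Set (unitary ℍ[F])), ∃ e : ℕ, d p = uu ^ e * q) ∧
      g = π (mon d σ) := by
  obtain ⟨g, rfl⟩ := hπ g
  obtain ⟨d, σ, h1, h2⟩ := nrm_mon hs (g := g) fun k x hx => by
    have := (hg (io π k x)).1 (mem_sup_left (io_mem (Set.mem_univ k) hx))
    obtain ⟨_, ⟨d, σ, h1, -, rfl⟩, h3⟩ := S_le P this
    rw [io_apply, ← map_inv, ← map_mul, ← map_mul] at h3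
    rcases peq hk h3.symm with h | h
    · exact ⟨d, σ, h1, h⟩
    · exact ⟨_, σ, fun p => neg_mem_Q (h1 p), h.trans (neg_mon d σ)⟩
  exact ⟨d, σ, h1, by rw [h2]⟩

theorem syl [Finite Y] (hs : ¬ IsSquare (2 : F)) (P : Sylow 2 (Perm (Fin (n + 3)))) :
    Sy2 (RQ (io π) ua ub Set.univ ⊔ (P : Subgroup _).map (π.comp pm)) := by
  refine sy2_of (S_pg hk P.isPGroup') fun T hT hS g hg hn => ?_
  obtain ⟨d, σ, h1, rfl⟩ := nrm' hπ hk hs hn
  let P' : Subgroup (Perm (Fin (n + 3))) :=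
    { carrier := {σ | ∃ d, π (mon d σ) ∈ T}
      one_mem' := ⟨1, by rw [mon_one, map_one]; exact one_mem _⟩
      mul_mem' := by
        rintro _ _ ⟨d, h1⟩ ⟨e, h2⟩
        exact ⟨_, by rw [← mon_mul, map_mul]; exact mul_mem h1 h2⟩
      inv_mem' := by
        rintro _ ⟨d, h1⟩
        exact ⟨_, by rw [← mon_inv, map_inv]; exact inv_mem h1⟩ }
  have p1 : IsPGroup 2 P' := by
    rintro ⟨ρ, e, he⟩
    obtain ⟨k, h2⟩ := hT ⟨_, he⟩
    have h3 : π (mon e ρ) ^ 2 ^ k = 1 := congrArg Subtype.val h2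
    obtain ⟨e', -, h4⟩ := mon_pow (B := ⊤) (d := e) (fun _ => mem_top _) ρ (2 ^ k)
    rw [← map_pow, h4] at h3
    exact ⟨k, Subtype.ext (pmon hk h3).1⟩
  have p2 : P' = P := P.3 p1 fun ρ hρ => ⟨1, hS (mem_sup_right ⟨ρ, hρ, rfl⟩)⟩
  have hσ : σ ∈ (P : Subgroup _) := p2 ▸ (⟨d, hg⟩ : σ ∈ P')
  have m1 : π (pm σ) ∈ RQ (io π) ua ub Set.univ ⊔ (P : Subgroup _).map (π.comp pm) :=
    mem_sup_right ⟨σ, hσ, rfl⟩
  rw [← dg_pm, map_mul] at hg ⊢
  refine mul_mem (mem_sup_left (dg_mem fun p => io_mem (Set.mem_univ p) ?_)) m1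
  obtain ⟨k, h2⟩ := hT ⟨_, (T.mul_mem_cancel_right (hS m1)).1 hg⟩
  have h3 : π (dg d) ^ 2 ^ k = 1 := congrArg Subtype.val h2
  rw [← map_pow, ← map_pow, dg_apply] at h3
  obtain ⟨q, hq, e, he⟩ := h1 p
  rw [he]
  refine two_elt hq (k := k + 1) ?_
  rw [← he, pow_succ, pow_mul]
  rcases (pmon hk h3).2 with h | h <;> rw [show d p ^ 2 ^ k = _ from h p] <;> simp

theorem cen' : centralizer (RX (io π) (π.comp pm) ua ub : Set Y) ≤ RX (io π) (π.comp pm) ua ub := by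
  intro g hg
  obtain ⟨g, rfl⟩ := hπ g
  have c1 : ∀ k, k ≠ 0 → k ≠ 1 → ∀ x ∈ closure ({ua, ub} : Set (unitary ℍ[F])),
      SC g (dg (Pi.mulSingle k x)) := fun k h0 h1 x hx =>
    sc_of hk (hg _ (mem_sup_right (io_mem (by simp [h0, h1]) hx)))
  have c2 : ∀ x, π x ∈ ({io π 0 ua * io π 1 ua, io π 0 ub * io π 1 ub, io π 0 (ua ^ 2),
      (π.comp pm) (swap 0 1)} : Set Y) → SC g x := fun x hx =>
    sc_of hk (hg _ (mem_sup_left (subset_closure hx)))
  have b1 : ∀ k, k ≠ 0 → k ≠ 1 → ∀ p, p ≠ k → g.1 p k = 0 ∧ g.1 k p = 0 := fun k h0 h1 =>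
    sc_blk a_sq (c1 k h0 h1 _ a_mem)
  have b2 : ∀ k, k ≠ 0 → k ≠ 1 → g.1 k k = 1 ∨ g.1 k k = -1 := fun k h0 h1 =>
    sc_pm h0.symm (c1 k h0 h1 _ a_mem) (c1 k h0 h1 _ b_mem)
  obtain ⟨r, r0, r1⟩ := third (0 : Fin (n + 3)) 1
  have f1 := sc_fix (b2 r r0 r1) (d := Pi.mulSingle 0 (-1)) (σ := 1) (Pi.mulSingle_eq_of_ne r0 _) rfl
    (c2 _ (by rw [← a_sq]; exact .inr (.inr (.inl rfl))))
  have f2 := sc_fix (b2 r r0 r1) (d := 1) (σ := swap 0 1) rfl (swap_apply_of_ne_of_ne r0 r1)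
    (c2 _ (.inr (.inr (.inr rfl)))) 0 1
  have f3 : ∀ x : unitary ℍ[F], SC g (dg (Pi.mulSingle 0 x * Pi.mulSingle 1 x)) →
      g.1 0 0 * x = x * g.1 0 0 := fun x hx => by
    simpa using sc_fix (b2 r r0 r1) (σ := 1)
      (by simp [Pi.mulSingle_eq_of_ne r0, Pi.mulSingle_eq_of_ne r1]) rfl hx 0 0
  have f01 := f1 0 1
  have f10 := f1 1 0
  simp at f01 f10 f2
  have z01 := eq_zero_of_neg f01
  have z10 := eq_zero_of_neg f10.symm
  have off : ∀ p q, p ≠ q → g.1 p q = 0 := by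
    intro p q h
    by_cases q0 : q = 0
    · by_cases p1 : p = 1
      · rw [q0, p1, z10]
      · exact (b1 p (q0 ▸ h) p1 q h.symm).2
    · by_cases q1 : q = 1
      · by_cases p0 : p = 0
        · rw [q1, p0, z01]
        · exact (b1 p p0 (q1 ▸ h) q h.symm).2
      · exact (b1 q q0 q1 p h).1
  have d0 : g.1 0 0 = 1 ∨ g.1 0 0 = -1 :=
    scal (norm_diag fun q hq => off q 0 hq)
      (f3 ua (c2 _ (by rw [map_mul, map_mul]; exact .inl rfl)))
      (f3 ub (c2 _ (by rw [map_mul, map_mul]; exact .inr (.inl rfl))))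
  obtain ⟨d, h1, h2, rfl⟩ := eq_dg off fun p => by
    by_cases p0 : p = 0
    · rwa [p0]
    · by_cases p1 : p = 1
      · rwa [p1, ← f2]
      · exact b2 p p0 p1
  have e1 : d 1 = d 0 := Subtype.ext (by rw [h2, h2, f2])
  have e : d = Pi.mulSingle 0 (d 0) * Pi.mulSingle 1 (d 0) *
      fun p => if p = 0 ∨ p = 1 then 1 else d p := by
    funext p
    by_cases p0 : p = 0
    · simp [p0]
    · by_cases p1 : p = 1
      · simp [p1, e1]
      · simp [p0, p1]
  rw [e, map_mul, map_mul]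
  refine mul_mem (mem_sup_left ?_) (mem_sup_right (dg_mem fun p => ?_))
  · rcases h1 0 with h | h <;> rw [h]
    · simpa using one_mem _
    · rw [← a_sq, Pi.mulSingle_pow, Pi.mulSingle_pow,
        ← (Pi.mulSingle_commute (f := fun _ : Fin (n + 3) => unitary ℍ[F]) zero_ne_one _ _).mul_pow,
        map_pow dg, map_pow π, map_mul, map_mul]
      exact pow_mem (subset_closure (.inl rfl)) 2
  · split_ifs with h
    · rw [map_one]; exact one_mem _
    · exact io_mem (by simpa using h) (pm_mem (h1 p))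

omit hπ hk in
theorem g1_norm [Finite Y] :
    π (bl n e1) ∈ normalizer (RX (io π) (π.comp pm) ua ub : Set Y) := by
  have m1 : io π 0 ua * io π 1 ua ∈ RX (io π) (π.comp pm) ua ub :=
    mem_sup_left (subset_closure (.inl rfl))
  have m2 : io π 0 ub * io π 1 ub ∈ RX (io π) (π.comp pm) ua ub :=
    mem_sup_left (subset_closure (.inr (.inl rfl)))
  have m3 : io π 0 (ua ^ 2) ∈ RX (io π) (π.comp pm) ua ub :=
    mem_sup_left (subset_closure (.inr (.inr (.inl rfl))))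
  have m4 : π (pm (swap 0 1)) ∈ RX (io π) (π.comp pm) ua ub :=
    mem_sup_left (subset_closure (.inr (.inr (.inr rfl))))
  suffices RX (io π) (π.comp pm) ua ub ≤
      (RX (io π) (π.comp pm) ua ub).comap (MulAut.conj (π (bl n e1))).toMonoidHom from
    mem_normalizer_fintype fun x hx => this hx
  refine sup_le ((closure_le _).2 ?_) (iSup₂_le fun k hk => ?_)
  · rintro _ (rfl | rfl | rfl | rfl) <;>
      show π (bl n e1) * _ * (π (bl n e1))⁻¹ ∈ RX (io π) (π.comp pm) ua ub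
    · have := congrArg (fun x => π (bl n x)) (r3a (F := F))
      simp only [map_mul, bl_dg0, bl_dg1, ← io_apply] at this
      rwa [this, mul_inv_cancel_right]
    · have := congrArg (fun x => π (bl n x)) (r3b (F := F))
      simp only [map_mul, bl_dg0, bl_dg1, ← io_apply] at this
      rw [this, mul_inv_cancel_right]
      exact mul_mem m1 m2
    · have := congrArg (fun x => π (bl n x)) (r3c (F := F))
      simp only [map_mul, map_pow, bl_dg0, bl_dg1, bl_pm, ← io_apply] at this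
      rw [a_sq, this, mul_inv_cancel_right]
      exact mul_mem (pow_mem m1 2) m4
    · have := congrArg (fun x => π (bl n x)) (r3d (F := F))
      simp only [map_mul, bl_dg0, bl_pm, ← io_apply] at this
      rw [MonoidHom.comp_apply, this, mul_inv_cancel_right, ← a_sq]
      exact m3
  · rintro _ ⟨x, hx, rfl⟩
    show π (bl n e1) * _ * (π (bl n e1))⁻¹ ∈ RX (io π) (π.comp pm) ua ub
    simp only [Set.mem_compl_iff, Set.mem_insert_iff, Set.mem_singleton_iff, not_or] at hk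
    rw [io_apply, ((bl_comm e1 hk.1 hk.2 x).map π).eq, mul_inv_cancel_right]
    exact mem_sup_right (io_mem (by simp [hk.1, hk.2]) hx)

theorem pd [Finite Y] (hs : ¬ IsSquare (2 : F)) :
    PD (io π) (π.comp pm) ua ub uu (π (bl n e0)) (π (bl n e1)) where
  a4 := by rw [show 4 = 2 * 2 by norm_num, pow_mul, a_sq, neg_one_sq]
  a2 := by rw [a_sq]; exact neg_one_ne
  ab := by rw [a_sq, b_sq]
  ba := b_a
  u3 := u_three
  ua := u_a
  ub := u_b
  inj k := by
    rw [injective_iff_map_eq_one]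
    intro x hx
    rcases (pmon hk hx).2 with h | h
    · simpa using h k
    · obtain ⟨r, hr, -⟩ := third k k
      have : (Pi.mulSingle k x : Fin (n + 3) → unitary ℍ[F]) r = -1 := h r
      rw [Pi.mulSingle_eq_of_ne hr] at this
      exact absurd this.symm neg_one_ne
  comm k l h x y :=
    ((Pi.mulSingle_commute (f := fun _ : Fin (n + 3) => unitary ℍ[F]) h x y).map dg).map π
  perm σ k x := by
    have := congrArg π (conj_single 1 σ k x)
    simp only [map_mul, map_inv, Pi.one_apply, one_mul, inv_one, mul_one] at this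
    exact this
  zz s _ h1 h2 := by
    obtain ⟨g, rfl⟩ := hπ s
    exact (hk g).2 (pm_one third (fun k => sc_of hk (h1 k).1.eq.symm)
      (fun k => sc_of hk (h1 k).2.eq.symm) fun σ => sc_of hk (h2 σ).eq.symm)
  syl := syl hπ hk hs
  nrm P g hg := by
    obtain ⟨d, σ, h1, rfl⟩ := nrm' hπ hk hs hg
    rw [← dg_pm, map_mul]
    refine mul_mem (mem_sup_left (dg_mem fun p => ?_)) (mem_sup_right ⟨σ, rfl⟩)
    obtain ⟨q, hq, e, he⟩ := h1 p
    rw [he, map_mul, map_pow]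
    exact mul_mem (mem_sup_right (pow_mem (Subgroup.subset_closure (Set.mem_range_self p)) e))
      (mem_sup_left (io_mem (Set.mem_univ p) hq))
  cen g hg := by
    obtain ⟨g, rfl⟩ := hπ g
    obtain ⟨d, h1, -, rfl⟩ := cen_dg third (g := g)
      (fun k => sc_of hk (hg _ (io_mem (Set.mem_univ k) a_mem)))
      fun k => sc_of hk (hg _ (io_mem (Set.mem_univ k) b_mem))
    exact dg_mem fun p => io_mem (Set.mem_univ p) (pm_mem (h1 p))
  cen' := cen' hπ hk
  g0 := by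
    have := congrArg (fun x => π (bl n x)) (r1 (F := F))
    simp only [map_mul, bl_dg1, bl_pm, ← io_apply] at this
    rw [a_sq, this, mul_inv_cancel_right]
    rfl
  g0' := (bl_comm e0 (Fin.ne_of_val_ne (by simp [Nat.mod_eq_of_lt]))
    (Fin.ne_of_val_ne (by simp [Nat.mod_eq_of_lt])) _).map π
  g1 := g1_norm
  g1' := by rw [← map_pow, ← map_pow, r4, map_one, map_one]
  g1'' := by
    have := congrArg (fun x => π (bl n x)) (r5 (F := F))
    simp only [map_mul, bl_dg0, bl_dg1, ← io_apply] at this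
    have m : io π 0 ua * io π 1 ua * (io π 0 ub * io π 1 ub) ∈ RX (io π) (π.comp pm) ua ub :=
      mul_mem (mem_sup_left (subset_closure (.inl rfl)))
        (mem_sup_left (subset_closure (.inr (.inl rfl))))
    have v3 : (io π 0 uu * io π 1 uu) ^ 3 = 1 := by
      have c : Commute (io π 0 uu) (io π 1 uu) :=
        ((Pi.mulSingle_commute (f := fun _ : Fin (n + 3) => unitary ℍ[F]) zero_ne_one
          uu uu).map dg).map π
      rw [c.mul_pow, ← map_pow, ← map_pow, u_three, map_one, map_one, mul_one]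
    generalize io π 0 uu * io π 1 uu = v at this v3
    generalize io π 0 ua * io π 1 ua * (io π 0 ub * io π 1 ub) = w at this m
    generalize π (bl n e1) = g at this
    have e : (v ^ 2)⁻¹ * ⁅v, g⁆ = w⁻¹ := by
      have h1 : w = g * v * g⁻¹ * (v * v)⁻¹ := by rw [← this]; group
      have h2 : (v ^ 2)⁻¹ * v = v * v := by
        calc (v ^ 2)⁻¹ * v = (v ^ 3)⁻¹ * (v * v) := by rw [pow_succ v 2]; group
          _ = v * v := by rw [v3]; simp
      rw [commutatorElement_def, h1, mul_assoc v, mul_assoc v, ← mul_assoc, h2]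
      simp [mul_assoc]
    rw [e]
    exact inv_mem m

end P2

/-- P2, with the norm one quaternions in place of `SL(2, F)`. -/
theorem exists_pd' (n : ℕ) (F : Type*) [Field F] [Fintype F]
    (h : Fintype.card F % 8 = 3 ∨ Fintype.card F % 8 = 5) :
    ∃ (ι : Fin (n + 3) → unitary ℍ[F] →* Cfsg.PSp (n + 3) F)
      (τ : Perm (Fin (n + 3)) →* Cfsg.PSp (n + 3) F) (a b u : unitary ℍ[F])
      (g₀ g₁ : Cfsg.PSp (n + 3) F), PD ι τ a b u g₀ g₁ := by
  have hs : ¬ IsSquare (2 : F) := by rw [FiniteField.isSquare_two_iff]; omega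
  have h2 : (2 : F) ≠ 0 := fun e => hs (e ▸ IsSquare.zero)
  haveI : NeZero (2 : F) := ⟨h2⟩
  obtain ⟨e⟩ := P2.exists_equiv (m := Fin (n + 3)) h2
  refine ⟨_, _, _, _, _, _, _, P2.pd
    (π := (QuotientGroup.mk' (center (symplecticGroup (Fin (n + 3)) F))).comp e.toMonoidHom)
    ((QuotientGroup.mk'_surjective _).comp e.surjective) (fun g => ?_) hs⟩
  rw [← P2.mem_center P2.third]
  show ((e g : symplecticGroup (Fin (n + 3)) F) : Cfsg.PSp (n + 3) F) = 1 ↔ _
  rw [QuotientGroup.eq_one_iff, mem_center_iff, mem_center_iff, e.surjective.forall]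
  simp only [← map_mul, e.injective.eq_iff]

end CF.Kf
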