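import Mathlib

/-! The quaternion group of order 8 and its normaliser in the norm one quaternions. -/

set_option autoImplicit false

namespace CF.Kf.P2

open Quaternion Subgroup

variable {F : Type*} [Field F]

/-- `i` -/
def qI : ℍ[F] := ⟨0, 1, 0, 0⟩
/-- `j` -/
def qJ : ℍ[F] := ⟨0, 0, 1, 0⟩
/-- `k` -/
def qK : ℍ[F] := ⟨0, 0, 0, 1⟩
/-- `-(1 + i + j + k) / 2` -/
def qU : ℍ[F] := ⟨-2⁻¹, -2⁻¹, -2⁻¹, -2⁻¹⟩
/-- `(1 + i) / 2` -/
def qC : ℍ[F] := ⟨2⁻¹, 2⁻¹, 0, 0⟩

@[simp] theorem qI_re : (qI : ℍ[F]).re = 0 := rfl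
@[simp] theorem qI_i : (qI : ℍ[F]).imI = 1 := rfl
@[simp] theorem qI_j : (qI : ℍ[F]).imJ = 0 := rfl
@[simp] theorem qI_k : (qI : ℍ[F]).imK = 0 := rfl
@[simp] theorem qJ_re : (qJ : ℍ[F]).re = 0 := rfl
@[simp] theorem qJ_i : (qJ : ℍ[F]).imI = 0 := rfl
@[simp] theorem qJ_j : (qJ : ℍ[F]).imJ = 1 := rfl
@[simp] theorem qJ_k : (qJ : ℍ[F]).imK = 0 := rfl
@[simp] theorem qK_re : (qK : ℍ[F]).re = 0 := rfl
@[simp] theorem qK_i : (qK : ℍ[F]).imI = 0 := rfl
@[simp] theorem qK_j : (qK : ℍ[F]).imJ = 0 := rfl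
@[simp] theorem qK_k : (qK : ℍ[F]).imK = 1 := rfl
@[simp] theorem qU_re : (qU : ℍ[F]).re = -2⁻¹ := rfl
@[simp] theorem qU_i : (qU : ℍ[F]).imI = -2⁻¹ := rfl
@[simp] theorem qU_j : (qU : ℍ[F]).imJ = -2⁻¹ := rfl
@[simp] theorem qU_k : (qU : ℍ[F]).imK = -2⁻¹ := rfl
@[simp] theorem qC_re : (qC : ℍ[F]).re = 2⁻¹ := rfl
@[simp] theorem qC_i : (qC : ℍ[F]).imI = 2⁻¹ := rfl
@[simp] theorem qC_j : (qC : ℍ[F]).imJ = 0 := rfl
@[simp] theorem qC_k : (qC : ℍ[F]).imK = 0 := rfl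

theorem II : (qI : ℍ[F]) * qI = -1 := by ext <;> simp
theorem IJ : (qI : ℍ[F]) * qJ = qK := by ext <;> simp
theorem IK : (qI : ℍ[F]) * qK = -qJ := by ext <;> simp
theorem JI : (qJ : ℍ[F]) * qI = -qK := by ext <;> simp
theorem JJ : (qJ : ℍ[F]) * qJ = -1 := by ext <;> simp
theorem JK : (qJ : ℍ[F]) * qK = qI := by ext <;> simp
theorem KI : (qK : ℍ[F]) * qI = qJ := by ext <;> simp
theorem KJ : (qK : ℍ[F]) * qJ = -qI := by ext <;> simp
theorem KK : (qK : ℍ[F]) * qK = -1 := by ext <;> simp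
theorem sI : star (qI : ℍ[F]) = -qI := by ext <;> simp
theorem sJ : star (qJ : ℍ[F]) = -qJ := by ext <;> simp
theorem sK : star (qK : ℍ[F]) = -qK := by ext <;> simp

/-- `i` as a unit -/
def ua : unitary ℍ[F] := ⟨qI, by rw [Unitary.mem_iff, sI]; simp [II]⟩
/-- `j` as a unit -/
def ub : unitary ℍ[F] := ⟨qJ, by rw [Unitary.mem_iff, sJ]; simp [JJ]⟩

@[simp] theorem coe_ua : ((ua : unitary ℍ[F]) : ℍ[F]) = qI := rfl
@[simp] theorem coe_ub : ((ub : unitary ℍ[F]) : ℍ[F]) = qJ := rfl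

theorem coe_inv' (x : unitary ℍ[F]) : ((x⁻¹ : unitary ℍ[F]) : ℍ[F]) = star (x : ℍ[F]) := rfl

@[simp] theorem coe_neg' {R : Type*} [Ring R] [StarRing R] (x : unitary R) :
    ((-x : unitary R) : R) = -(x : R) := rfl

/-- the eight elements -/
def Q8 (x : ℍ[F]) : Prop :=
  x = 1 ∨ x = -1 ∨ x = qI ∨ x = -qI ∨ x = qJ ∨ x = -qJ ∨ x = qK ∨ x = -qK

theorem Q8.mul {x y : ℍ[F]} (hx : Q8 x) (hy : Q8 y) : Q8 (x * y) := by
  rcases hx with rfl | rfl | rfl | rfl | rfl | rfl | rfl | rfl <;>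
    rcases hy with rfl | rfl | rfl | rfl | rfl | rfl | rfl | rfl <;>
    simp only [Q8, II, IJ, IK, JI, JJ, JK, KI, KJ, KK, mul_one, one_mul, mul_neg, neg_mul, neg_neg,
      true_or, or_true]

theorem Q8.star {x : ℍ[F]} (hx : Q8 x) : Q8 (star x) := by
  rcases hx with rfl | rfl | rfl | rfl | rfl | rfl | rfl | rfl <;>
    simp only [Q8, sI, sJ, sK, star_one, star_neg, neg_neg, true_or, or_true]

theorem Q8.neg {x : ℍ[F]} (hx : Q8 x) : Q8 (-x) := by
  have := Q8.mul (x := -1) (.inr (.inl rfl)) hx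
  simpa using this

theorem q8_of_mem {x : unitary ℍ[F]} (hx : x ∈ closure ({ua, ub} : Set (unitary ℍ[F]))) :
    Q8 (x : ℍ[F]) := by
  induction hx using closure_induction with
  | mem x hx => rcases hx with rfl | rfl <;> simp [Q8]
  | one => simp [Q8]
  | mul x y _ _ h1 h2 => exact h1.mul h2
  | inv x _ h => exact h.star

theorem a_mem : (ua : unitary ℍ[F]) ∈ closure ({ua, ub} : Set (unitary ℍ[F])) :=
  subset_closure (by simp)

theorem b_mem : (ub : unitary ℍ[F]) ∈ closure ({ua, ub} : Set (unitary ℍ[F])) :=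
  subset_closure (by simp)

theorem a_sq : (ua : unitary ℍ[F]) ^ 2 = -1 := Subtype.ext (by simp [pow_two, II])

theorem b_sq : (ub : unitary ℍ[F]) ^ 2 = -1 := Subtype.ext (by simp [pow_two, JJ])

theorem neg_mem_Q {x : unitary ℍ[F]} (hx : x ∈ closure ({ua, ub} : Set (unitary ℍ[F]))) :
    -x ∈ closure ({ua, ub} : Set (unitary ℍ[F])) := by
  rw [← neg_one_mul, ← a_sq]
  exact mul_mem (pow_mem a_mem 2) hx

theorem mem_of_q8 {x : unitary ℍ[F]} (hx : Q8 (x : ℍ[F])) :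
    x ∈ closure ({ua, ub} : Set (unitary ℍ[F])) := by
  have k : ∀ y : unitary ℍ[F], y ∈ closure ({ua, ub} : Set (unitary ℍ[F])) →
      ((x : ℍ[F]) = y ∨ (x : ℍ[F]) = -y) → x ∈ closure ({ua, ub} : Set (unitary ℍ[F])) := by
    rintro y hy (h | h)
    · rwa [Subtype.ext h]
    · rw [show x = -y from Subtype.ext h]; exact neg_mem_Q hy
  rcases hx with h | h | h | h | h | h | h | h
  exacts [k 1 (one_mem _) (.inl h), k 1 (one_mem _) (.inr h), k _ a_mem (.inl h), k _ a_mem (.inr h),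
    k _ b_mem (.inl h), k _ b_mem (.inr h), k _ (mul_mem a_mem b_mem) (.inl (by simpa [IJ])),
    k _ (mul_mem a_mem b_mem) (.inr (by simpa [IJ]))]

theorem Q8.pow_four {x : ℍ[F]} (hx : Q8 x) : x ^ 4 = 1 := by
  rw [show 4 = 2 * 2 by norm_num, pow_mul, pow_two x]
  rcases hx with rfl | rfl | rfl | rfl | rfl | rfl | rfl | rfl <;> simp [II, JJ, KK]

theorem cancel {v w : ℍ[F]} (hv : normSq v ≠ 0) (h : v * w = 0) : w = 0 := by
  have : star v * v * w = 0 := by rw [mul_assoc, h, mul_zero]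
  rw [star_mul_self, coe_mul_eq_smul, smul_eq_zero] at this
  exact this.resolve_left hv

theorem normSq_unit (x : unitary ℍ[F]) : normSq (x : ℍ[F]) = 1 := by
  have := Unitary.coe_mul_star_self x
  rw [Unitary.coe_star, self_mul_star] at this
  simpa using congrArg (fun y : ℍ[F] => y.re) this

variable [h2 : NeZero (2 : F)]

theorem half : (2 : F) * 2⁻¹ = 1 := mul_inv_cancel₀ two_ne_zero

theorem sU : star (qU : ℍ[F]) * qU = 1 ∧ (qU : ℍ[F]) * star qU = 1 := by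
  have := half (F := F)
  constructor <;> ext <;> simp <;> grind

/-- an element of order three -/
def uu : unitary ℍ[F] := ⟨qU, sU⟩

@[simp] theorem coe_uu : ((uu : unitary ℍ[F]) : ℍ[F]) = qU := rfl

theorem u_three : (uu : unitary ℍ[F]) ^ 3 = 1 := by
  have := half (F := F)
  apply Subtype.ext
  ext <;> simp [pow_three] <;> grind

theorem u_a : (uu : unitary ℍ[F]) * ua * uu⁻¹ = ub := by
  have := half (F := F)
  apply Subtype.ext
  ext <;> simp [coe_inv'] <;> grind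

theorem u_b : (uu : unitary ℍ[F]) * ub * uu⁻¹ = ua * ub := by
  have := half (F := F)
  apply Subtype.ext
  ext <;> simp [coe_inv'] <;> grind

theorem b_a : (ub : unitary ℍ[F]) * ua * ub⁻¹ = ua⁻¹ := by
  apply Subtype.ext
  ext <;> simp [coe_inv']

theorem neg_one_ne : (-1 : unitary ℍ[F]) ≠ 1 := by
  intro h
  have := congrArg (fun x : unitary ℍ[F] => (x : ℍ[F]).re) h
  simp at this
  exact two_ne_zero (α := F) (by linear_combination -this)

theorem eq_zero_of_neg {x : ℍ[F]} (h : x = -x) : x = 0 := by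
  have : (2 : F) • x = 0 := by rw [two_smul]; nth_rewrite 1 [h]; simp
  exact (smul_eq_zero.1 this).resolve_left two_ne_zero

/-- the centraliser of `i` and `j` -/
theorem scal {x : ℍ[F]} (hn : normSq x = 1) (h1 : x * qI = qI * x) (h2 : x * qJ = qJ * x) :
    x = 1 ∨ x = -1 := by
  have a1 := congrArg (fun y : ℍ[F] => y.imJ) h1
  have a2 := congrArg (fun y : ℍ[F] => y.imK) h1
  have a3 := congrArg (fun y : ℍ[F] => y.imK) h2
  simp at a1 a2 a3
  have t : (2 : F) ≠ 0 := two_ne_zero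
  have b1 : x.imK = 0 := mul_left_cancel₀ t (by linear_combination a1)
  have b2 : x.imJ = 0 := mul_left_cancel₀ t (by linear_combination -a2)
  have b3 : x.imI = 0 := mul_left_cancel₀ t (by linear_combination a3)
  rw [normSq_def', b1, b2, b3] at hn
  have : (x.re - 1) * (x.re + 1) = 0 := by linear_combination hn
  rcases mul_eq_zero.1 this with h | h
  · left; ext <;> simp [b1, b2, b3]; linear_combination h
  · right; ext <;> simp [b1, b2, b3]; linear_combination h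

theorem Q8.normSq_sub {x : ℍ[F]} (hx : Q8 x) (h1 : x ≠ 1) : normSq (x - 1) ≠ 0 := by
  have t : (2 : F) ≠ 0 := two_ne_zero
  have t4 : (4 : F) ≠ 0 := by rw [show (4 : F) = 2 * 2 by norm_num]; exact mul_ne_zero t t
  rcases hx with rfl | rfl | rfl | rfl | rfl | rfl | rfl | rfl
  · exact absurd rfl h1
  · rw [normSq_def']; simp; intro h; exact t (by linear_combination -h)
  all_goals rw [normSq_def']; simp; intro h; exact t (by linear_combination h)

theorem not_diag (v : ℍ[F]) : v * (qI - 1) * star v ≠ -1 := by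
  intro h
  have h' := congrArg star h
  simp only [star_mul, star_star, star_sub, sI, star_one, star_neg] at h'
  have e : v * qI * star v = -(v * qI * star v) := by
    have : v * (qI - 1) * star v - v * ((-qI - 1) * star v) = 0 := by rw [h, h', sub_self]
    rw [eq_neg_iff_add_eq_zero, ← this]; noncomm_ring
  have e1 := congrArg normSq (eq_zero_of_neg e)
  have e2 := congrArg normSq h
  simp only [map_mul, normSq_star, map_zero, normSq_neg, map_one] at e1 e2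
  have : normSq (qI : ℍ[F]) = 1 := by simp [normSq_def']
  rw [this, mul_one, mul_self_eq_zero] at e1
  rw [e1] at e2
  simp at e2

theorem norm_aux (hs : ¬ IsSquare (2 : F)) {d : unitary ℍ[F]} (h1 : d * ua * d⁻¹ = ua)
    (h2 : Q8 ((d * ub * d⁻¹ : unitary ℍ[F]) : ℍ[F])) :
    d ∈ closure ({ua, ub} : Set (unitary ℍ[F])) := by
  have t : (2 : F) ≠ 0 := two_ne_zero
  have c1 : (d : ℍ[F]) * qI = qI * (d : ℍ[F]) := congrArg Subtype.val (mul_inv_eq_iff_eq_mul.1 h1)
  have a1 := congrArg (fun y : ℍ[F] => y.imJ) c1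
  have a2 := congrArg (fun y : ℍ[F] => y.imK) c1
  simp at a1 a2
  have b1 : (d : ℍ[F]).imK = 0 := mul_left_cancel₀ t (by linear_combination a1)
  have b2 : (d : ℍ[F]).imJ = 0 := mul_left_cancel₀ t (by linear_combination -a2)
  have hn := normSq_unit d
  rw [normSq_def', b1, b2] at hn
  set x := (d : ℍ[F]).re with hx
  set y := (d : ℍ[F]).imI with hy
  have e0 : ((d * ub * d⁻¹ : unitary ℍ[F]) : ℍ[F]).re = 0 := by simp [coe_inv', b1, b2]
  have e1 : ((d * ub * d⁻¹ : unitary ℍ[F]) : ℍ[F]).imI = 0 := by simp [coe_inv', b1, b2]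
  have e2 : ((d * ub * d⁻¹ : unitary ℍ[F]) : ℍ[F]).imJ = x ^ 2 - y ^ 2 := by
    simp [coe_inv', b1, b2]; ring
  have e3 : ((d * ub * d⁻¹ : unitary ℍ[F]) : ℍ[F]).imK = 2 * x * y := by
    simp [coe_inv', b1, b2]; ring
  have k1 : x * y = 0 → d ∈ closure ({ua, ub} : Set (unitary ℍ[F])) := by
    intro h
    apply mem_of_q8
    rcases mul_eq_zero.1 h with h | h
    · have : (y - 1) * (y + 1) = 0 := by rw [h] at hn; linear_combination hn
      rcases mul_eq_zero.1 this with h' | h'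
      · refine .inr (.inr (.inl ?_))
        ext <;> simp [b1, b2, h, ← hx, ← hy]; linear_combination h'
      · refine .inr (.inr (.inr (.inl ?_)))
        ext <;> simp [b1, b2, h, ← hx, ← hy]; linear_combination h'
    · have : (x - 1) * (x + 1) = 0 := by rw [h] at hn; linear_combination hn
      rcases mul_eq_zero.1 this with h' | h'
      · refine .inl ?_
        ext <;> simp [b1, b2, h, ← hx, ← hy]; linear_combination h'
      · refine .inr (.inl ?_)
        ext <;> simp [b1, b2, h, ← hx, ← hy]; linear_combination h'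
  have k2 : x ^ 2 - y ^ 2 ≠ 0 := by
    intro h
    apply hs
    refine ⟨2 * x, ?_⟩
    linear_combination (-2) * hn - 2 * h
  generalize ((d * ub * d⁻¹ : unitary ℍ[F]) : ℍ[F]) = w at h2 e0 e1 e2 e3
  rcases h2 with rfl | rfl | rfl | rfl | rfl | rfl | rfl | rfl <;> simp at e0 e1 e2 e3
  · exact k1 (mul_eq_zero.2 (e3.imp_left fun h => h.resolve_left t))
  · exact k1 (mul_eq_zero.2 (e3.imp_left fun h => h.resolve_left t))
  · exact absurd e2.symm k2
  · exact absurd e2.symm k2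

theorem u_conj {x : unitary ℍ[F]} (hx : x ∈ closure ({ua, ub} : Set (unitary ℍ[F]))) :
    uu * x * uu⁻¹ ∈ closure ({ua, ub} : Set (unitary ℍ[F])) := by
  induction hx using closure_induction with
  | mem x hx =>
    rcases hx with rfl | rfl
    · rw [u_a]; exact b_mem
    · rw [u_b]; exact mul_mem a_mem b_mem
  | one => simpa using one_mem _
  | mul x y _ _ h1 h2 =>
    have : uu * (x * y) * uu⁻¹ = (uu * x * uu⁻¹) * (uu * y * uu⁻¹) := by group
    rw [this]; exact mul_mem h1 h2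
  | inv x _ h =>
    have : uu * x⁻¹ * uu⁻¹ = (uu * x * uu⁻¹)⁻¹ := by group
    rw [this]; exact inv_mem h

theorem u_norm : (uu : unitary ℍ[F]) ∈
    normalizer ((closure ({ua, ub} : Set (unitary ℍ[F])) : Subgroup _) : Set (unitary ℍ[F])) := by
  refine fun x => ⟨u_conj, fun h => ?_⟩
  have u3 : (uu : unitary ℍ[F]) * uu * uu = 1 := by rw [← pow_three', u_three]
  have := u_conj (u_conj h)
  rwa [show uu * (uu * (uu * x * uu⁻¹) * uu⁻¹) * uu⁻¹ = (uu * uu * uu) * x * (uu * uu * uu)⁻¹ by group,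
    u3, one_mul, inv_one, mul_one] at this

theorem two_elt {q : unitary ℍ[F]} (hq : q ∈ closure ({ua, ub} : Set (unitary ℍ[F]))) {e k : ℕ}
    (h : (uu ^ e * q) ^ 2 ^ k = 1) : uu ^ e * q ∈ closure ({ua, ub} : Set (unitary ℍ[F])) := by
  set w : unitary ℍ[F] := uu ^ e with hw
  have hn := inv_mem (pow_mem (u_norm (F := F)) e)
  have key : ∀ n : ℕ, (w ^ n)⁻¹ * (w * q) ^ n ∈ closure ({ua, ub} : Set (unitary ℍ[F])) := by
    intro n
    induction n with
    | zero => simpa using one_mem _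
    | succ n ih =>
      have : (w ^ (n + 1))⁻¹ * (w * q) ^ (n + 1) =
          (w⁻¹ * ((w ^ n)⁻¹ * (w * q) ^ n) * w⁻¹⁻¹) * q := by
        rw [pow_succ, pow_succ]; group
      rw [this]
      exact mul_mem ((hn _).1 ih) hq
  have h1 := key (2 ^ k)
  rw [h, mul_one, inv_mem_iff] at h1
  have h2 : (w ^ 2 ^ k) ^ 4 = 1 := Subtype.ext (q8_of_mem h1).pow_four
  have h3 : w ^ 3 = 1 := by rw [hw, ← pow_mul, mul_comm, pow_mul, u_three, one_pow]
  rw [← pow_mul] at h2
  have h4 : w ^ Nat.gcd (2 ^ k * 4) 3 = 1 := pow_gcd_eq_one.2 ⟨h2, h3⟩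
  rw [Nat.Coprime.gcd_eq_one (Nat.Coprime.mul_left (Nat.Coprime.pow_left k (by norm_num))
    (by norm_num)), pow_one] at h4
  rw [h4, one_mul]; exact hq

theorem norm_Q (hs : ¬ IsSquare (2 : F)) {d : unitary ℍ[F]}
    (h1 : d * ua * d⁻¹ ∈ closure ({ua, ub} : Set (unitary ℍ[F])))
    (h2 : d * ub * d⁻¹ ∈ closure ({ua, ub} : Set (unitary ℍ[F]))) :
    ∃ q ∈ closure ({ua, ub} : Set (unitary ℍ[F])), ∃ e : ℕ, d = uu ^ e * q := by
  set Q := closure ({ua, ub} : Set (unitary ℍ[F])) with hQ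
  have uq : ∀ x ∈ Q, uu * x * uu⁻¹ ∈ Q := fun x hx => u_conj hx
  have s1 : ∀ d : unitary ℍ[F], (d * ua * d⁻¹ = ua ∨ d * ua * d⁻¹ = ua⁻¹) → d * ub * d⁻¹ ∈ Q →
      d ∈ Q := by
    rintro d (h | h) h'
    · exact norm_aux hs h (q8_of_mem h')
    · have := norm_aux hs (d := ub⁻¹ * d) (by
        calc ub⁻¹ * d * ua * (ub⁻¹ * d)⁻¹ = ub⁻¹ * (d * ua * d⁻¹) * ub := by group
          _ = ua := by rw [h, ← b_a]; group) (q8_of_mem (by
        have : ub⁻¹ * d * ub * (ub⁻¹ * d)⁻¹ = ub⁻¹ * (d * ub * d⁻¹) * ub := by group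
        rw [this]
        exact mul_mem (mul_mem (inv_mem b_mem) h') b_mem))
      simpa using mul_mem b_mem this
  have u3 : (uu : unitary ℍ[F]) * uu * uu = 1 := by rw [← pow_three', u_three]
  have uk : (uu : unitary ℍ[F]) * (ua * ub) * uu⁻¹ = ua := by
    rw [← u_b, ← u_a]
    calc _ = (uu * uu * uu) * ua * (uu * uu * uu)⁻¹ := by group
      _ = ua := by rw [u3]; group
  have s2 : ∀ d : unitary ℍ[F], (d * ua * d⁻¹ = ua * ub ∨ d * ua * d⁻¹ = (ua * ub)⁻¹) →
      d * ub * d⁻¹ ∈ Q → uu * d ∈ Q := by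
    intro d h h'
    refine s1 _ ?_ ?_
    · have : uu * d * ua * (uu * d)⁻¹ = uu * (d * ua * d⁻¹) * uu⁻¹ := by group
      rw [this]
      rcases h with h | h <;> rw [h]
      · exact .inl uk
      · right
        calc _ = (uu * (ua * ub) * uu⁻¹)⁻¹ := by group
          _ = _ := by rw [uk]
    · have : uu * d * ub * (uu * d)⁻¹ = uu * (d * ub * d⁻¹) * uu⁻¹ := by group
      rw [this]; exact uq _ h'
  have s3 : ∀ d : unitary ℍ[F], (d * ua * d⁻¹ = ub ∨ d * ua * d⁻¹ = ub⁻¹) →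
      d * ub * d⁻¹ ∈ Q → uu * (uu * d) ∈ Q := by
    intro d h h'
    refine s2 _ ?_ ?_
    · have : uu * d * ua * (uu * d)⁻¹ = uu * (d * ua * d⁻¹) * uu⁻¹ := by group
      rw [this]
      rcases h with h | h <;> rw [h]
      · exact .inl u_b
      · right
        calc _ = (uu * ub * uu⁻¹)⁻¹ := by group
          _ = _ := by rw [u_b]
    · have : uu * d * ub * (uu * d)⁻¹ = uu * (d * ub * d⁻¹) * uu⁻¹ := by group
      rw [this]; exact uq _ h'
  have sq : (d * ua * d⁻¹) ^ 2 = -1 := by rw [conj_pow, a_sq]; simp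
  have r1 : d ∈ Q → ∃ q ∈ Q, ∃ e : ℕ, d = uu ^ e * q := fun h => ⟨d, h, 0, by simp⟩
  have r2 : uu * d ∈ Q → ∃ q ∈ Q, ∃ e : ℕ, d = uu ^ e * q := fun h =>
    ⟨_, h, 2, by rw [pow_two, ← mul_assoc, u3, one_mul]⟩
  have r3 : uu * (uu * d) ∈ Q → ∃ q ∈ Q, ∃ e : ℕ, d = uu ^ e * q := fun h =>
    ⟨_, h, 1, by rw [pow_one, ← mul_assoc, ← mul_assoc, u3, one_mul]⟩
  rcases q8_of_mem h1 with h | h | h | h | h | h | h | h
  · rw [show d * ua * d⁻¹ = 1 from Subtype.ext h, one_pow] at sq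
    exact absurd sq.symm neg_one_ne
  · rw [show d * ua * d⁻¹ = -1 from Subtype.ext h, neg_one_sq] at sq
    exact absurd sq.symm neg_one_ne
  · exact r1 (s1 d (.inl (Subtype.ext h)) h2)
  · exact r1 (s1 d (.inr (Subtype.ext (by rw [h, coe_inv', coe_ua, sI]))) h2)
  · exact r3 (s3 d (.inl (Subtype.ext h)) h2)
  · exact r3 (s3 d (.inr (Subtype.ext (by rw [h, coe_inv', coe_ub, sJ]))) h2)
  · exact r2 (s2 d (.inl (Subtype.ext (by rw [h]; exact IJ.symm))) h2)
  · exact r2 (s2 d (.inr (Subtype.ext (by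
      rw [h, coe_inv']; show _ = star (qI * qJ); rw [IJ, sK]))) h2)

end CF.Kf.P2
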