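import Cfsg.Agent.Kf.P2b

/-! Monomial matrices in quaternionic unitary groups. -/

set_option autoImplicit false

namespace CF.Kf.P2

open Quaternion Subgroup Matrix Equiv

variable {F : Type*} [Field F] {m : Type*} [Fintype m] [DecidableEq m]

/-- monomial matrices -/
def mm (d : m → unitary ℍ[F]) (σ : Perm m) : Matrix m m ℍ[F] :=
  of fun p q => if p = σ q then (d p : ℍ[F]) else 0

theorem mm_apply (d : m → unitary ℍ[F]) (σ : Perm m) (p q : m) :
    mm d σ p q = if p = σ q then (d p : ℍ[F]) else 0 := rfl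

theorem mul_mm (g : Matrix m m ℍ[F]) (d : m → unitary ℍ[F]) (σ : Perm m) (p q : m) :
    (g * mm d σ) p q = g p (σ q) * d (σ q) := by
  simp [Matrix.mul_apply, mm_apply]

theorem mm_mul (g : Matrix m m ℍ[F]) (d : m → unitary ℍ[F]) (σ : Perm m) (p q : m) :
    (mm d σ * g) p q = d p * g (σ⁻¹ p) q := by
  rw [Matrix.mul_apply, Finset.sum_eq_single (σ⁻¹ p)]
  · simp [mm_apply]
  · intro r _ hr
    rw [mm_apply, if_neg, zero_mul]
    rintro rfl
    simp at hr
  · simp

theorem mm_mm (d e : m → unitary ℍ[F]) (σ ρ : Perm m) :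
    mm d σ * mm e ρ = mm (fun p => d p * e (σ⁻¹ p)) (σ * ρ) := by
  refine Matrix.ext fun p q => ?_
  rw [mm_mul, mm_apply, mm_apply]
  by_cases h : p = σ (ρ q)
  · subst h; simp
  · rw [if_neg, if_neg (by simpa using h), mul_zero]
    intro h'
    exact h (by rw [← h']; simp)

theorem mm_one : mm (1 : m → unitary ℍ[F]) 1 = 1 := by
  refine Matrix.ext fun p q => ?_
  rw [mm_apply, Matrix.one_apply]
  rfl

theorem star_mm (d : m → unitary ℍ[F]) (σ : Perm m) :
    star (mm d σ) = mm (fun p => (d (σ p))⁻¹) σ⁻¹ := by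
  refine Matrix.ext fun p q => ?_
  rw [star_apply, mm_apply, mm_apply]
  by_cases h : q = σ p
  · subst h; simp [coe_inv']
  · rw [if_neg h, if_neg, star_zero]
    rintro rfl
    simp at h

/-- monomial unitary matrices -/
def mon (d : m → unitary ℍ[F]) (σ : Perm m) : unitary (Matrix m m ℍ[F]) :=
  ⟨mm d σ, by
    rw [Unitary.mem_iff, star_mm, mm_mm, mm_mm, ← mm_one]
    constructor <;> congr 1 <;> simp [funext_iff]⟩

@[simp] theorem coe_mon (d : m → unitary ℍ[F]) (σ : Perm m) :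
    (mon d σ : Matrix m m ℍ[F]) = mm d σ := rfl

theorem mon_mul (d e : m → unitary ℍ[F]) (σ ρ : Perm m) :
    mon d σ * mon e ρ = mon (fun p => d p * e (σ⁻¹ p)) (σ * ρ) := Subtype.ext (mm_mm d e σ ρ)

theorem mon_one : mon (1 : m → unitary ℍ[F]) 1 = 1 := Subtype.ext mm_one

theorem mon_inv (d : m → unitary ℍ[F]) (σ : Perm m) :
    (mon d σ)⁻¹ = mon (fun p => (d (σ p))⁻¹) σ⁻¹ := Subtype.ext (star_mm d σ)

theorem neg_mon (d : m → unitary ℍ[F]) (σ : Perm m) : -mon d σ = mon (fun p => -d p) σ := by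
  refine Subtype.ext (Matrix.ext fun p q => ?_)
  simp only [coe_neg', coe_mon, Matrix.neg_apply, mm_apply]
  split_ifs <;> simp

theorem unit_ne (x : unitary ℍ[F]) : (x : ℍ[F]) ≠ 0 := by
  intro h
  have := normSq_unit x
  rw [h] at this
  simp at this

theorem mon_inj {d e : m → unitary ℍ[F]} {σ ρ : Perm m} (h : mon d σ = mon e ρ) :
    d = e ∧ σ = ρ := by
  have k : ∀ p q, mm d σ p q = mm e ρ p q := fun p q =>
    congrFun (congrFun (congrArg Subtype.val h) p) q
  have h1 : σ = ρ := by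
    ext q
    have := k (σ q) q
    rw [mm_apply, mm_apply, if_pos rfl] at this
    by_contra hne
    rw [if_neg hne] at this
    exact unit_ne _ this
  subst h1
  refine ⟨funext fun p => Subtype.ext ?_, rfl⟩
  simpa [mm_apply] using k p (σ⁻¹ p)

/-- diagonal matrices -/
def dg : (m → unitary ℍ[F]) →* unitary (Matrix m m ℍ[F]) where
  toFun d := mon d 1
  map_one' := mon_one
  map_mul' d e := by rw [mon_mul]; rfl

/-- permutation matrices -/
def pm : Perm m →* unitary (Matrix m m ℍ[F]) where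
  toFun σ := mon 1 σ
  map_one' := mon_one
  map_mul' σ ρ := by rw [mon_mul]; simp [funext_iff]; rfl

theorem dg_apply (d : m → unitary ℍ[F]) : dg d = mon d 1 := rfl

theorem pm_apply (σ : Perm m) : pm (F := F) σ = mon 1 σ := rfl

theorem dg_pm (d : m → unitary ℍ[F]) (σ : Perm m) : dg d * pm σ = mon d σ := by
  rw [dg_apply, pm_apply, mon_mul]; simp

theorem conj_single (d : m → unitary ℍ[F]) (σ : Perm m) (k : m) (x : unitary ℍ[F]) :
    mon d σ * dg (Pi.mulSingle k x) * (mon d σ)⁻¹ =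
      dg (Pi.mulSingle (σ k) (d (σ k) * x * (d (σ k))⁻¹)) := by
  rw [mon_inv, dg_apply, dg_apply, mon_mul, mon_mul]
  congr 1
  · funext p
    by_cases h : p = σ k
    · subst h; simp
    · have : σ⁻¹ p ≠ k := by rintro rfl; simp at h
      rw [Pi.mulSingle_eq_of_ne h, Pi.mulSingle_eq_of_ne this]
      simp
  · simp

/-- commuting up to sign -/
def SC {G : Type*} [Mul G] [Neg G] (g x : G) : Prop := g * x = x * g ∨ g * x = -(x * g)

theorem row_ne (g : unitary (Matrix m m ℍ[F])) (p : m) : ∃ q, g.1 p q ≠ 0 := by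
  by_contra h
  push Not at h
  have := congrFun (congrFun g.2.2 p) p
  simp [Matrix.mul_apply, h] at this

variable [h2 : NeZero (2 : F)]

theorem sc_blk {g : unitary (Matrix m m ℍ[F])} {k : m} {x : unitary ℍ[F]} (hx : x ^ 2 = -1)
    (h : SC g (dg (Pi.mulSingle k x))) (p : m) (hp : p ≠ k) : g.1 p k = 0 ∧ g.1 k p = 0 := by
  have h1 : g * dg (Pi.mulSingle k (-1)) = dg (Pi.mulSingle k (-1)) * g := by
    rw [← hx, Pi.mulSingle_pow, map_pow, pow_two]
    rcases h with h | h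
    · rw [← mul_assoc, h, mul_assoc, h, mul_assoc]
    · rw [← mul_assoc, h, neg_mul, mul_assoc, h, mul_neg, neg_neg, mul_assoc]
  have k0 : g.1 * mm (Pi.mulSingle k (-1)) 1 = mm (Pi.mulSingle k (-1)) 1 * g.1 :=
    congrArg Subtype.val h1
  have k1 := fun p q => congrFun (congrFun k0 p) q
  have e1 := k1 p k
  have e2 := k1 k p
  rw [mul_mm, mm_mul] at e1 e2
  simp [Pi.mulSingle_eq_of_ne hp] at e1 e2
  exact ⟨eq_zero_of_neg e1.symm, eq_zero_of_neg e2⟩

theorem sc_pos {g : unitary (Matrix m m ℍ[F])} {k r : m} (hr : r ≠ k) {x : unitary ℍ[F]}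
    (hx : x ^ 2 = -1) (h : SC g (dg (Pi.mulSingle k x))) : g.1 k k * x = x * g.1 k k := by
  rcases id h with h1 | h1
  · have e : (g.1 * mm (Pi.mulSingle k x) 1) k k = (mm (Pi.mulSingle k x) 1 * g.1) k k :=
      congrFun (congrFun (congrArg Subtype.val h1) k) k
    rw [mul_mm, mm_mul] at e
    simpa using e
  · exfalso
    obtain ⟨q, hq⟩ := row_ne g r
    by_cases e : q = k
    · exact hq (e ▸ (sc_blk hx h r hr).1)
    · have e1 : (g.1 * mm (Pi.mulSingle k x) 1) r q = -(mm (Pi.mulSingle k x) 1 * g.1) r q :=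
        congrFun (congrFun (congrArg Subtype.val h1) r) q
      rw [mul_mm, mm_mul] at e1
      simp [Pi.mulSingle_eq_of_ne hr, Pi.mulSingle_eq_of_ne e] at e1
      exact hq (eq_zero_of_neg e1)

theorem norm_diag {g : unitary (Matrix m m ℍ[F])} {k p : m} (h : ∀ q, q ≠ p → g.1 q k = 0) :
    normSq (g.1 p k) = 1 := by
  have := congrFun (congrFun g.2.1 k) k
  rw [Matrix.mul_apply, Finset.sum_eq_single p (fun q _ hq => by rw [h q hq, mul_zero]) (by simp),
    star_apply, star_mul_self, one_apply_eq] at this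
  simpa using congrArg (fun y : ℍ[F] => y.re) this

theorem sc_pm {g : unitary (Matrix m m ℍ[F])} {k r : m} (hr : r ≠ k)
    (ha : SC g (dg (Pi.mulSingle k ua))) (hb : SC g (dg (Pi.mulSingle k ub))) :
    g.1 k k = 1 ∨ g.1 k k = -1 :=
  scal (norm_diag fun q hq => (sc_blk a_sq ha q hq).1) (sc_pos hr a_sq ha) (sc_pos hr b_sq hb)

theorem sc_fix {g : unitary (Matrix m m ℍ[F])} {r : m} (h1 : g.1 r r = 1 ∨ g.1 r r = -1)
    {d : m → unitary ℍ[F]} {σ : Perm m} (hd : d r = 1) (hσ : σ r = r) (h : SC g (mon d σ))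
    (p q : m) : g.1 p (σ q) * d (σ q) = d p * g.1 (σ⁻¹ p) q := by
  rcases h with h | h
  · have e : (g.1 * mm d σ) p q = (mm d σ * g.1) p q := congrFun (congrFun (congrArg Subtype.val h) p) q
    rwa [mul_mm, mm_mul] at e
  · exfalso
    have e : (g.1 * mm d σ) r r = -(mm d σ * g.1) r r :=
      congrFun (congrFun (congrArg Subtype.val h) r) r
    have hσ' : σ⁻¹ r = r := by rw [Perm.inv_eq_iff_eq, hσ]
    rw [mul_mm, mm_mul, hσ, hσ', hd] at e
    simp at e
    have := eq_zero_of_neg e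
    rcases h1 with h1 | h1 <;> simp [h1] at this

theorem eq_dg {g : unitary (Matrix m m ℍ[F])} (h1 : ∀ p q, p ≠ q → g.1 p q = 0)
    (h2 : ∀ p, g.1 p p = 1 ∨ g.1 p p = -1) :
    ∃ d : m → unitary ℍ[F], (∀ p, d p = 1 ∨ d p = -1) ∧ (∀ p, (d p : ℍ[F]) = g.1 p p) ∧ g = dg d := by
  have : ∀ p, ∃ x : unitary ℍ[F], (x = 1 ∨ x = -1) ∧ (x : ℍ[F]) = g.1 p p := fun p =>
    (h2 p).elim (fun h => ⟨1, .inl rfl, h.symm⟩) fun h => ⟨-1, .inr rfl, h.symm⟩
  choose d hd hd' using this
  refine ⟨d, hd, hd', Subtype.ext (Matrix.ext fun p q => ?_)⟩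
  show _ = mm d 1 p q
  rw [mm_apply]
  split_ifs with h
  · rw [hd', h]; rfl
  · exact h1 p q h

theorem cen_dg (h3 : ∀ k l : m, ∃ r, r ≠ k ∧ r ≠ l) {g : unitary (Matrix m m ℍ[F])}
    (ha : ∀ k, SC g (dg (Pi.mulSingle k ua))) (hb : ∀ k, SC g (dg (Pi.mulSingle k ub))) :
    ∃ d : m → unitary ℍ[F], (∀ p, d p = 1 ∨ d p = -1) ∧ (∀ p, (d p : ℍ[F]) = g.1 p p) ∧ g = dg d :=
  eq_dg (fun p q h => (sc_blk a_sq (ha q) p h).1)
    fun p => let ⟨_, hr, _⟩ := h3 p p; sc_pm hr (ha p) (hb p)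

theorem pm_one (h3 : ∀ k l : m, ∃ r, r ≠ k ∧ r ≠ l) {g : unitary (Matrix m m ℍ[F])}
    (ha : ∀ k, SC g (dg (Pi.mulSingle k ua))) (hb : ∀ k, SC g (dg (Pi.mulSingle k ub)))
    (hs : ∀ σ, SC g (pm σ)) : g = 1 ∨ g = -1 := by
  obtain ⟨d, h1, h2, rfl⟩ := cen_dg h3 ha hb
  have e : ∀ k l, d k = d l := by
    intro k l
    obtain ⟨r, r1, r2⟩ := h3 k l
    have := sc_fix (r := r) (by rw [← h2]; rcases h1 r with h | h <;> simp [h]) rfl
      (swap_apply_of_ne_of_ne r1 r2) (hs (swap k l)) k l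
    simp only [swap_apply_right, Pi.one_apply, OneMemClass.coe_one, mul_one, swap_inv,
      swap_apply_left, one_mul, ← h2] at this
    exact Subtype.ext this
  rcases isEmpty_or_nonempty m with hm | ⟨⟨k⟩⟩
  · exact .inl (Subsingleton.elim _ _)
  rcases h1 k with h | h
  · left
    rw [← map_one dg]; congr 1
    exact funext fun p => (e p k).trans h
  · right
    rw [← mon_one, neg_mon, dg_apply]; congr 1
    exact funext fun p => (e p k).trans h

theorem mem_center (h3 : ∀ k l : m, ∃ r, r ≠ k ∧ r ≠ l) {g : unitary (Matrix m m ℍ[F])} :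
    g ∈ center (unitary (Matrix m m ℍ[F])) ↔ g = 1 ∨ g = -1 := by
  constructor
  · intro h
    rw [mem_center_iff] at h
    exact pm_one h3 (fun _ => .inl (h _).symm) (fun _ => .inl (h _).symm) fun _ => .inl (h _).symm
  · rintro (rfl | rfl) <;> simp [mem_center_iff]

theorem col_single {g : unitary (Matrix m m ℍ[F])} {k : m} {d : m → unitary ℍ[F]} {σ : Perm m}
    (hd : ∀ p, Q8 (d p : ℍ[F])) (h : g * dg (Pi.mulSingle k ua) * g⁻¹ = mon d σ) :
    ∃ p, ∀ q, q ≠ p → g.1 q k = 0 := by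
  have key : ∀ p q, mm d σ p q - (1 : Matrix m m ℍ[F]) p q = g.1 p k * (qI - 1) * star (g.1 q k) := by
    intro p q
    have e0 : g.1 * mm (Pi.mulSingle k ua) 1 * star g.1 = mm d σ := congrArg Subtype.val h
    have e1 := congrFun (congrFun e0 p) q
    rw [← e1, ← g.2.2, Matrix.mul_apply, Matrix.mul_apply, ← Finset.sum_sub_distrib,
      Finset.sum_eq_single k]
    · rw [mul_mm]; simp [star_apply, mul_sub, sub_mul]
    · intro r _ hr
      rw [mul_mm]; simp [Pi.mulSingle_eq_of_ne hr]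
    · simp
  have hσ : ∀ q, q = σ q := by
    intro q
    by_contra hq
    have := key q q
    rw [mm_apply, if_neg hq, one_apply_eq, zero_sub] at this
    exact not_diag _ this.symm
  obtain ⟨p, hp⟩ : ∃ p, (d p : ℍ[F]) ≠ 1 := by
    by_contra hn
    push Not at hn
    have h1 : mon d σ = 1 := by
      rw [← mon_one]; congr 1
      · exact funext fun p => Subtype.ext (hn p)
      · exact Equiv.ext fun q => (hσ q).symm
    rw [h1, mul_inv_eq_one, mul_eq_left, ← mon_one, dg_apply] at h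
    have := congrFun (mon_inj h).1 k
    rw [Pi.mulSingle_eq_same] at this
    have h2 := a_sq (F := F)
    rw [this] at h2
    exact neg_one_ne (F := F) (by simpa using h2.symm)
  refine ⟨p, fun q hq => ?_⟩
  have e1 := key p p
  rw [mm_apply, if_pos (hσ p), one_apply_eq] at e1
  have n1 : normSq (g.1 p k) ≠ 0 := by
    intro h0
    apply (hd p).normSq_sub hp
    rw [e1, map_mul, map_mul, h0, zero_mul, zero_mul]
  have e2 := key p q
  rw [mm_apply, ← hσ q, if_neg hq.symm, one_apply_ne hq.symm, sub_zero, mul_assoc] at e2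
  have n2 : normSq ((qI : ℍ[F]) - 1) ≠ 0 :=
    Q8.normSq_sub (.inr (.inr (.inl rfl))) (fun h => by simpa using congrArg (fun y : ℍ[F] => y.re) h)
  exact star_eq_zero.1 (cancel n2 (cancel n1 e2.symm))

theorem eq_mon {g : unitary (Matrix m m ℍ[F])} (h : ∀ k, ∃ p, ∀ q, q ≠ p → g.1 q k = 0) :
    ∃ d σ, g = mon d σ := by
  choose s hs using h
  have n1 : ∀ k, normSq (g.1 (s k) k) = 1 := fun k => norm_diag (hs k)
  have hi : Function.Injective s := by
    intro k l e
    by_contra hne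
    have := congrFun (congrFun g.2.1 k) l
    rw [Matrix.mul_apply, Finset.sum_eq_single (s l) (fun q _ hq => by rw [hs l q hq, mul_zero])
      (by simp), star_apply, one_apply_ne hne] at this
    have h0 := cancel (by rw [normSq_star, ← e, n1]; exact one_ne_zero) this
    have := n1 l
    rw [h0] at this
    simp at this
  let σ : Perm m := Equiv.ofBijective s (Finite.injective_iff_bijective.1 hi)
  have hσ : ∀ k, σ k = s k := fun _ => rfl
  refine ⟨fun p => ⟨g.1 p (σ⁻¹ p), ?_⟩, σ, Subtype.ext (Matrix.ext fun p q => ?_)⟩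
  · have := n1 (σ⁻¹ p)
    rw [← hσ, show σ (σ⁻¹ p) = p by simp] at this
    rw [Unitary.mem_iff, star_mul_self, self_mul_star, this]
    simp
  · rw [coe_mon, mm_apply]
    split_ifs with e
    · subst e; simp
    · exact hs q p e

theorem nrm_mon (hs : ¬ IsSquare (2 : F)) {g : unitary (Matrix m m ℍ[F])}
    (h : ∀ k, ∀ x ∈ closure ({ua, ub} : Set (unitary ℍ[F])), ∃ d σ,
      (∀ p, d p ∈ closure ({ua, ub} : Set (unitary ℍ[F]))) ∧
        g * dg (Pi.mulSingle k x) * g⁻¹ = mon d σ) :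
    ∃ d σ, (∀ p, ∃ q ∈ closure ({ua, ub} : Set (unitary ℍ[F])), ∃ e : ℕ, d p = uu ^ e * q) ∧
      g = mon d σ := by
  obtain ⟨d, σ, rfl⟩ := eq_mon (g := g) fun k =>
    let ⟨_, _, h1, h2⟩ := h k ua a_mem; col_single (fun p => q8_of_mem (h1 p)) h2
  refine ⟨d, σ, fun p => ?_, rfl⟩
  have k : ∀ x ∈ closure ({ua, ub} : Set (unitary ℍ[F])),
      d p * x * (d p)⁻¹ ∈ closure ({ua, ub} : Set (unitary ℍ[F])) := by
    intro x hx
    obtain ⟨e, ρ, h1, h2⟩ := h (σ⁻¹ p) x hx
    rw [conj_single, show σ (σ⁻¹ p) = p by simp, dg_apply] at h2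
    have := congrFun (mon_inj h2).1 p
    rw [Pi.mulSingle_eq_same] at this
    rw [this]; exact h1 p
  exact norm_Q hs (k _ a_mem) (k _ b_mem)

end CF.Kf.P2
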