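import Cfsg.Agent.Kf.A

/-! A frame of quaternion groups permuted by a symmetric group: definitions. -/

set_option autoImplicit false

namespace CF.Kf

open Subgroup Equiv
open scoped commutatorElement

variable {L Y : Type*} [Group L] [Group Y] {n : ℕ}

/-- The product of the quaternion groups with index in `J`. -/
def RQ (ι : Fin (n + 3) → L →* Y) (a b : L) (J : Set (Fin (n + 3))) : Subgroup Y :=
  ⨆ k ∈ J, (closure {a, b}).map (ι k)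

/-- An extraspecial group of order 32 times the remaining quaternion groups. -/
def RX (ι : Fin (n + 3) → L →* Y) (τ : Perm (Fin (n + 3)) →* Y) (a b : L) : Subgroup Y :=
  closure {ι 0 a * ι 1 a, ι 0 b * ι 1 b, ι 0 (a ^ 2), τ (swap 0 1)} ⊔ RQ ι a b {0, 1}ᶜ

/-- The local structure of `PSp (2 * n + 6) q` for `q ≡ ± 3 mod 8`. -/
structure PD (ι : Fin (n + 3) → L →* Y) (τ : Perm (Fin (n + 3)) →* Y) (a b u : L) (g₀ g₁ : Y) :
    Prop where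
  a4 : a ^ 4 = 1
  a2 : a ^ 2 ≠ 1
  ab : a ^ 2 = b ^ 2
  ba : b * a * b⁻¹ = a⁻¹
  u3 : u ^ 3 = 1
  ua : u * a * u⁻¹ = b
  ub : u * b * u⁻¹ = a * b
  inj : ∀ k, Function.Injective (ι k)
  comm : ∀ k l, k ≠ l → ∀ x y, Commute (ι k x) (ι l y)
  perm : ∀ σ k x, τ σ * ι k x * (τ σ)⁻¹ = ι (σ k) x
  zz : ∀ s ∈ RQ ι a b Set.univ, (∀ k, Commute s (ι k a) ∧ Commute s (ι k b)) →
    (∀ σ, Commute s (τ σ)) → s = 1
  syl : ∀ P : Sylow 2 (Perm (Fin (n + 3))), Sy2 (RQ ι a b Set.univ ⊔ (P : Subgroup _).map τ)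
  nrm : ∀ P : Sylow 2 (Perm (Fin (n + 3))),
    normalizer ((RQ ι a b Set.univ ⊔ (P : Subgroup _).map τ : Subgroup Y) : Set Y) ≤
      RQ ι a b Set.univ ⊔ closure (Set.range fun k => ι k u) ⊔ τ.range
  cen : centralizer (RQ ι a b Set.univ : Set Y) ≤ RQ ι a b Set.univ
  cen' : centralizer (RX ι τ a b : Set Y) ≤ RX ι τ a b
  g0 : g₀ * ι 1 (a ^ 2) * g₀⁻¹ = τ (swap 0 1)
  g0' : Commute g₀ (ι 2 (a ^ 2))
  g1 : g₁ ∈ normalizer (RX ι τ a b : Set Y)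
  g1' : g₁ ^ 4 = 1
  g1'' : ((ι 0 u * ι 1 u) ^ 2)⁻¹ * ⁅ι 0 u * ι 1 u, g₁⁆ ∈ RX ι τ a b

end CF.Kf
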