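import Cfsg.Agent.Kf.SC0
import Cfsg.Agent.Known.Inv.Sp.Co2

set_option autoImplicit false
set_option maxRecDepth 1000000

namespace CF.Kf.SC.Co2

open CF.Comp CF.Fisch CF.Bt CF.KI CF.KI.Co2 CF.Leech
open scoped Pointwise

noncomputable def st : List (List Nat × List Nat × List Nat) := [([17, 19, 16, 22, 10, 13, 5, 10, 22, 1, 17], [1], [1, 3, 11, 19, 31, 35]), ([24, 19, 18, 14, 19, 13, 11, 16, 14, 6, 24, 17, 4, 17, 14, 18, 12, 19, 1, 5, 21, 6, 18, 12, 14, 17, 20, 21], [3, 1], [11, 17]), ([27, 31, 37, 41, 47, 49, 53, 57, 59, 20, 24, 17, 20, 16, 12, 16, 20, 8, 9, 20, 17, 1, 11, 13, 18, 3, 18, 23, 5, 13, 15, 12, 14, 20, 13, 17, 20, 23], [1], [1, 7, 9, 11, 15, 19, 23, 25, 31, 35]), ([41, 24, 22, 17, 24, 13, 11, 15, 20, 5, 20, 22, 1, 19, 13, 18, 3, 18, 23, 5, 13, 15, 12, 14, 20, 13, 17, 20, 23], [3], [11, 17, 19, 21, 27, 31, 33]), ([27, 29, 24, 20, 20, 14, 19, 19, 10, 11, 6, 10, 11, 17, 4, 9, 22, 6], [9], [9, 13, 19,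 29]), ([25, 27, 19, 22, 11, 14, 12, 5, 9, 2, 13, 9, 20, 2, 21, 19, 6, 19, 16, 12, 14, 23, 18, 21, 23, 41], [3], [1, 5, 13, 17, 21, 23, 33])]
noncomputable def fn : List (List Nat) := [[9, 11, 3, 7, 11, 9], [5, 1, 11, 7, 5, 3, 5, 1], [9, 11, 7, 3, 1, 9, 5, 11, 5], [5, 1, 11, 3, 5, 7, 11, 7, 3, 1], [11, 7, 5, 7, 11, 9, 1, 3, 1], [13, 7, 3, 1, 9, 3, 1, 7], [7, 5, 3, 9, 1, 7, 3, 5, 1], [5, 1, 7, 11, 1, 5, 11, 7], [3, 7, 11, 9, 11, 1, 3, 7, 1], [11, 1, 5, 1, 3, 9, 11, 3], [3, 5, 11, 3, 1, 5, 11, 1], [5, 9, 7, 1, 9, 5, 7, 1], [1, 5, 7, 1, 7, 5], [13, 9, 3, 9, 3], [7, 9, 5, 3, 9, 5, 3, 7], [7, 9, 7, 5, 7, 9, 7, 5], [13, 9, 1, 9, 1], [13]]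
noncomputable def ts : List (List Nat) := [[64, 33, 45, 63], [62, 63, 33, 64, 61], [], [35, 57], [62, 62, 64, 37, 41, 63, 61, 61], [62, 33, 61], [], []]

theorem z1 : zOK e gs Y18 a0 = true := by decide +kernel
theorem z2 : Bt.scOK e gs st fn [a0] = true := by decide +kernel
theorem z3 : twoOK e a0 (2 ^ 3) (cgens a0c) ts = true := by decide +kernel

theorem kf {K : Type*} [Group K] (φ : K ≃* Cfsg.Spor.Co2) : KF K := by
  obtain ⟨hE, -⟩ := Bt.Exact.fresh aExact (by decide) (fun w _ => ev_mem (slp_mem aMem Dat.aW (llen Dat.aY)) w) h1 (m := 2) rfl h2 (card_stab_32 nm_U) h3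
  have hf := slp_mem (Bt.evs_mem (ws := ws) (fun w _ => ev_mem (slp_mem aMem Dat.aW (llen Dat.aY)) w)) W 2
  replace hE := Bt.exact_sub_top hE hf
  have := Bt.Exact.finite_top hE
  have he := isSm_eqM hE.reps (by decide) (Exact.based hE fun _ => trivial) e1 e2 e3
  have hS := cenS_of hE he rfl s1 s2 s3
  have h := stS he hS (Cl.zero _) l0
  replace h := stS he hS h l1
  replace h := stS he hS h l2
  replace h := stS he hS h l3
  replace h := stS he hS h l4
  replace h := stS he hS h l5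
  replace h := stS he hS h l6
  replace h := stS he hS h l7
  replace h := stS he hS h l8
  replace h := stS he hS h l9
  replace h := stS he hS h l10
  replace h := stS he hS h l11
  replace h := stS he hS h l12
  replace h := stS he hS h l13
  replace h := stS he hS h l14
  replace h := stS he hS h l15
  replace h := stS he hS h l16
  replace h := stS he hS h l17
  have hb := bs he hS (by decide) h z1 z2
  exact kf_fs hS (fs_q he hb (KI.cent_exact hE he (by decide) (by decide) a01 a02 a03).1 a04 a06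
    (cent_eq hE he (by decide) (by decide) a07 a09 a00) a08 z3) (m := 161382375) ((card_stab_32 nm_U).trans (by decide +kernel)) (by norm_num) (φ.trans Co2Equiv.symm)

end CF.Kf.SC.Co2
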