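import Cfsg.Agent.Kf.SC0
import Cfsg.Agent.Known.Inv.Sp.He

set_option autoImplicit false
set_option maxRecDepth 1000000

namespace CF.Kf.SC.He

open CF.Comp CF.Fisch CF.Bt CF.KI CF.KI.He

noncomputable def st : List (List Nat × List Nat × List Nat) := [([14, 8, 11, 14, 9, 1, 5, 2], [1], [1, 3, 11, 19]), ([29, 14, 12, 10, 6, 8, 2, 12, 17], [3], [5, 15, 17, 19]), ([27, 16, 17, 10, 10, 6, 11, 5, 2, 16, 1], [5], [1, 7, 11, 17, 19]), ([29, 10, 18, 11, 5, 11, 11, 3, 6, 6, 9], [7], [1, 3, 7, 9, 13, 17]), ([10, 18, 11, 6, 10, 10, 4, 5, 7], [9], [1, 7, 19])]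
noncomputable def fn : List (List Nat) := [[11, 7, 9, 1, 3], [11, 1, 3, 5, 1], [5, 3, 5, 3], [3, 1, 9, 7, 1], [7, 9, 5, 9, 1], [11, 7, 5, 7, 1], [5, 3, 5, 1, 3, 1], [5, 7, 3, 5, 3], [11, 7, 5, 7, 5], [11]]
noncomputable def ts : List (List Nat) := [[23], [39, 42, 39, 23, 33, 40, 41, 40], [], [], [], []]

theorem z1 : zOK e gs Y10 a0 = true := by decide +kernel
theorem z2 : Bt.scOK e gs st fn [a0] = true := by decide +kernel
theorem z3 : twoOK e a0 (2 ^ 2) (cgens a0c) ts = true := by decide +kernel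

theorem kf {K : Type*} [Group K] (φ : K ≃* Cfsg.Spor.He) : KF K := by
  obtain ⟨hE, -⟩ := Bt.Exact.fresh He.exact (by decide) (fun _ _ => trivial) h1 (m := 2) rfl h2 (Subgroup.card_top.trans He.card) h3
  have := Bt.Exact.finite_top hE
  have he := isSm_eqM hE.reps (by decide) (Exact.based hE fun _ => trivial) e1 e2 e3
  have hS := cenS_of hE he rfl s1 s2 s3
  have h := stS he hS (Cl.zero _) l0
  replace h := stS he hS h l1
  replace h := stS he hS h l2
  replace h := stS he hS h l3
  replace h := stS he hS h l4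
  replace h := stS he hS h l5
  replace h := stS he hS h l6
  replace h := stS he hS h l7
  replace h := stS he hS h l8
  replace h := stS he hS h l9
  have hb := bs he hS (by decide) h z1 z2
  exact kf_fs hS (fs_q he hb (KI.cent_exact hE he (by decide) (by decide) a01 a02 a03).1 a04 a06
    (cent_eq hE he (by decide) (by decide) a07 a09 a00) a08 z3) (m := 3935925) (He.card.trans (by decide +kernel)) (by norm_num) φ

end CF.Kf.SC.He
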