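import Cfsg.Agent.Kf.SC0
import Cfsg.Agent.Known.Inv.Sp.Ru
import Cfsg.Agent.Comp.Ru.Main

set_option autoImplicit false
set_option maxRecDepth 1000000

namespace CF.Kf.SC.Ru

open CF.Comp CF.Fisch CF.Bt CF.KI CF.KI.Ru

noncomputable def st : List (List Nat × List Nat × List Nat) := [([19, 16, 11, 15, 14, 11, 8, 10, 1, 5, 11, 2], [1], [9, 11, 13, 17, 21, 27]), ([29, 13, 11, 9, 14, 6, 6, 14, 5, 2, 5, 13, 3], [3], [1, 9, 15, 23, 25]), ([21, 11, 15, 10, 11, 13, 7, 9, 7, 2, 3, 7, 5], [5], [7, 11, 13, 21, 25, 27]), ([16, 11, 16, 9, 12, 7, 6, 10, 6, 2, 13, 2, 4], [7], [1, 3, 7, 11, 15, 19, 23])]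
noncomputable def fn : List (List Nat) := [[5, 3, 5, 3, 1, 7, 1, 5], [7, 1, 5, 7, 1, 5, 3, 1, 5], [9, 7, 5, 3, 1, 5, 7, 3, 1], [7, 1, 3, 1, 5, 7, 5, 7], [9, 1, 7, 3, 7, 5, 7, 5, 3, 1], [9, 1, 7, 3, 5, 3, 7, 5, 1], [1, 7, 1, 5, 3, 5, 7, 3], [1, 3, 5, 3, 5, 3, 7, 1, 3], [3, 5, 3, 5, 1, 5, 3, 5, 3, 1], [1, 5, 1, 7, 3, 7, 3, 1, 5, 1], [3, 1, 3, 1, 3, 1, 3, 1], [7, 1, 5, 7, 1, 7, 1, 5, 7, 1], [7, 5, 7, 5, 7, 5, 7, 5], [9]]
noncomputable def ts : List (List Nat) := [[], [17, 25], [], [], [], []]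

theorem z1 : zOK e gs Y14 a0 = true := by decide +kernel
theorem z2 : Bt.scOK e gs st fn [a0] = true := by decide +kernel
theorem z3 : twoOK e a0 (2 ^ 2) (cgens a0c) ts = true := by decide +kernel

theorem kf {K : Type*} [Group K] (φ : K ≃* Cfsg.Spor.Ru) : KF K := by
  obtain ⟨hE, -⟩ := Bt.Exact.fresh Ru.exact (by decide) (fun _ _ => trivial) h1 (m := 2) rfl h2 (Subgroup.card_top.trans Ru.card) h3
  have := Bt.Exact.finite_top hE
  have he := isSm_eqM hE.reps (by decide) (Exact.based hE fun _ => trivial) e1 e2 e3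
  have hS := cenS_of hE he rfl s1 s2 s3
  have h := stS he hS (Cl.zero _) l0
  replace h := stS he hS h l1
  replace h := stS he hS h l2
  replace h := stS he hS h l3
  replace h := stS he hS h l4
  replace h := stS he hS h l5
  replace h := stS he hS h l6
  replace h := stS he hS h l7
  replace h := stS he hS h l8
  replace h := stS he hS h l9
  replace h := stS he hS h l10
  replace h := stS he hS h l11
  replace h := stS he hS h l12
  replace h := stS he hS h l13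
  have hb := bs he hS (by decide) h z1 z2
  exact kf_fs hS (fs_q he hb (KI.cent_exact hE he (by decide) (by decide) a01 a02 a03).1 a04 a06
    (cent_eq hE he (by decide) (by decide) a07 a09 a00) a08 z3) (m := 8906625) (Ru.card.trans (by decide +kernel)) (by norm_num) (φ.trans CF.Comp.Ru.eqv)

end CF.Kf.SC.Ru
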