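import Cfsg.Agent.Kf.SC0
import Cfsg.Agent.Known.Inv.Sp.Suz

set_option autoImplicit false
set_option maxRecDepth 1000000

namespace CF.Kf.SC.Suz

open CF.Comp CF.Fisch CF.Bt CF.KI CF.KI.Suz

noncomputable def st : List (List Nat × List Nat × List Nat) := [([31, 16, 14, 18, 14, 9, 11, 5, 14, 14, 1, 15, 12], [1], [1, 13, 15, 17, 19, 23, 25]), ([23, 31, 43], [1], [1, 7, 9, 13, 19, 23, 25]), ([17, 13, 15, 13, 10, 18, 15, 6, 17, 9, 2, 16, 13], [5], [13, 23]), ([21, 29, 33, 35, 43], [3], [1, 9, 13, 15, 17, 21, 25]), ([33, 37, 43, 18, 15, 15, 14, 16, 12, 16, 6, 15, 8, 11, 3, 9, 2, 10, 16, 7, 9, 17, 9, 13, 16, 14, 15], [5, 7, 3, 7, 3, 1], [1, 5, 17, 21, 23]), ([37, 17, 15, 15, 13, 12, 13, 12, 6, 7, 11, 2, 7, 12, 6, 4, 12, 7, 16, 5, 15, 11, 15, 13, 16, 16, 17, 33, 37, 43], [1], [1, 3, 5, 7, 13, 15, 17, 25])]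
noncomputable def fn : List (List Nat) := [[13, 11, 3, 5, 7, 5, 3], [11, 9, 7, 9, 11, 1, 3], [13, 3, 9, 7], [11, 5, 9, 1, 5, 1], [5, 11, 3, 1, 3, 1], [5, 3, 9, 1, 11, 5, 3, 1], [7, 11, 3, 9, 3], [13, 5, 1, 11, 1], [5, 9, 3, 1, 9, 5, 3, 1], [5, 11, 1, 11, 5, 1], [7, 1, 7, 1], [11, 3, 9, 3], [13]]
noncomputable def ts : List (List Nat) := [[27, 41], [23, 37], [48, 21, 47], [45, 47, 45, 47, 25, 48, 46, 48, 46], [45, 25, 41, 46], [47, 27, 48]]

theorem z1 : zOK e gs Y13 a0 = true := by decide +kernel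
theorem z2 : Bt.scOK e gs st fn [a0] = true := by decide +kernel
theorem z3 : twoOK e a0 (2 ^ 2) (cgens a0c) ts = true := by decide +kernel

theorem kf {K : Type*} [Group K] (φ : K ≃* Cfsg.Spor.Suz) : KF K := by
  obtain ⟨hE, -⟩ := Bt.Exact.fresh Suz.exact (by decide) (fun _ _ => trivial) h1 (m := 2) rfl h2 (Subgroup.card_top.trans Suz.card) h3
  have := Bt.Exact.finite_top hE
  have he := isSm_eqM hE.reps (by decide) (Exact.based hE fun _ => trivial) e1 e2 e3
  have hS := cenS_of hE he rfl s1 s2 s3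
  have h := stS he hS (Cl.zero _) l0
  replace h := stS he hS h l1
  replace h := stS he hS h l2
  replace h := stS he hS h l3
  replace h := stS he hS h l4
  replace h := stS he hS h l5
  replace h := stS he hS h l6
  replace h := stS he hS h l7
  replace h := stS he hS h l8
  replace h := stS he hS h l9
  replace h := stS he hS h l10
  replace h := stS he hS h l11
  replace h := stS he hS h l12
  have hb := bs he hS (by decide) h z1 z2
  exact kf_fs hS (fs_q he hb (KI.cent_exact hE he (by decide) (by decide) a01 a02 a03).1 a04 a06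
    (cent_eq hE he (by decide) (by decide) a07 a09 a00) a08 z3) (m := 54729675) (Suz.card.trans (by decide +kernel)) (by norm_num) φ

end CF.Kf.SC.Suz
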