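import Cfsg.Agent.Kf.SCHS
import Cfsg.Agent.Kf.SCSuz
import Cfsg.Agent.Kf.SCHe
import Cfsg.Agent.Kf.SCRu
import Cfsg.Agent.Kf.SCCo3
import Cfsg.Agent.Kf.SCCo2

/-! The two-fusion systems of HS, Suz, He, Ru, Co3, Co2 are simple. -/

set_option autoImplicit false
set_option linter.unusedSectionVars false

namespace CF.Kf

open Cfsg

variable {Y : Type*} [Group Y] [Finite Y] [IsSimpleGroup Y] (na : ¬ IsMulCommutative Y)
include na

theorem kf_HS (h : Spor.IsoHS Y) : KF Y := h.elim SC.HS.kf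
theorem kf_Suz (h : Spor.IsoSuz Y) : KF Y := h.elim SC.Suz.kf
theorem kf_He (h : Spor.IsoHe Y) : KF Y := h.elim SC.He.kf
theorem kf_Ru (h : Spor.IsoRu Y) : KF Y := h.elim SC.Ru.kf
theorem kf_Co3 (h : Spor.IsoCo3 Y) : KF Y := h.elim SC.Co3.kf
theorem kf_Co2 (h : Spor.IsoCo2 Y) : KF Y := h.elim SC.Co2.kf

end CF.Kf
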