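import Cfsg.Agent.Kf.A
import Cfsg.Agent.Bt.Fus
import Cfsg.Agent.Known.Inv.Cert

/-! Simplicity of two-fusion systems from the certificates for involution centralizers. -/

set_option autoImplicit false

namespace CF.Kf.SC

open CF.Comp CF.Fisch Cfsg Subgroup

variable {G : Type*} [Group G] {f : ℕ → G} {e : Sm} {gs Y : List (List ℕ)} {a v : List ℕ}

theorem stS [Finite G] (h : IsSm f e) (hS : CenS f 2 gs) {i : ℕ} {X : List (List ℕ)}
    (hC : Cl f 2 gs (clo f gs) i Y) {Es : List Ent} (hE : bnd (blt i (llen gs))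
      (allFrom (entAt e 2 gs gs i Y X Es) 0 (llen Y)) = true) : Cl f 2 gs (clo f gs) (i + 1) X :=
  hC.step h hS (llen_eq gs ▸ blt_iff.1 (brec_and.1 hE).1) le_rfl (le_inf le_rfl (hS.nrm _))
    (llen_eq Y).symm (allFrom_zero.1 (brec_and.1 hE).2)

theorem reps (hC : Cl f 2 gs (clo f gs) gs.length Y) {y : G} (hy : y ∈ clo f gs) (h2 : y ^ 2 = 1) :
    ∃ c ∈ clo f gs, ∃ x ∈ Y, ev f (subst gs x) = c * y * c⁻¹ := by
  obtain ⟨c, hc, x, hx, hm⟩ := hC y hy h2
  rw [tl_len le_rfl, mem_bot, inv_mul_eq_one] at hm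
  exact ⟨c, hc, x, hx, hm⟩

/-- `a` is the only central involution -/
noncomputable def zOK (e : Sm) (gs Y : List (List ℕ)) (a : List ℕ) : Bool :=
  lall (fun y => (fun w => Bool.rec (Bool.rec (Bool.rec true false (comOK e gs [w])) true (e w a)) true (e w []))
    (subst gs y)) Y

theorem z_spec (he : IsSm f e) (hC : Cl f 2 gs (clo f gs) gs.length Y) (h : zOK e gs Y a = true) {y : G}
    (hy : y ∈ clo f gs) (h2 : y ^ 2 = 1) (hc : ∀ s ∈ clo f gs, s * y = y * s) : y = 1 ∨ y = ev f a := by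
  obtain ⟨c, h1, x, hx, k⟩ := reps hC hy h2
  rw [hc c h1, mul_inv_cancel_right] at k
  rcases Bt.or_of_rec (lall_iff.1 h x hx) with k1 | k1
  · exact .inl (k ▸ he.one k1)
  rcases Bt.or_of_rec k1 with k1 | k1
  · exact .inr (k ▸ he.eq k1)
  · have : comOK e gs [subst gs x] = true := lall_iff.2 fun s hs => lall_iff.2 fun w hw => (he _ _).2 (by
      rw [List.mem_singleton.1 hw, ev_lapp, ev_lapp, k, hc _ (ev_mem_clo f hs)])
    rw [this] at k1
    exact absurd k1 (by decide)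

theorem exists_inv [Finite G] {S T : Subgroup G} (hS : IsPGroup 2 S) (hT : T ≤ S)
    (h : ∀ x ∈ T, ∀ g ∈ S, g * x * g⁻¹ ∈ T) (h0 : T ≠ ⊥) :
    ∃ y ∈ T, y ≠ 1 ∧ y ^ 2 = 1 ∧ ∀ s ∈ S, s * y = y * s := by
  obtain ⟨y, h1, h2, h3⟩ := Bt.exists_central hS hT h h0
  obtain ⟨k, hk⟩ := IsPGroup.iff_orderOf.1 hS ⟨y, hT h1⟩
  rw [orderOf_mk] at hk
  obtain rfl | ⟨k, rfl⟩ := k.eq_zero_or_eq_succ_pred.imp id fun e => (⟨_, e⟩ : ∃ j, k = j + 1)
  · exact absurd (orderOf_eq_one_iff.1 hk) h2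
  · refine ⟨y ^ 2 ^ k, pow_mem h1 _, pow_ne_one_of_lt_orderOf (by positivity) ?_, ?_,
      fun s hs => (Commute.pow_right (h3 s hs) _).eq⟩
    · rw [hk]; exact Nat.pow_lt_pow_right one_lt_two k.lt_succ_self
    · rw [← pow_mul, ← pow_succ, ← hk, pow_orderOf_eq_one]

/-- the common part -/
structure Bs (S : Subgroup G) (z : G) : Prop where
  pg : IsPGroup 2 S
  mem : z ∈ S
  ne : z ≠ 1
  sq : z ^ 2 = 1
  nz : normalizer (S : Set G) ≤ centralizer {z}
  sc : ∀ T ≤ S, (∀ x ∈ T, ∀ g : G, g * x * g⁻¹ ∈ S → g * x * g⁻¹ ∈ T) → T = ⊥ ∨ T = S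

theorem bs [Finite G] (he : IsSm f e) (hS : CenS f 2 gs) (h0 : gs ≠ []) (hC : Cl f 2 gs (clo f gs) gs.length Y)
    (h : zOK e gs Y a = true) {st : List (List ℕ × List ℕ × List ℕ)} {fin : List (List ℕ)}
    (h1 : Bt.scOK e gs st fin [a] = true) : Bs (clo f gs) (ev f a) := by
  have hp : IsPGroup 2 (clo f gs) := .of_card hS.card0
  have hc : ∀ T ≤ clo f gs, (∀ x ∈ T, ∀ g ∈ clo f gs, g * x * g⁻¹ ∈ T) → T ≠ ⊥ →
      ev f a ∈ T ∧ ev f a ≠ 1 ∧ ev f a ^ 2 = 1 ∧ ∀ s ∈ clo f gs, s * ev f a = ev f a * s := fun T hT k k0 => by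
    obtain ⟨y, a1, a2, a3, a4⟩ := exists_inv hp hT k k0
    obtain rfl := (z_spec he hC h (hT a1) a3 a4).resolve_left a2
    exact ⟨a1, a2, a3, a4⟩
  obtain ⟨b1, b2, b3, b4⟩ := hc _ le_rfl (fun x hx g hg => mul_mem (mul_mem hg hx) (inv_mem hg)) fun k => by
    have := hS.card0
    rw [k, card_bot, eq_comm, Nat.pow_eq_one] at this
    simp [h0] at this
  refine ⟨hp, b1, b2, b3, fun g hg => ?_, fun T hT k => or_iff_not_imp_left.2 fun k0 => ?_⟩
  · rw [mem_centralizer_singleton_iff]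
    rcases z_spec he hC h ((mem_normalizer_iff.1 hg _).1 b1) (by rw [conj_pow, b3]; simp) (fun s hs => by
      have := b4 _ ((mem_normalizer_iff''.1 hg s).1 hs)
      calc s * (g * ev f a * g⁻¹) = g * (g⁻¹ * s * g * ev f a) * g⁻¹ := by group
        _ = g * ev f a * g⁻¹ * s := by rw [this]; group) with k | k
    · exact absurd (by simpa using k) b2
    · exact mul_inv_eq_iff_eq_mul.1 k
  · refine le_antisymm hT (Bt.Eqv.sc (fun _ _ => he.eq) h1 k fun w hw => ?_)
    rw [List.mem_singleton.1 hw]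
    exact (hc T hT (fun x hx g hg => k x hx g (mul_mem (mul_mem hg (hT hx)) (inv_mem hg))) k0).1

theorem Bs.ne_bot {S : Subgroup G} {z : G} (h : Bs S z) : S ≠ ⊥ := fun k => h.ne (mem_bot.1 (k ▸ h.mem))

theorem ord_two {x : G} {k : ℕ} (h : x ^ 2 ^ k = 1) : ∃ j : ℕ, orderOf x = 2 ^ j :=
  let ⟨j, _, hj⟩ := (Nat.dvd_prime_pow Nat.prime_two).1 (orderOf_dvd_of_pow_eq_one h); ⟨j, hj⟩

/-- the words are products of two elements of order dividing `n` that commute with `a` -/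
noncomputable def twoOK (e : Sm) (a : List ℕ) (n : ℕ) (ws us : List (List ℕ)) : Bool :=
  lall2 (fun w u => bnd (e (lapp u a) (lapp a u)) (bnd (e (wpow u n) []) (e (wpow (lapp (winv u) w) n) []))) ws us

variable {Ω : Type*} [MulAction G Ω] {n : ℕ} {D : Dom Ω n} {N : List Net} {c : List Lvl}

theorem cent_eq (hE : Exact D N f c ⊤) (he : IsSm f e) (h0 : 0 < n) {k : ℕ} (hk : n ≤ 2 ^ k)
    {qs fw kg : List (List ℕ)} {T : Bt.Tr} {m : ℕ} (q4 : Bt.stdS N n k c qs qs [] [] fw kg T m = true)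
    {cz : List Lvl} (q6 : comOK e (cgens cz) qs = true) (q7 : Bt.geOK N n cz m = true) :
    centralizer (clo f qs : Set G) ≤ clo f (cgens cz) :=
  haveI := Bt.Exact.finite_top hE
  (Bt.exact_of_ge hE.reps hE.lt (clo_le.1 (he.com_le q6)) (Bt.card_cent_clo_le hE h0 hk
    (Bt.std_of_S q4)) q7).eq_clo.ge

theorem fs_q [Finite G] (he : IsSm f e) (h : Bs (clo f gs) (ev f a)) {cs qs us zs ws ts : List (List ℕ)}
    (hC : clo f cs = centralizer {ev f a}) (q1 : memOK e gs qs us = true) {vs : List (List (List ℕ))}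
    (q3 : nrmOK e cs qs vs = true) (q4 : centralizer (clo f qs : Set G) ≤ clo f zs)
    (q5 : memOK e qs zs ws = true) {k : ℕ} (q6 : twoOK e a (2 ^ k) cs ts = true) : Bt.FS 2 (clo f gs) := by
  have h9 := hC.ge.trans (he.nrm q3)
  refine ⟨h.ne_bot, h.sc, _, he.le q1, le_normalizer.trans (h.nz.trans h9), q4.trans (he.le q5),
    h.nz.trans (hC.ge.trans (clo_le.2 fun w hw => ?_))⟩
  obtain ⟨u, -, k1⟩ := lall2_left q6 hw
  obtain ⟨k1, k2⟩ := brec_and.1 k1
  obtain ⟨k2, k3⟩ := brec_and.1 k2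
  have m1 : ev f u ∈ centralizer {ev f a} := mem_centralizer_singleton_iff.2 (he.comm k1).eq
  have k4 := he.one k2
  have k5 := he.one k3
  rw [ev_wpow] at k4
  rw [ev_wpow, ev_lapp, ev_winv] at k5
  rw [← mul_inv_cancel_left (ev f u) (ev f w)]
  exact mul_mem (subset_closure ⟨h9 m1, ord_two k4⟩)
    (subset_closure ⟨h9 (mul_mem (inv_mem m1) (hC.le (ev_mem_clo f hw))), ord_two k5⟩)

/-- `s` maps `w` to `w` or to `w a` -/
noncomputable def fxB (e : Sm) (a w s : List ℕ) : Bool :=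
  Bool.rec (e (lapp s w) (lapp (lapp w a) s)) true (e (lapp s w) (lapp w s))

/-- `v` is the only class of involutions in the second centre -/
noncomputable def vOK (e : Sm) (gs Y : List (List ℕ)) (a v : List ℕ) : Bool :=
  bnd (lall (fxB e a v) gs) (lall (fun y => (fun w => Bool.rec (Bool.rec (Bool.rec
    (Bool.rec true false (lall (fxB e a w) gs)) true (e w v)) true (e w a)) true (e w [])) (subst gs y)) Y)

theorem fxB_iff (he : IsSm f e) {w s : List ℕ} : fxB e a w s = true ↔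
    ev f s * ev f w * (ev f s)⁻¹ = ev f w ∨ ev f s * ev f w * (ev f s)⁻¹ = ev f w * ev f a := by
  rw [mul_inv_eq_iff_eq_mul, mul_inv_eq_iff_eq_mul, ← ev_lapp, ← ev_lapp, ← ev_lapp, ← ev_lapp, ← he, ← he, fxB]
  cases e (lapp s w) (lapp w s) <;> simp

theorem fs_v [Finite G] (he : IsSm f e) (h : Bs (clo f gs) (ev f a)) (hC : Cl f 2 gs (clo f gs) gs.length Y)
    (h1 : vOK e gs Y a (subst gs v) = true) (h2 : ordOK e 2 (subst gs v) = true) (h3 : e (subst gs v) a = false)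
    {zs ts : List (List ℕ)} (h4 : centralizer (clo f [a, subst gs v] : Set G) ≤ clo f zs)
    {tb : List (List (ℕ × List ℕ))} {nn : List (List ℕ × List ℕ × ℕ × ℕ)}
    (h5 : Bt.snOK e (fun u w => Bool.rec true false (e u w)) 2 (lapp gs zs) gs ts tb nn = true) :
    Bt.FS 2 (clo f gs) := by
  have k : normalizer (clo f gs : Set G) ≤ clo f gs := by
    refine Bt.self_norm (fun _ _ => he.eq) (fun u w k => he.ne (by revert k; cases e u w <;> simp)) h.pg h5
      fun g hg => ?_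
    obtain ⟨a1, a2⟩ := brec_and.1 h1
    have o := he.ord Nat.prime_two h2
    have ne := he.ne h3
    have vm : ev f (subst gs v) ∈ clo f gs := ev_subst_mem_clo _ _ _
    set z := ev f a
    set x := ev f (subst gs v)
    have zz : z * z = 1 := by rw [← sq, h.sq]
    let H : Subgroup G := subgroupOfIdempotent {s | s * z * s⁻¹ = z ∧ (s * x * s⁻¹ = x ∨ s * x * s⁻¹ = x * z)}
      ⟨1, by simp⟩ (Set.Subset.antisymm (by
        rintro _ ⟨s, ⟨b1, b2⟩, t, ⟨b3, b4⟩, rfl⟩
        have e1 : ∀ y, s * t * y * (s * t)⁻¹ = s * (t * y * t⁻¹) * s⁻¹ := fun y => by group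
        have e2 : s * (x * z) * s⁻¹ = s * x * s⁻¹ * z := by rw [← conj_mul, b1]
        refine ⟨by rw [e1, b3, b1], ?_⟩
        rw [e1]
        rcases b4 with b4 | b4 <;> rw [b4]
        · exact b2
        · rw [e2]
          exact b2.symm.imp (fun b => by rw [b, mul_assoc, zz, mul_one]) fun b => by rw [b])
        fun s hs => ⟨s, hs, 1, by simp, mul_one s⟩)
    have cz : ∀ s ∈ normalizer (clo f gs : Set G), s * z * s⁻¹ = z := fun s hs =>
      mul_inv_eq_iff_eq_mul.2 (mem_centralizer_singleton_iff.1 (h.nz hs))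
    have hH : clo f gs ≤ H := clo_le.2 fun s hs =>
      ⟨cz _ (le_normalizer (ev_mem_clo f hs)), (fxB_iff he).1 (lall_iff.1 a1 s hs)⟩
    obtain ⟨c, b1, y, hy, b2⟩ := reps hC ((mem_normalizer_iff.1 hg _).1 vm) (by
      rw [conj_pow, ← o, pow_orderOf_eq_one]; simp)
    have hd : c * g ∈ normalizer (clo f gs : Set G) := mul_mem (le_normalizer b1) hg
    have b3 : ev f (subst gs y) = c * g * x * (c * g)⁻¹ := by rw [b2]; group
    have b4 := cz _ hd
    rcases Bt.or_of_rec (lall_iff.1 a2 y hy) with k1 | k1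
    · rw [he.one k1, eq_comm, conj_eq_one_iff] at b3
      simp [b3] at o
    rcases Bt.or_of_rec k1 with k1 | k1
    · exact absurd (by simpa using (he.eq k1).symm.trans b3 |>.symm.trans b4.symm) ne
    rcases Bt.or_of_rec k1 with k1 | k1
    · have : c * g ∈ centralizer (clo f [a, subst gs v] : Set G) := by
        rw [clo, centralizer_closure]
        rintro _ ⟨w, hw, rfl⟩
        rcases List.mem_pair.1 hw with rfl | rfl
        · exact (mul_inv_eq_iff_eq_mul.1 b4).symm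
        · exact (mul_inv_eq_iff_eq_mul.1 (b3.symm.trans (he.eq k1))).symm
      rw [clo_lapp, ← inv_mul_cancel_left c g]
      exact mul_mem (mem_sup_left (inv_mem b1)) (mem_sup_right (h4 this))
    · have : lall (fxB e a (subst gs y)) gs = true := lall_iff.2 fun s hs => (fxB_iff he).2 (by
        have e1 : ev f s * ev f (subst gs y) * (ev f s)⁻¹ =
            c * g * (((c * g)⁻¹ * ev f s * (c * g)) * x * ((c * g)⁻¹ * ev f s * (c * g))⁻¹) * (c * g)⁻¹ := by
          rw [b3]; group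
        rw [e1]
        exact (hH ((mem_normalizer_iff''.1 hd _).1 (ev_mem_clo f hs))).2.imp (fun b => by rw [b, b3])
          fun b => by rw [b, b3, ← conj_mul, b4])
      rw [this] at k1
      exact absurd k1 (by decide)
  refine ⟨h.ne_bot, h.sc, _, le_rfl, le_normalizer, (centralizer_le_normalizer _).trans k,
    k.trans fun x hx => subset_closure ⟨le_normalizer hx, ?_⟩⟩
  obtain ⟨j, hj⟩ := IsPGroup.iff_orderOf.1 h.pg ⟨x, hx⟩
  exact ⟨j, by rw [← hj, orderOf_mk]⟩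

theorem kf_fs [Finite G] {K : Type*} [Group K] (hS : CenS f 2 gs) (h : Bt.FS 2 (clo f gs)) {m : ℕ}
    (hc : Nat.card G = 2 ^ gs.length * m) (hm : ¬ 2 ∣ m) (e : K ≃* G) : KF K :=
  fun S => .inr (h.simple_all hS.card0 hc hm e S)

end CF.Kf.SC
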