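import Cfsg.Agent.Kf.SC0
import Cfsg.Agent.Known.Inv.Sp.HS

set_option autoImplicit false
set_option maxRecDepth 1000000

namespace CF.Kf.SC.HS

open CF.Comp CF.Fisch CF.Bt CF.KI CF.KI.HS CF.Leech
open scoped Pointwise

noncomputable def st : List (List Nat × List Nat × List Nat) := [([17, 13, 16, 14, 9, 12, 2, 13], [1], [9]), ([18, 14, 18, 13, 9, 8, 12, 1, 13], [3], [1, 3, 7, 11, 15]), ([17, 16, 14, 9, 8, 9, 2, 16, 7], [5], [7]), ([21], [1], [7, 11, 15]), ([17, 15, 17, 11, 11, 8, 4, 14, 5, 3, 17, 3, 12, 7, 10, 11, 9, 14, 31, 35], [7, 3, 5, 1], [3, 9, 13])]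
noncomputable def fn : List (List Nat) := [[5, 7, 1], [1, 7, 5, 7, 3], [7, 3, 9, 1, 7, 3, 1], [5], [9], [9, 1, 9, 1], [7, 5, 7, 9, 3], [7, 9, 5, 7, 3], [11]]
noncomputable def ts : List (List Nat) := [[], [19, 21], [], [39, 37, 23, 38, 40], [], [], []]

theorem z1 : zOK e gs Y9 a0 = true := by decide +kernel
theorem z2 : Bt.scOK e gs st fn [a0] = true := by decide +kernel
theorem z3 : twoOK e a0 (2 ^ 3) (cgens a0c) ts = true := by decide +kernel

theorem kf {K : Type*} [Group K] (φ : K ≃* Cfsg.Spor.HS) : KF K := by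
  obtain ⟨hE, -⟩ := Bt.Exact.fresh hExact (by decide) (fun w _ => ev_mem (slp_mem cMem hW (llen Dat.cY)) w) h1 (m := 2) rfl h2 (card_HS) h3
  have hf := slp_mem (Bt.evs_mem (ws := ws) (fun w _ => ev_mem (slp_mem cMem hW (llen Dat.cY)) w)) W 2
  replace hE := Bt.exact_sub_top hE hf
  have := Bt.Exact.finite_top hE
  have he := isSm_eqM hE.reps (by decide) (Exact.based hE fun _ => trivial) e1 e2 e3
  have hS := cenS_of hE he rfl s1 s2 s3
  have h := stS he hS (Cl.zero _) l0
  replace h := stS he hS h l1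
  replace h := stS he hS h l2
  replace h := stS he hS h l3
  replace h := stS he hS h l4
  replace h := stS he hS h l5
  replace h := stS he hS h l6
  replace h := stS he hS h l7
  replace h := stS he hS h l8
  have hb := bs he hS (by decide) h z1 z2
  exact kf_fs hS (fs_q he hb (KI.cent_exact hE he (by decide) (by decide) a01 a02 a03).1 a04 a06
    (cent_eq hE he (by decide) (by decide) a07 a09 a00) a08 z3) (m := 86625) (card_HS.trans (by decide +kernel)) (by norm_num) (φ.trans HSEquiv.symm)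

end CF.Kf.SC.HS
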